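import Mathlib

/-!
Fixed points of two commuting elements of order three, and the splitting of an elementary abelian
2-group by them.
-/

set_option autoImplicit false
set_option linter.style.haveILetI false

namespace CfsgLib.SThreeSSix

/-- Orbit counting for two commuting permutations of order dividing three. -/
theorem nine_dvd_fixed {X : Type*} [Finite X] (a b : Equiv.Perm X) (ha : a ^ 3 = 1)
    (hb : b ^ 3 = 1) (hab : a * b = b * a) :
    9 ∣ Nat.card X + 2 * (Nat.card {x // a x = x} + Nat.card {x // b x = x} +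
      Nat.card {x // (a * b) x = x} + Nat.card {x // (a * b⁻¹) x = x}) := by
  classical
  haveI := Fintype.ofFinite X
  let fa : Multiplicative (ZMod 3) →* Equiv.Perm X :=
    { toFun := fun n => a ^ (Multiplicative.toAdd n).val
      map_one' := by simp
      map_mul' := fun n m => by
        rw [← pow_add, toAdd_mul, ZMod.val_add, ← pow_mod_orderOf]
        conv_rhs => rw [← pow_mod_orderOf]
        congr 1
        have hd : orderOf a ∣ 3 := orderOf_dvd_of_pow_eq_one ha
        exact Nat.mod_mod_of_dvd _ hd }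
  let fb : Multiplicative (ZMod 3) →* Equiv.Perm X :=
    { toFun := fun n => b ^ (Multiplicative.toAdd n).val
      map_one' := by simp
      map_mul' := fun n m => by
        rw [← pow_add, toAdd_mul, ZMod.val_add, ← pow_mod_orderOf]
        conv_rhs => rw [← pow_mod_orderOf]
        congr 1
        have hd : orderOf b ∣ 3 := orderOf_dvd_of_pow_eq_one hb
        exact Nat.mod_mod_of_dvd _ hd }
  let F : Multiplicative (ZMod 3) × Multiplicative (ZMod 3) →* Equiv.Perm X :=
    MonoidHom.noncommCoprod fa fb fun n m => (Commute.pow_pow hab _ _)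
  letI : MulAction (Multiplicative (ZMod 3) × Multiplicative (ZMod 3)) X :=
    MulAction.compHom X F
  have hB := MulAction.sum_card_fixedBy_eq_card_orbits_mul_card_group
    (Multiplicative (ZMod 3) × Multiplicative (ZMod 3)) X
  have key : ∀ i j : ZMod 3, Fintype.card (MulAction.fixedBy X
      ((Multiplicative.ofAdd i, Multiplicative.ofAdd j) :
        Multiplicative (ZMod 3) × Multiplicative (ZMod 3))) =
      Nat.card {x // (a ^ i.val * b ^ j.val) x = x} := fun i j => by
    rw [← Nat.card_eq_fintype_card]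
    exact Nat.card_congr (Equiv.subtypeEquivRight fun x => Iff.rfl)
  have hfix : ∀ p : Equiv.Perm X,
      Nat.card {x // p⁻¹ x = x} = Nat.card {x // p x = x} := fun p =>
    Nat.card_congr (Equiv.subtypeEquivRight fun x => by
      constructor <;> intro e
      · conv_lhs => rw [← e]
        simp
      · conv_lhs => rw [← e]
        simp)
  have ha2 : a ^ 2 = a⁻¹ := eq_inv_of_mul_eq_one_left (by rw [← pow_succ]; exact ha)
  have hb2 : b ^ 2 = b⁻¹ := eq_inv_of_mul_eq_one_left (by rw [← pow_succ]; exact hb)
  refine ⟨Fintype.card (Quotient (MulAction.orbitRel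
    (Multiplicative (ZMod 3) × Multiplicative (ZMod 3)) X)), ?_⟩
  rw [show (9 : ℕ) = Fintype.card (Multiplicative (ZMod 3) × Multiplicative (ZMod 3)) by rfl,
    mul_comm (Fintype.card (Multiplicative (ZMod 3) × Multiplicative (ZMod 3))), ← hB,
    Fintype.sum_prod_type]
  have e3 : ∀ f : Multiplicative (ZMod 3) → ℕ, ∑ n, f n =
      f (Multiplicative.ofAdd 0) + f (Multiplicative.ofAdd 1) + f (Multiplicative.ofAdd 2) :=
    fun f => by
      rw [← Multiplicative.ofAdd.sum_comp]
      exact Fin.sum_univ_three _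
  simp only [e3, key]
  have v0 : (0 : ZMod 3).val = 0 := rfl
  have v1 : (1 : ZMod 3).val = 1 := rfl
  have v2 : (2 : ZMod 3).val = 2 := rfl
  have hinv : a⁻¹ * b⁻¹ = (a * b)⁻¹ := by rw [mul_inv_rev]; exact (Commute.inv_inv hab).eq
  have hinv2 : a⁻¹ * b = (a * b⁻¹)⁻¹ := by
    rw [mul_inv_rev, inv_inv]
    exact (Commute.inv_left hab).eq
  simp only [v0, v1, v2, pow_zero, pow_one, ha2, hb2, one_mul, mul_one, hfix, hinv, hinv2]
  have h1 : Nat.card {x // (1 : Equiv.Perm X) x = x} = Nat.card X :=
    Nat.card_congr (Equiv.subtypeUnivEquiv fun _ => rfl)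
  rw [h1]
  ring

/-- The splitting by a fixed-point-free element `c` and a commuting element `y` of order three. -/
theorem card_split {W : Type*} [CommGroup W] [Finite W] (hsq : ∀ w : W, w * w = 1)
    (c y : W ≃* W) (hc : ∀ w, c (c (c w)) = w) (hy : ∀ w, y (y (y w)) = w)
    (hyc : ∀ w, y (c w) = c (y w)) (hfree : ∀ w, w * c w * c (c w) = 1) :
    Nat.card W = Nat.card {w // y w = w} *
      (Nat.card {w // c (y w) = w} * Nat.card {w // c (c (y w)) = w}) := by
  have hzero : ∀ w, c w = w → w = 1 := fun w e => by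
    have := hfree w
    rw [e, e, hsq, one_mul] at this
    exact this
  have key : ∀ a b d : W, y a = a → c (y b) = b → c (c (y d)) = d →
      a * b * d = 1 → a = 1 ∧ b = 1 ∧ d = 1 := by
    intro a b d ha hb hd e
    have hyb : y b = c (c b) := by
      conv_rhs => rw [← hb]
      rw [hc]
    have hyd : y d = c d := by
      conv_rhs => rw [← hd]
      rw [hc]
    have e1 : a * c (c b) * c d = 1 := by
      have := congrArg y e
      rwa [map_mul, map_mul, map_one, ha, hyb, hyd] at this
    have e2 : a * c b * c (c d) = 1 := by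
      have := congrArg y e1
      rwa [map_mul, map_mul, map_one, ha, hyc, hyc, hyb, hyc, hyd, hc] at this
    have ha1 : a = 1 := by
      have h3 : (a * b * d) * (a * c (c b) * c d) * (a * c b * c (c d)) = 1 := by
        rw [e, e1, e2]; simp
      have hr : (a * b * d) * (a * c (c b) * c d) * (a * c b * c (c d)) =
          a * (a * a) * (b * c b * c (c b)) * (d * c d * c (c d)) := by ac_rfl
      rw [hr, hfree, hfree, hsq] at h3
      simpa using h3
    rw [ha1, one_mul] at e e1
    have hdb : d = b := by
      rw [eq_inv_of_mul_eq_one_right e, inv_eq_of_mul_eq_one_right (hsq b)]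
    subst hdb
    have h' : c (c d) = c d := by
      rw [eq_inv_of_mul_eq_one_left e1, inv_eq_of_mul_eq_one_right (hsq (c d))]
    have hb1 : d = 1 := hzero d (c.injective h')
    exact ⟨ha1, hb1, hb1⟩
  rw [← Nat.card_prod, ← Nat.card_prod]
  symm
  refine Nat.card_congr (Equiv.ofBijective
    (fun p : {w // y w = w} × {w // c (y w) = w} × {w // c (c (y w)) = w} =>
      (p.1.1 * p.2.1.1 * p.2.2.1 : W)) ⟨?_, ?_⟩)
  · rintro ⟨⟨a, ha⟩, ⟨b, hb⟩, ⟨d, hd⟩⟩ ⟨⟨a', ha'⟩, ⟨b', hb'⟩, ⟨d', hd'⟩⟩ e
    simp only at e
    have hh : (a * a') * (b * b') * (d * d') = 1 := by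
      calc (a * a') * (b * b') * (d * d') = (a * b * d) * (a' * b' * d') := by ac_rfl
        _ = 1 := by rw [e]; exact hsq _
    obtain ⟨h1, h2, h3⟩ := key _ _ _ (by rw [map_mul, ha, ha'])
      (by rw [map_mul, map_mul, hb, hb']) (by rw [map_mul, map_mul, map_mul, hd, hd']) hh
    have ee : ∀ u v : W, u * v = 1 → u = v := fun u v h => by
      rw [eq_inv_of_mul_eq_one_left h, inv_eq_of_mul_eq_one_right (hsq v)]
    simp [ee _ _ h1, ee _ _ h2, ee _ _ h3]
  · intro w
    refine ⟨(⟨w * y w * y (y w), ?_⟩, ⟨w * c (y w) * c (c (y (y w))), ?_⟩,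
      ⟨w * c (c (y w)) * c (y (y w)), ?_⟩), ?_⟩
    · simp only [map_mul, hy]
      simp [mul_comm, mul_left_comm]
    · simp only [map_mul, hy, hyc, hc]
      simp [mul_comm, mul_left_comm]
    · simp only [map_mul, hy, hyc, hc]
      simp [mul_comm, mul_left_comm]
    · simp only
      calc w * y w * y (y w) * (w * c (y w) * c (c (y (y w)))) *
            (w * c (c (y w)) * c (y (y w)))
          = w * (w * w) * (y w * c (y w) * c (c (y w))) *
            (y (y w) * c (y (y w)) * c (c (y (y w)))) := by ac_rfl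
        _ = w := by rw [hsq, hfree, hfree]; simp

end CfsgLib.SThreeSSix
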