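import Cfsg.Agent.Lib.SThreeSSix.Module

/-!
Coordinates `V × V` from the normalised action, and the position of the vector of a conjugate.
-/

set_option autoImplicit false
set_option maxRecDepth 100000
set_option synthInstance.maxSize 2000
set_option synthInstance.maxHeartbeats 400000
set_option linter.unusedSectionVars false
set_option linter.style.haveILetI false

namespace CfsgLib.SThreeSSix

open Equiv

/-- A permutation sending `4, 5` to `a, b`. -/
def gp (a b : Fin 6) : P6 := swap (swap 4 a 5) b * swap 4 a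

theorem gp_spec : ∀ a b : Fin 6, a ≠ b → gp a b 4 = a ∧ gp a b 5 = b := by decide +kernel

theorem exists_vs_pr : ∀ t : Vs, t = v0 ∨ ∃ a b : Fin 6, a ≠ b ∧ t = pr a b := by decide +kernel

theorem actG_of_even {g : P6} (hg : Perm.sign g = 1) (m : Vec) : actG g m = actEven g m := by
  simp [actG, (evenB_iff g).2 hg]

theorem actG_of_odd {g : P6} (hg : Perm.sign g = -1) (m : Vec) : actG g m = actOdd g m := by
  have : evenB g = false := by
    cases h : evenB g
    · rfl
    · rw [(evenB_iff g).1 h] at hg; exact absurd hg (by decide)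
  simp [actG, this]

/-- Coordinates for the action. -/
structure Coords {W : Type*} [CommGroup W] (P : Pair W) where
  Φ : Vec → W
  bij : Function.Bijective Φ
  map_add : ∀ m n, Φ (wadd m n) = Φ m * Φ n
  map_c : ∀ m, Φ (actC m) = P.c (Φ m)
  map_g : ∀ g m, Φ (actG g m) = P.sigma g (Φ m)

namespace Pair

variable {W : Type*} [CommGroup W] (P : Pair W) [Finite W] (hN : P.Normal) (hF : P.Full)
include P hN hF

theorem sigma_mul' (g h : P6) (w : W) : P.sigma (g * h) w = P.sigma g (P.sigma h w) := by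
  rw [hF.mul]; rfl

/-- The base vector fixed by the whole stabiliser of a pair of points. -/
theorem exists_base {f1 f2 : P6} {w : W} (L : LineData P f1 f2 w) :
    ∃ u : W, u ≠ 1 ∧ ∀ g : P6, ((g 4 = 4 ∧ g 5 = 5) ∨ (g 4 = 5 ∧ g 5 = 4)) → P.sigma g u = u := by
  have hm := P.sigma_mul' hN hF
  obtain ⟨g0, hg1, hg2⟩ := P.exists_fA_conj hN L
  set w' := P.sigma g0⁻¹ w with hw'
  have hw : P.sigma g0 w' = w := by rw [hw', ← hm, mul_inv_cancel, P.sigma_one]
  have hinj := (P.sigma g0).injective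
  have tr : ∀ a f : P6, g0 * a = f * g0 → P.sigma f w = w → P.sigma a w' = w' := by
    intro a f e hf
    apply hinj
    rw [← hm, e, hm, hw, hf]
  have hf12 : P.sigma (f1 * f2) w = w := by rw [hm, L.fix2, L.fix1]
  have hA : P.sigma fA w' = w' := tr fA f1 hg1 L.fix1
  have hB : P.sigma fB w' = w' := by
    rcases hg2 with e | e
    · exact tr fB f2 e L.fix2
    · refine tr fB (f1 * f2) ?_ hf12
      rw [show fB = fA * (fA * fB) by decide +kernel, ← mul_assoc g0, hg1, mul_assoc f1, e, mul_assoc]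
  have hmoved : P.c w' ≠ w' := by
    intro e
    apply L.moved
    rcases Int.units_eq_one_or (Perm.sign g0) with h | h
    · conv_lhs => rw [← hw, ← P.comm_even _ _ h, e]
      exact hw
    · have e2 : P.c (P.c (P.sigma g0 w')) = P.sigma g0 w' := by rw [← hF.odd _ _ h, e]
      rw [hw] at e2
      conv_lhs => rw [← e2, P.c_cube]
  -- the line data of the standard four-group
  have hflip : ∀ a f : P6, g0 * a = f * g0 → ∀ x y, P.sigma f x = y →
      P.sigma a (P.sigma g0⁻¹ x) = P.sigma g0⁻¹ y := by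
    intro a f e x y hxy
    apply hinj
    rw [← hm, e, hm, ← hm g0, mul_inv_cancel, P.sigma_one, hxy, ← hm, mul_inv_cancel, P.sigma_one]
  have L' : LineData P fA (g0⁻¹ * f2 * g0) w' := by
    have e2 : g0 * (g0⁻¹ * f2 * g0) = f2 * g0 := by group
    have hf2 : g0⁻¹ * f2 * g0 = fB ∨ g0⁻¹ * f2 * g0 = fA * fB := by
      rcases hg2 with e | e
      · exact Or.inl (by rw [mul_assoc, ← e]; group)
      · exact Or.inr (by rw [mul_assoc, ← e]; group)
    refine ⟨by decide +kernel, ?_, by decide +kernel, ?_, by decide +kernel, ?_, ?_, ?_, hA,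
      tr _ f2 e2 L.fix2, hmoved, ?_, ?_⟩
    · rcases hf2 with e | e <;> rw [e] <;> decide +kernel
    · rcases hf2 with e | e <;> rw [e] <;> decide +kernel
    · rcases hf2 with e | e <;> rw [e] <;> decide +kernel
    · rcases hf2 with e | e <;> rw [e] <;> decide +kernel
    · rcases hf2 with e | e <;> rw [e] <;> decide +kernel
    · obtain ⟨x, hx⟩ := L.flip
      exact ⟨P.sigma g0⁻¹ x, by rw [hflip fA f1 hg1 x _ hx, map_mul]⟩
    · obtain ⟨x, hx1, hx2⟩ := L.kern
      exact ⟨P.sigma g0⁻¹ x, hflip fA f1 hg1 x x hx1, by rw [hflip _ f2 e2 x _ hx2, map_mul]⟩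
  have hB' : ∀ u, P.sigma fA u = u → P.sigma fB u = u →
      u = 1 ∨ u = w' ∨ u = P.c w' ∨ u = P.c (P.c w') := by
    intro u h1 h2
    refine P.fixed_of_line hN L' h1 ?_
    rcases hg2 with e | e
    · rwa [show g0⁻¹ * f2 * g0 = fB by rw [mul_assoc, ← e]; group]
    · rw [show g0⁻¹ * f2 * g0 = fA * fB by rw [mul_assoc, ← e]; group, hm, h2, h1]
  -- the vector fixed by the transposition
  set t := swap (4 : Fin 6) 5 with ht
  have htodd : Perm.sign t = -1 := by decide +kernel
  have htt : ∀ x, P.sigma t (P.sigma t x) = x := fun x => by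
    rw [← hm, ht, swap_mul_self, P.sigma_one]
  have hcinv : ∀ x, P.sigma t (P.c x) = P.c (P.c (P.sigma t x)) := fun x => hF.odd t x htodd
  obtain ⟨u, hu, hut⟩ : ∃ u, (u = w' ∨ u = P.c w' ∨ u = P.c (P.c w')) ∧ P.sigma t u = u := by
    have h1 : P.sigma fA (P.sigma t w') = P.sigma t w' := by
      rw [← hm, show fA * t = t * fA by decide +kernel, hm, hA]
    have h2 : P.sigma fB (P.sigma t w') = P.sigma t w' := by
      rw [← hm, show fB * t = t * fB by decide +kernel, hm, hB]
    rcases hB' _ h1 h2 with e | e | e | e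
    · exfalso
      have : w' = 1 := (P.sigma t).injective (e.trans (map_one _).symm)
      exact hmoved (by rw [this, map_one])
    · exact ⟨w', Or.inl rfl, e⟩
    · exact ⟨P.c (P.c w'), Or.inr (Or.inr rfl), by rw [hcinv, hcinv, P.c_cube, e]⟩
    · exact ⟨P.c w', Or.inr (Or.inl rfl), by rw [hcinv, e, P.c_cube]⟩
  have hfix : ∀ g : P6, Perm.sign g = 1 → g * g = 1 →
      (g * fA = fA * g ∨ g * fA = fB * g ∨ g * fA = fA * fB * g) →
      (g * fB = fB * g ∨ g * fB = fA * g ∨ g * fB = fA * fB * g) → P.sigma g u = u := by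
    intro g hg hgg e1 e2
    have hw'' : P.sigma g w' = w' := by
      have Ls : LineData P fA fB w' := by
        rcases hg2 with e | e
        · rwa [show g0⁻¹ * f2 * g0 = fB by rw [mul_assoc, ← e]; group] at L'
        · have e3 : g0⁻¹ * f2 * g0 = fA * fB := by rw [mul_assoc, ← e]; group
          rw [e3] at L'
          refine ⟨L'.even1, by decide +kernel, L'.inv1, by decide +kernel, L'.ne1,
            by decide +kernel, by decide +kernel, by decide +kernel, hA, hB, hmoved, L'.flip, ?_⟩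
          obtain ⟨x, hx1, hx2⟩ := L'.kern
          refine ⟨x, hx1, ?_⟩
          rw [show fB = fA * (fA * fB) by decide +kernel, hm, hx2, map_mul, hx1, hA]
      exact P.four_elements_fixed hN hg hgg Ls e1 e2
    rcases hu with rfl | rfl | rfl
    · exact hw''
    · rw [P.comm_even _ _ hg, hw'']
    · rw [P.comm_even _ _ hg, P.comm_even _ _ hg, hw'']
  have hu1 : u ≠ 1 := by
    have hw1 : w' ≠ 1 := fun e => hmoved (by rw [e, map_one])
    rcases hu with rfl | rfl | rfl
    · exact hw1
    · exact fun e => hw1 (P.c.injective (e.trans (map_one _).symm))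
    · exact fun e => hw1 (P.c.injective (P.c.injective
        (e.trans (by rw [map_one, map_one]))))
  have hsw : ∀ a b : Fin 6, a < 4 → b < 4 → P.sigma (swap a b) u = u := by
    have hx : P.sigma (swap (0 : Fin 6) 1 * t) u = u :=
      hfix _ (by decide +kernel) (by decide +kernel) (by decide +kernel) (by decide +kernel)
    have hy : P.sigma (swap (1 : Fin 6) 2 * t) u = u :=
      hfix _ (by decide +kernel) (by decide +kernel) (by decide +kernel) (by decide +kernel)
    have hz : P.sigma (swap (2 : Fin 6) 3 * t) u = u :=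
      hfix _ (by decide +kernel) (by decide +kernel) (by decide +kernel) (by decide +kernel)
    rw [hm, hut] at hx hy hz
    have h02 : P.sigma (swap (0 : Fin 6) 2) u = u := by
      rw [show swap (0 : Fin 6) 2 = swap 0 1 * swap 1 2 * swap 0 1 by decide +kernel, hm, hm, hx,
        hy, hx]
    have h13 : P.sigma (swap (1 : Fin 6) 3) u = u := by
      rw [show swap (1 : Fin 6) 3 = swap 1 2 * swap 2 3 * swap 1 2 by decide +kernel, hm, hm, hy,
        hz, hy]
    have h03 : P.sigma (swap (0 : Fin 6) 3) u = u := by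
      rw [show swap (0 : Fin 6) 3 = swap 0 1 * swap 1 3 * swap 0 1 by decide +kernel, hm, hm, hx,
        h13, hx]
    have cases4 : ∀ a b : Fin 6, a < 4 → b < 4 → swap a b ∈
        [1, swap 0 1, swap 1 2, swap 2 3, swap 0 2, swap 1 3, swap 0 3] := by decide +kernel
    intro a b ha hb
    have hmem := cases4 a b ha hb
    simp only [List.mem_cons, List.not_mem_nil, or_false] at hmem
    rcases hmem with e | e | e | e | e | e | e <;> rw [e]
    exacts [P.sigma_one u, hx, hy, hz, h02, h13, h03]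
  refine ⟨u, hu1, fun g hg => ?_⟩
  obtain ⟨h0, h1, h2, h3⟩ := stab_decomp g hg
  set g1 := swap 0 (g 0) * g
  set g2 := swap 1 (g1 1) * g1
  set g3 := swap 2 (g2 2) * g2
  have hg3 : P.sigma g3 u = u := by
    rcases h3 with e | e <;> rw [e]
    · exact P.sigma_one u
    · exact hut
  have eg : g = swap 0 (g 0) * (swap 1 (g1 1) * (swap 2 (g2 2) * g3)) := by
    simp only [g3, g2, g1, swap_mul_self_mul]
  rw [eg, hm, hm, hm, hg3, hsw 2 _ (by decide) h2, hsw 1 _ (by decide) h1,
    hsw 0 _ (by decide) h0]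

theorem exists_coords {f1 f2 : P6} {w : W} (L : LineData P f1 f2 w) : Nonempty (Coords P) := by
  classical
  have hm := P.sigma_mul' hN hF
  obtain ⟨u, hu1, hu⟩ := P.exists_base hN hF L
  let v : Fin 6 → Fin 6 → W := fun a b => P.sigma (gp a b) u
  have v_eq : ∀ (g : P6) (a b : Fin 6), a ≠ b →
      ((g 4 = a ∧ g 5 = b) ∨ (g 4 = b ∧ g 5 = a)) → P.sigma g u = v a b := by
    intro g a b hab hg
    obtain ⟨h4, h5⟩ := gp_spec a b hab
    have hs : P.sigma ((gp a b)⁻¹ * g) u = u := hu _ (by
      rcases hg with ⟨e1, e2⟩ | ⟨e1, e2⟩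
      · left
        simp only [Perm.mul_apply, e1, e2]
        exact ⟨Perm.inv_eq_iff_eq.2 h4.symm, Perm.inv_eq_iff_eq.2 h5.symm⟩
      · right
        simp only [Perm.mul_apply, e1, e2]
        exact ⟨Perm.inv_eq_iff_eq.2 h5.symm, Perm.inv_eq_iff_eq.2 h4.symm⟩)
    calc P.sigma g u = P.sigma (gp a b * ((gp a b)⁻¹ * g)) u := by rw [mul_inv_cancel_left]
      _ = _ := by rw [hm, hs]
  have v_symm : ∀ a b, a ≠ b → v a b = v b a := fun a b hab =>
    v_eq _ b a hab.symm (Or.inr (gp_spec a b hab))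
  have v_act : ∀ (g : P6) (a b : Fin 6), a ≠ b → P.sigma g (v a b) = v (g a) (g b) := by
    intro g a b hab
    simp only [v, ← hm]
    refine v_eq _ _ _ (g.injective.ne hab) (Or.inl ?_)
    obtain ⟨h4, h5⟩ := gp_spec a b hab
    simp [Perm.mul_apply, h4, h5]
  have v_ne : ∀ a b, v a b ≠ 1 := fun a b e =>
    hu1 ((P.sigma (gp a b)).injective (e.trans (map_one _).symm))
  have tri0 : v 0 1 * v 1 2 * v 2 0 = 1 := by
    apply hN.fpf
    rw [map_mul, map_mul, v_act _ _ _ (by decide), v_act _ _ _ (by decide),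
      v_act _ _ _ (by decide), show yAB 0 = 1 by decide +kernel, show yAB 1 = 2 by decide +kernel,
      show yAB 2 = 0 by decide +kernel]
    ac_rfl
  have tri : ∀ a b : Fin 6, a ≠ 0 → b ≠ 0 → a ≠ b → v a b = v 0 a * v 0 b := by
    intro a b ha hb hab
    let g : P6 := swap (swap 1 a 2) b * swap 1 a
    have hg : g 0 = 0 ∧ g 1 = a ∧ g 2 = b := by
      have H : ∀ a b : Fin 6, a ≠ 0 → b ≠ 0 → a ≠ b →
          (swap (swap 1 a 2) b * swap 1 a : P6) 0 = 0 ∧
          (swap (swap 1 a 2) b * swap 1 a : P6) 1 = a ∧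
          (swap (swap 1 a 2) b * swap 1 a : P6) 2 = b := by decide +kernel
      exact H a b ha hb hab
    have := congrArg (P.sigma g) tri0
    rw [map_mul, map_mul, map_one, v_act _ _ _ (by decide), v_act _ _ _ (by decide),
      v_act _ _ _ (by decide), hg.1, hg.2.1, hg.2.2, v_symm b 0 hb] at this
    refine P.eq_of_mul_eq_one ?_
    rw [← this]; ac_rfl
  have v05 : v 0 5 = v 0 1 * v 0 2 * v 0 3 * v 0 4 := by
    have hmatch : v 0 1 * v 2 3 * v 4 5 = 1 := by
      obtain ⟨k, hk⟩ := exists_conj_yAB (swap 0 2 * swap 1 3 * (swap 2 4 * swap 3 5))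
        (by decide +kernel) (by decide +kernel)
      have key : ∀ x, P.sigma (swap 0 2 * swap 1 3 * (swap 2 4 * swap 3 5)) x = x → x = 1 := by
        intro x hx
        apply (P.sigma k⁻¹).injective
        rw [map_one]
        apply hN.fpf
        rw [← hm, show yAB * k⁻¹ = k⁻¹ * (swap 0 2 * swap 1 3 * (swap 2 4 * swap 3 5)) by
          rw [eq_inv_mul_iff_mul_eq, ← mul_assoc, hk, mul_inv_cancel_right], hm, hx]
      apply key
      have vals : ∀ x : Fin 6, (swap 0 2 * swap 1 3 * (swap 2 4 * swap 3 5) : P6) x =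
          ![2, 3, 4, 5, 0, 1] x ∨ (swap 0 2 * swap 1 3 * (swap 2 4 * swap 3 5) : P6) x =
          ![4, 5, 0, 1, 2, 3] x := by decide +kernel
      rw [map_mul, map_mul, v_act _ _ _ (by decide), v_act _ _ _ (by decide),
        v_act _ _ _ (by decide)]
      simp only [Perm.mul_apply, swap_apply_left, swap_apply_right, swap_apply_of_ne_of_ne,
        ne_eq, not_false_eq_true, Fin.reduceEq]
      ac_rfl
    rw [tri 2 3 (by decide) (by decide) (by decide), tri 4 5 (by decide) (by decide) (by decide)]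
      at hmatch
    refine P.eq_of_mul_eq_one ?_
    rw [← hmatch]; ac_rfl
  let φ : Vs → W
    | (a, b, c, d) => (if a then v 0 1 else 1) * (if b then v 0 2 else 1) *
        (if c then v 0 3 else 1) * (if d then v 0 4 else 1)
  have hbool : ∀ (a b : Bool) (x : W),
      (if xor a b then x else 1) = (if a then x else 1) * (if b then x else 1) := by
    intro a b x; cases a <;> cases b <;> simp [P.sq]
  have φ_add : ∀ s t, φ (vadd s t) = φ s * φ t := by
    rintro ⟨a, b, c, d⟩ ⟨a', b', c', d'⟩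
    simp only [φ, vadd, hbool]; ac_rfl
  have φ_v0 : φ v0 = 1 := by simp [φ, v0]
  have φ_pt : ∀ a : Fin 6, a ≠ 0 → φ (pt a) = v 0 a := by
    intro a ha
    fin_cases a
    · exact absurd rfl ha
    all_goals simp [φ, pt, v05]
  have φ_pr : ∀ a b, a ≠ b → φ (pr a b) = v a b := by
    intro a b hab
    rw [pr, φ_add]
    have h0 : φ (pt 0) = 1 := by simp [φ, pt]
    rcases eq_or_ne a 0 with rfl | ha
    · rw [h0, one_mul, φ_pt b hab.symm]
    rcases eq_or_ne b 0 with rfl | hb
    · rw [h0, mul_one, φ_pt a ha, v_symm a 0 ha]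
    rw [φ_pt a ha, φ_pt b hb, tri a b ha hb hab]
  have φ_act : ∀ g t, φ (actV g t) = P.sigma g (φ t) := by
    intro g t
    obtain ⟨a, b, c, d⟩ := t
    have hterm : ∀ (x : Bool) (i : Fin 6), i ≠ 0 →
        φ (if x then pr (g 0) (g i) else v0) = P.sigma g (if x then v 0 i else 1) := by
      intro x i hi
      cases x
      · simp [φ_v0]
      · simp only [if_true]
        rw [φ_pr _ _ (g.injective.ne hi.symm), v_act g 0 i hi.symm]
    simp only [actV, φ_add, hterm _ 1 (by decide), hterm _ 2 (by decide), hterm _ 3 (by decide),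
      hterm _ 4 (by decide), ← map_mul]
    simp only [φ, mul_assoc]
  have φ_inj : ∀ s, φ s = 1 → s = v0 := by
    intro s hs
    rcases exists_vs_pr s with e | ⟨a, b, hab, rfl⟩
    · exact e
    · exact absurd ((φ_pr a b hab).symm.trans hs) (v_ne a b)
  have φ_eq : ∀ s t, φ s = φ t → s = t := by
    intro s t e
    have h1 : φ (vadd s t) = 1 := by rw [φ_add, e, P.sq]
    have h2 := φ_inj (vadd s t) h1
    have : ∀ s t : Vs, vadd s t = v0 → s = t := by decide +kernel
    exact this s t h2
  let Φ : Vec → W := fun m => φ m.1 * P.c (φ m.2)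
  have Φ_add : ∀ m n, Φ (wadd m n) = Φ m * Φ n := by
    intro m n
    simp only [Φ, wadd, φ_add, map_mul]; ac_rfl
  have key : ∀ s t, φ s = P.c (φ t) → t = v0 := by
    intro s t e
    rcases exists_vs_pr t with h | ⟨a, b, hab, rfl⟩
    · exact h
    exfalso
    obtain ⟨g, hge, hg4, hg5⟩ : ∃ g : P6, Perm.sign g = 1 ∧ g 4 = a ∧ g 5 = b := by
      rcases Int.units_eq_one_or (Perm.sign (gp a b)) with h | h
      · exact ⟨gp a b, h, gp_spec a b hab⟩
      · refine ⟨gp a b * swap 0 1, by rw [map_mul, h]; decide +kernel, ?_⟩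
        obtain ⟨h4, h5⟩ := gp_spec a b hab
        simp [Perm.mul_apply, swap_apply_of_ne_of_ne, h4, h5]
    obtain ⟨s', hs'⟩ : ∃ s', φ s' = P.c (φ (pr 4 5)) := ⟨actV g⁻¹ s, by
      rw [φ_act, e, P.comm_even _ _ (by rw [Perm.sign_inv, hge]), φ_pr _ _ hab,
        ← v_eq g a b hab (Or.inl ⟨hg4, hg5⟩), ← hm, inv_mul_cancel, P.sigma_one, φ_pr _ _ (by decide),
        ← v_eq 1 4 5 (by decide) (Or.inl ⟨rfl, rfl⟩), P.sigma_one]⟩
    have hst : ∀ h : P6, Perm.sign h = 1 → h 4 = 4 → h 5 = 5 → actV h s' = s' := fun h he h4 h5 =>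
      φ_eq _ _ (by rw [φ_act, hs', P.comm_even _ _ he, φ_pr _ _ (by decide),
        v_act _ _ _ (by decide), h4, h5])
    have hne : P.c (φ (pr 4 5)) ≠ φ (pr 4 5) := fun h =>
      v_ne 4 5 ((φ_pr 4 5 (by decide)).symm.trans (P.eq_one_of_c_fixed hN h))
    rcases eq_std_of_fixed s' (hst _ (by decide +kernel) (by decide +kernel) (by decide +kernel))
      (hst _ (by decide +kernel) (by decide +kernel) (by decide +kernel)) with h | h
    · rw [h, φ_v0] at hs'
      exact hne (by rw [← hs', P.c.injective (hs'.symm.trans (map_one P.c).symm)])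
    · rw [h] at hs'; exact hne hs'.symm
  have Φ_inj : Function.Injective Φ := by
    intro m n e
    have h1 : Φ (wadd m n) = 1 := by rw [Φ_add, e, P.sq]
    have h2 : φ (vadd m.1 n.1) = P.c (φ (vadd m.2 n.2)) := P.eq_of_mul_eq_one h1
    have ht : vadd m.2 n.2 = v0 := key (vadd m.1 n.1) (vadd m.2 n.2) h2
    rw [ht, φ_v0, map_one] at h2
    have hs := φ_inj (vadd m.1 n.1) h2
    have : ∀ s t : Vs, vadd s t = v0 → s = t := by decide +kernel
    exact Prod.ext (this _ _ hs) (this _ _ ht)
  refine ⟨⟨Φ, (Nat.bijective_iff_injective_and_card Φ).2 ⟨Φ_inj, ?_⟩, Φ_add, ?_, ?_⟩⟩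
  · rw [P.card, Nat.card_eq_fintype_card]; rfl
  · intro m
    simp only [Φ, actC, φ_add, map_mul, P.c_c_eq hN]
    calc φ m.2 * (P.c (φ m.1) * P.c (φ m.2)) = P.c (φ m.1) * (φ m.2 * P.c (φ m.2)) := by ac_rfl
      _ = _ := rfl
  · intro g m
    rcases Int.units_eq_one_or (Perm.sign g) with h | h
    · simp only [Φ, actG_of_even h, actEven, φ_act, map_mul, P.comm_even _ _ h]
    · simp only [Φ, actG_of_odd h, actOdd, φ_add, φ_act, map_mul, hF.odd _ _ h, P.c_c_eq hN]
      ac_rfl

/-- Position of the vector of a conjugate. -/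
theorem exists_act_eq (C : Coords P) {f1 f2 : P6} {w : W} (L : LineData P f1 f2 w) :
    ∃ (i : Fin 3) (g : P6), w = C.Φ (act i g aStd) ∧ g * fA = f1 * g ∧
      (g * fB = f2 * g ∨ g * (fA * fB) = f2 * g) := by
  have hm := P.sigma_mul' hN hF
  obtain ⟨g, hg1, hg2⟩ := P.exists_fA_conj hN L
  have hfx : ∀ a f : P6, g * a = f * g → actG a aStd = aStd →
      P.sigma f (C.Φ (actG g aStd)) = C.Φ (actG g aStd) := by
    intro a f e ha
    rw [C.map_g, ← hm, ← e, hm, ← C.map_g a, ha]
  have h1 := hfx fA f1 hg1 (by decide +kernel)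
  have h2 : P.sigma f2 (C.Φ (actG g aStd)) = C.Φ (actG g aStd) := by
    rcases hg2 with e | e
    · exact hfx fB f2 e (by decide +kernel)
    · exact hfx _ f2 e (by decide +kernel)
  have hne : C.Φ (actG g aStd) ≠ 1 := by
    rw [C.map_g]
    intro e
    have e0 := (P.sigma g).injective (e.trans (map_one _).symm)
    have hz : C.Φ w0 = 1 := by
      have := C.map_add w0 w0
      rw [show wadd w0 w0 = w0 by decide +kernel] at this
      exact (mul_eq_right (a := C.Φ w0)).1 this.symm
    exact absurd (C.bij.1 (e0.trans hz.symm)) (by decide +kernel)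
  rcases P.fixed_of_line hN L h1 h2 with e | e | e | e
  · exact absurd e hne
  · exact ⟨0, g, e.symm, hg1, hg2⟩
  · refine ⟨2, g, ?_, hg1, hg2⟩
    show w = C.Φ (actC (actC (actG g aStd)))
    rw [C.map_c, C.map_c, e, P.c_cube]
  · refine ⟨1, g, ?_, hg1, hg2⟩
    show w = C.Φ (actC (actG g aStd))
    rw [C.map_c, e, P.c_cube]

end Pair

end CfsgLib.SThreeSSix
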