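import Cfsg.Agent.Lib.SThreeSSix.Sym

/-!
"Lemma T" of the S3283 argument: in a group with `C(z)/Q ↪ S₃ × S₆`, `Q` of type `2^(1+8)`,
a conjugate of `z` outside `Q` cannot map onto `(τ, 1)`.  Coordinates only enter through the
hypotheses `hP`, `hfive` and `htri`.
-/

set_option autoImplicit false

namespace CfsgLib.SThreeSSix.LemmaT

open CfsgLib.SThreeSSix.Sym

abbrev L36 := Equiv.Perm (Fin 3) × Equiv.Perm (Fin 6)

/-- A transposition of `S₃` is centralised only by itself. -/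
theorem cent_transposition : ∀ τ : Equiv.Perm (Fin 3), Equiv.Perm.sign τ = -1 →
    ∀ σ : Equiv.Perm (Fin 3), σ * τ = τ * σ → σ = 1 ∨ σ = τ := by decide +kernel

theorem cent_alt_six : ∀ p : Equiv.Perm (Fin 6),
    (∀ h ∈ alternatingGroup (Fin 6), p * h = h * p) → p = 1 := by
  intro p hp
  by_contra hne
  obtain ⟨i, hi⟩ : ∃ i, p i ≠ i := by
    by_contra h
    exact hne (Equiv.ext fun i => not_not.1 (fun hi => h ⟨i, hi⟩))
  obtain ⟨j, k, hji, hjpi, hki, hkpi, hjk⟩ : ∃ j k : Fin 6,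
      j ≠ i ∧ j ≠ p i ∧ k ≠ i ∧ k ≠ p i ∧ j ≠ k := by
    revert hi
    generalize p i = b
    revert i b
    decide
  have hm : Equiv.swap i j * Equiv.swap i k ∈ alternatingGroup (Fin 6) := by
    rw [Equiv.Perm.mem_alternatingGroup, map_mul, Equiv.Perm.sign_swap hji.symm,
      Equiv.Perm.sign_swap hki.symm]
    norm_num
  have h := congrArg (fun f : Equiv.Perm (Fin 6) => f i) (hp _ hm)
  simp only [Equiv.Perm.mul_apply, Equiv.swap_apply_left,
    Equiv.swap_apply_of_ne_of_ne hki hjk.symm] at h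
  rw [Equiv.swap_apply_of_ne_of_ne hi hkpi.symm, Equiv.swap_apply_of_ne_of_ne hi hjpi.symm] at h
  exact hki (p.injective h)

/-- A 2-subgroup of `S₆` normalised by `A₆` is trivial. -/
theorem two_subgroup_eq_bot (S : Subgroup (Equiv.Perm (Fin 6))) (hS : IsPGroup 2 S)
    (hn : ∀ h ∈ alternatingGroup (Fin 6), ∀ s ∈ S, h * s * h⁻¹ ∈ S) : S = ⊥ := by
  haveI : IsSimpleGroup (alternatingGroup (Fin 6)) :=
    alternatingGroup.isSimpleGroup (by simp)
  let N : Subgroup (alternatingGroup (Fin 6)) := S.subgroupOf (alternatingGroup (Fin 6))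
  haveI hN : N.Normal := ⟨fun n hn' g => by
    rw [Subgroup.mem_subgroupOf] at hn' ⊢
    exact hn g g.2 n hn'⟩
  have hNb : N = ⊥ := by
    rcases IsSimpleGroup.eq_bot_or_eq_top_of_normal N hN with h | h
    · exact h
    · exfalso
      have hle : alternatingGroup (Fin 6) ≤ S := fun x hx => by
        have : (⟨x, hx⟩ : alternatingGroup (Fin 6)) ∈ N := by rw [h]; trivial
        exact Subgroup.mem_subgroupOf.1 this
      obtain ⟨k, hk⟩ := IsPGroup.iff_card.1 hS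
      have hd := Subgroup.card_dvd_of_le hle
      rw [hk, nat_card_alternatingGroup, Nat.card_eq_fintype_card, Fintype.card_fin] at hd
      obtain ⟨i, -, hi⟩ := (Nat.dvd_prime_pow Nat.prime_two).1 hd
      have h3 : 3 ∣ 2 ^ i := hi ▸ by norm_num [Nat.factorial]
      exact absurd (Nat.prime_three.dvd_of_dvd_pow h3) (by norm_num)
  rw [Subgroup.eq_bot_iff_forall]
  intro s hs
  refine cent_alt_six s fun h hh => ?_
  have h1 : h * s * h⁻¹ * s⁻¹ ∈ S := S.mul_mem (hn h hh s hs) (S.inv_mem hs)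
  have h2 : h * s * h⁻¹ * s⁻¹ ∈ alternatingGroup (Fin 6) := by
    rw [Equiv.Perm.mem_alternatingGroup]
    simp only [map_mul, map_inv]
    rcases Int.units_eq_one_or (Equiv.Perm.sign h) with e | e <;>
      rcases Int.units_eq_one_or (Equiv.Perm.sign s) with e' | e' <;> rw [e, e'] <;> rfl
  have h3 : (⟨_, h2⟩ : alternatingGroup (Fin 6)) ∈ N := Subgroup.mem_subgroupOf.2 h1
  rw [hNb, Subgroup.mem_bot] at h3
  have h4 : h * s * h⁻¹ * s⁻¹ = 1 := congrArg Subtype.val h3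
  rw [mul_inv_eq_one, mul_inv_eq_iff_eq_mul] at h4
  exact h4.symm

variable {G : Type*} [Group G]

/-- `p ∈ Q` whose commutator with `c` lies in `⟨z⟩`. -/
def InP (Q : Subgroup G) (z c p : G) : Prop := p ∈ Q ∧ (cm c p = 1 ∨ cm c p = z)

/-- The `Q`-conjugates of `e`. -/
def orb (Q : Subgroup G) (e : G) : Set G := (fun q => q * e * q⁻¹) '' (Q : Set G)

theorem mem_orb_self (Q : Subgroup G) (e : G) : e ∈ orb Q e := ⟨1, Q.one_mem, by simp⟩

theorem orb_disjoint {Q : Subgroup G} {a b : G} (h : b ∉ orb Q a) :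
    Disjoint (orb Q a) (orb Q b) := by
  rw [Set.disjoint_left]
  rintro _ ⟨q, hq, rfl⟩ ⟨q', hq', h'⟩
  refine h ⟨q'⁻¹ * q, Q.mul_mem (Q.inv_mem hq') hq, ?_⟩
  simp only at h' ⊢
  rw [show q'⁻¹ * q * a * (q'⁻¹ * q)⁻¹ = q'⁻¹ * (q * a * q⁻¹) * q' by group, ← h']
  group

/-- `c` and `c·p` have at least sixteen `Q`-conjugates. -/
theorem sixteen_le_orb [Finite G] {z c : G} {Q : Subgroup G} (hcard : Nat.card Q = 2 ^ 9)
    (hcomm : ∀ x ∈ Q, ∀ y ∈ Q, x * y * x⁻¹ * y⁻¹ = 1 ∨ x * y * x⁻¹ * y⁻¹ = z)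
    (hP : Nat.card {p : G // InP Q z c p} ≤ 32) {p : G} (hp : p ∈ Q) :
    16 ≤ (orb Q (c * p)).ncard := by
  let K : Subgroup Q := (Subgroup.centralizer ({c * p} : Set G)).subgroupOf Q
  have hK : Nat.card K ≤ 32 := by
    refine le_trans (Nat.card_le_card_of_injective
      (fun x : K => (⟨p * ((x : Q) : G) * p⁻¹,
        Q.mul_mem (Q.mul_mem hp (x : Q).2) (Q.inv_mem hp), ?_⟩ : {p : G // InP Q z c p})) ?_) hP
    · have h := Subgroup.mem_centralizer_singleton_iff.1 (Subgroup.mem_subgroupOf.1 x.2)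
      have e : cm c (p * ((x : Q) : G) * p⁻¹) =
          ((x : Q) : G) * p * ((x : Q) : G)⁻¹ * p⁻¹ := by
        simp only [cm]
        rw [show c * (p * ((x : Q) : G) * p⁻¹) * c⁻¹ * (p * ((x : Q) : G) * p⁻¹)⁻¹ =
          (c * p) * ((x : Q) : G) * (c * p)⁻¹ * p * ((x : Q) : G)⁻¹ * p⁻¹ by group, ← h,
          mul_inv_cancel_right]
      rw [e]
      exact hcomm _ (x : Q).2 _ hp
    · intro a b h
      exact Subtype.ext (Subtype.ext (mul_left_cancel (mul_right_cancel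
        (congrArg Subtype.val h :))))
  have hidx : 16 ≤ K.index := by
    have h := Subgroup.card_mul_index K
    rw [hcard] at h
    nlinarith
  refine le_trans hidx ?_
  rw [Subgroup.index, ← Nat.card_coe_set_eq]
  refine Nat.card_le_card_of_injective
    (fun x : Q ⧸ K => (⟨((Quotient.out x : Q) : G) * (c * p) * ((Quotient.out x : Q) : G)⁻¹,
      ⟨_, (Quotient.out x).2, rfl⟩⟩ : orb Q (c * p))) ?_
  intro a b hab
  have h : ((Quotient.out a : Q) : G) * (c * p) * ((Quotient.out a : Q) : G)⁻¹ =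
      ((Quotient.out b : Q) : G) * (c * p) * ((Quotient.out b : Q) : G)⁻¹ :=
    congrArg Subtype.val hab
  rw [← Quotient.out_eq a, ← Quotient.out_eq b]
  refine Quotient.sound (QuotientGroup.leftRel_apply.mpr ?_)
  rw [Subgroup.mem_subgroupOf, Subgroup.mem_centralizer_singleton_iff, Subgroup.coe_mul,
    Subgroup.coe_inv]
  calc ((Quotient.out a : Q) : G)⁻¹ * (Quotient.out b : Q) * (c * p)
      = ((Quotient.out a : Q) : G)⁻¹ *
          (((Quotient.out b : Q) : G) * (c * p) * ((Quotient.out b : Q) : G)⁻¹) *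
          (Quotient.out b : Q) := by group
    _ = _ := by rw [← h]; group

/-- At most two classes: squares of elements normalising `cQ` lift into `C(c)`. -/
theorem exists_lift [Finite G] {z c : G} {Q : Subgroup G} (hcard : Nat.card Q = 2 ^ 9)
    (hz : z * z = 1)
    (hsq : ∀ x ∈ Q, x * x = 1 ∨ x * x = z)
    (hcomm : ∀ x ∈ Q, ∀ y ∈ Q, x * y * x⁻¹ * y⁻¹ = 1 ∨ x * y * x⁻¹ * y⁻¹ = z)
    (hc : c * c = 1) (hcQ : ∀ x ∈ Q, c * x * c⁻¹ ∈ Q)
    (hP : Nat.card {p : G // InP Q z c p} ≤ 32)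
    {m : G} (hmQ : ∀ x ∈ Q, m * x * m⁻¹ ∈ Q) (hmQ' : ∀ x ∈ Q, m⁻¹ * x * m ∈ Q)
    (hmc : c⁻¹ * (m * c * m⁻¹) ∈ Q) (hmmc : c⁻¹ * (m * m * c * (m * m)⁻¹) ∈ Q) :
    ∃ q₀ ∈ Q, c * (q₀ * (m * m)) = q₀ * (m * m) * c := by
  have hfix : ∀ {q h : G}, q * c * q⁻¹ = h * c * h⁻¹ → c * (q⁻¹ * h) = q⁻¹ * h * c := by
    intro q h e
    calc c * (q⁻¹ * h) = q⁻¹ * (q * c * q⁻¹) * h := by group
      _ = _ := by rw [e]; group
  by_cases h1 : m * c * m⁻¹ ∈ orb Q c
  · obtain ⟨q, hq, h⟩ := h1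
    have e := hfix h
    refine ⟨q⁻¹ * (m * q⁻¹ * m⁻¹), Q.mul_mem (Q.inv_mem hq) (hmQ _ (Q.inv_mem hq)), ?_⟩
    rw [show q⁻¹ * (m * q⁻¹ * m⁻¹) * (m * m) = (q⁻¹ * m) * (q⁻¹ * m) by group, ← mul_assoc, e,
      mul_assoc, e, ← mul_assoc]
  by_cases h2 : m * m * c * (m * m)⁻¹ ∈ orb Q c
  · obtain ⟨q, hq, h⟩ := h2
    exact ⟨q⁻¹, Q.inv_mem hq, hfix h⟩
  exfalso
  let J : Set G := {e | c⁻¹ * e ∈ Q ∧ e * e = 1}
  have hJ : J.ncard ≤ 32 := by
    refine le_trans ?_ hP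
    rw [← Nat.card_coe_set_eq]
    refine Nat.card_le_card_of_injective
      (fun e : J => (⟨c⁻¹ * (e : G), ?_⟩ : {p : G // InP Q z c p})) ?_
    · obtain ⟨hp, hee⟩ := e.2
      refine ⟨hp, ?_⟩
      have hci := inv_eq_of_mul_eq_one_left hc
      have : cm c (c⁻¹ * (e : G)) = ((c⁻¹ * (e : G)) * (c⁻¹ * (e : G)))⁻¹ := by
        have hei : (e : G)⁻¹ = e := inv_eq_of_mul_eq_one_left hee
        simp only [cm, mul_inv_rev, inv_inv]
        rw [hei]
        simp only [hci, mul_assoc]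
        rw [← mul_assoc c c, hc, one_mul]
      rw [this]
      rcases hsq _ hp with h | h <;> rw [h]
      · left; exact inv_one
      · right; exact inv_eq_of_mul_eq_one_left hz
    · intro a b h
      exact Subtype.ext (mul_left_cancel (congrArg Subtype.val h :))
  have hsub : ∀ e ∈ J, orb Q e ⊆ J := by
    rintro e ⟨hp, hee⟩ _ ⟨q, hq, rfl⟩
    refine ⟨?_, ?_⟩
    · rw [show c⁻¹ * (q * e * q⁻¹) = (c⁻¹ * q * c) * (c⁻¹ * e) * q⁻¹ by group]
      refine Q.mul_mem (Q.mul_mem ?_ hp) (Q.inv_mem hq)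
      have := hcQ q hq
      rwa [inv_eq_of_mul_eq_one_left hc] at this ⊢
    · rw [show q * e * q⁻¹ * (q * e * q⁻¹) = q * (e * e) * q⁻¹ by group, hee, mul_one,
        mul_inv_cancel]
  have hcJ : c ∈ J := ⟨by simp, hc⟩
  have hinv : ∀ h : G, h * c * h⁻¹ * (h * c * h⁻¹) = 1 := fun h => by
    rw [show h * c * h⁻¹ * (h * c * h⁻¹) = h * (c * c) * h⁻¹ by group, hc, mul_one,
      mul_inv_cancel]
  have hJ1 : m * c * m⁻¹ ∈ J := ⟨hmc, hinv m⟩
  have hJ2 : m * m * c * (m * m)⁻¹ ∈ J := ⟨hmmc, hinv _⟩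
  have h3 : m * m * c * (m * m)⁻¹ ∉ orb Q (m * c * m⁻¹) := by
    rintro ⟨q, hq, h⟩
    simp only at h
    refine h1 ⟨m⁻¹ * q * m, hmQ' q hq, ?_⟩
    simp only
    calc m⁻¹ * q * m * c * (m⁻¹ * q * m)⁻¹
        = m⁻¹ * (q * (m * c * m⁻¹) * q⁻¹) * m := by group
      _ = _ := by rw [h]; group
  have hb : ∀ e ∈ J, 16 ≤ (orb Q e).ncard := fun e he => by
    have := sixteen_le_orb hcard hcomm hP (c := c) he.1
    rwa [mul_inv_cancel_left] at this
  have u := Set.ncard_le_ncard (Set.union_subset (Set.union_subset (hsub c hcJ) (hsub _ hJ1))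
    (hsub _ hJ2)) (Set.toFinite J)
  rw [Set.ncard_union_eq (Set.disjoint_union_left.2 ⟨orb_disjoint h2, orb_disjoint h3⟩)
      (Set.toFinite _) (Set.toFinite _),
    Set.ncard_union_eq (orb_disjoint h1) (Set.toFinite _) (Set.toFinite _)] at u
  have := hb c hcJ; have := hb _ hJ1; have := hb _ hJ2
  omega

set_option maxHeartbeats 1000000 in
/-- **Lemma T**. -/
theorem no_conjugate [Finite G] (z c : G) (Q : Subgroup G)
    (hcard : Nat.card Q = 2 ^ 9) (hzQ : z ∈ Q) (hz : z * z = 1) (hz1 : z ≠ 1)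
    (hzc : ∀ x ∈ Q, z * x = x * z)
    (hsq : ∀ x ∈ Q, x * x = 1 ∨ x * x = z)
    (hcomm : ∀ x ∈ Q, ∀ y ∈ Q, x * y * x⁻¹ * y⁻¹ = 1 ∨ x * y * x⁻¹ * y⁻¹ = z)
    (hQn : ∀ m ∈ Subgroup.centralizer ({z} : Set G), ∀ x ∈ Q, m * x * m⁻¹ ∈ Q)
    (π : ↥(Subgroup.centralizer ({z} : Set G)) →* L36) (hker : ∀ m, π m = 1 ↔ (m : G) ∈ Q)
    (hcM : c ∈ Subgroup.centralizer ({z} : Set G))
    (τ : Equiv.Perm (Fin 3)) (hτ : Equiv.Perm.sign τ = -1) (hπc : π ⟨c, hcM⟩ = (τ, 1))
    (g : G) (hg : g * z * g⁻¹ = c) (hzQc : g⁻¹ * z * g ∉ Q)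
    (hA : ∀ h ∈ alternatingGroup (Fin 6), ∃ m, π m = (1, h))
    (hP : Nat.card {p : G // InP Q z c p} ≤ 32)
    (five : Equiv.Perm (Fin 6)) (hfive : five ∈ alternatingGroup (Fin 6)) (hfive5 : five ^ 5 = 1)
    (hfix : ∀ m : ↥(Subgroup.centralizer ({z} : Set G)), π m = (1, five) → ∀ q ∈ Q,
      (m : G) * q * (m : G)⁻¹ = q → q = 1 ∨ q = z)
    (htri : ∃ q₁ q₂ q₃ q₄ : G, q₁ ∈ Q ∧ q₂ ∈ Q ∧ q₃ ∈ Q ∧ q₄ ∈ Q ∧
      q₁ * cm c q₂ * q₁⁻¹ * (cm c q₂)⁻¹ = 1 ∧ q₃ * cm c q₄ * q₃⁻¹ * (cm c q₄)⁻¹ = z ∧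
      ∀ q ∈ ({q₂, q₁ * q₂, q₃, q₄, q₃ * q₄} : Set G),
        ∃ (m : ↥(Subgroup.centralizer ({z} : Set G))) (k : Equiv.Perm (Fin 6)),
          k ∈ alternatingGroup (Fin 6) ∧ π m = (1, k) ∧
            InP Q z c (q⁻¹ * ((m : G) * q₁ * (m : G)⁻¹))) :
    False := by
  classical
  have hzinv : z⁻¹ = z := inv_eq_of_mul_eq_one_left hz
  have hzg : z * g⁻¹ = g⁻¹ * c := by rw [← hg]; group
  have hc : c * c = 1 := by
    rw [← hg, show g * z * g⁻¹ * (g * z * g⁻¹) = g * (z * z) * g⁻¹ by group, hz, mul_one,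
      mul_inv_cancel]
  have hcz : c * z = z * c := Subgroup.mem_centralizer_singleton_iff.1 hcM
  have hcQ : ∀ x ∈ Q, c * x * c⁻¹ ∈ Q := hQn c hcM
  have hci : c⁻¹ = c := inv_eq_of_mul_eq_one_left hc
  -- lifts of squares
  have hlift : ∀ (m : ↥(Subgroup.centralizer ({z} : Set G))) (k : Equiv.Perm (Fin 6)),
      π m = (1, k) → ∃ h : ↥(Subgroup.centralizer ({z} : Set G)),
        c * (h : G) = h * c ∧ π h = (1, k * k) ∧ ∃ q₀ ∈ Q, (h : G) = q₀ * ((m : G) * m) := by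
    intro m k hm
    have hc1 : ∀ (n : ↥(Subgroup.centralizer ({z} : Set G))) (j : Equiv.Perm (Fin 6)),
        π n = (1, j) → c⁻¹ * ((n : G) * c * (n : G)⁻¹) ∈ Q := by
      intro n j hn
      have := (hker (⟨c, hcM⟩⁻¹ * (n * ⟨c, hcM⟩ * n⁻¹))).1 (by
        simp [map_mul, map_inv, hπc, hn, Prod.ext_iff])
      simpa using this
    have hmm : π (m * m) = (1, k * k) := by rw [map_mul, hm]; rfl
    obtain ⟨q₀, hq₀, e⟩ := exists_lift hcard hz hsq hcomm hc hcQ hP (hQn m m.2)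
      (fun x hx => by simpa using hQn _ (m⁻¹).2 x hx) (hc1 m k hm)
      (by simpa using hc1 (m * m) _ hmm)
    have hq₀M : q₀ ∈ Subgroup.centralizer ({z} : Set G) :=
      Subgroup.mem_centralizer_singleton_iff.mpr (hzc q₀ hq₀).symm
    refine ⟨⟨q₀, hq₀M⟩ * (m * m), e, ?_, q₀, hq₀, rfl⟩
    rw [map_mul, (hker ⟨q₀, hq₀M⟩).2 hq₀, one_mul, hmm]
  -- `X = C_{Q_c}(z)` and `D = X ∩ Q`
  let X : Subgroup G := Q.map (MulAut.conj g).toMonoidHom ⊓ Subgroup.centralizer ({z} : Set G)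
  have hXmem : ∀ x, x ∈ X ↔ g⁻¹ * x * g ∈ Q ∧ x * z = z * x := by
    intro x
    simp only [X, Subgroup.mem_inf, Subgroup.mem_centralizer_singleton_iff, Subgroup.mem_map]
    constructor
    · rintro ⟨⟨y, hy, rfl⟩, h⟩
      exact ⟨by simpa [mul_assoc] using hy, h⟩
    · rintro ⟨h1, h2⟩
      exact ⟨⟨_, h1, by simp [mul_assoc]⟩, h2⟩
  have hXc : ∀ x ∈ X, c * x = x * c := by
    intro x hx
    have h := hzc _ ((hXmem x).1 hx).1
    rw [← hg]
    calc g * z * g⁻¹ * x = g * (z * (g⁻¹ * x * g)) * g⁻¹ := by group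
      _ = _ := by rw [h]; group
  have hXn : ∀ h : G, h ∈ Subgroup.centralizer ({z} : Set G) → c * h = h * c →
      ∀ x ∈ X, h * x * h⁻¹ ∈ X := by
    intro h hh hhc x hx
    obtain ⟨h1, h2⟩ := (hXmem x).1 hx
    rw [hXmem]
    refine ⟨?_, ?_⟩
    · have hgh : g⁻¹ * h * g ∈ Subgroup.centralizer ({z} : Set G) := by
        rw [Subgroup.mem_centralizer_singleton_iff]
        rw [show g⁻¹ * h * g * z = g⁻¹ * (h * (g * z * g⁻¹)) * g by group, hg, ← hhc, ← hg]
        group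
      have := hQn _ hgh _ h1
      rw [show g⁻¹ * (h * x * h⁻¹) * g =
        g⁻¹ * h * g * (g⁻¹ * x * g) * (g⁻¹ * h * g)⁻¹ by group]
      exact this
    · exact Subgroup.mem_centralizer_singleton_iff.1
        (Subgroup.mul_mem _ (Subgroup.mul_mem _ hh
          (Subgroup.mem_centralizer_singleton_iff.mpr h2)) (Subgroup.inv_mem _ hh))
  have hX16 : 16 ≤ Nat.card X := by
    have hw : g⁻¹ * z * g ∈ Subgroup.centralizer ({z} : Set G) := by
      rw [Subgroup.mem_centralizer_singleton_iff,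
        show g⁻¹ * z * g * z = g⁻¹ * (z * (g * z * g⁻¹)) * g by group, hg, ← hcz, ← hg]
      group
    have h16 := Sym.sixteen_le_card_fixed (c := g⁻¹ * z * g) hcard hz hzc hsq
      (by rw [show g⁻¹ * z * g * (g⁻¹ * z * g) = g⁻¹ * (z * z) * g by group, hz, mul_one,
        inv_mul_cancel]) (hQn _ hw)
    refine le_trans h16 (Nat.card_le_card_of_injective
      (fun x => (⟨g * (x : G) * g⁻¹, ?_⟩ : X)) ?_)
    · have hx := Subgroup.mem_centralizer_singleton_iff.1 (x.2).2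
      rw [hXmem]
      refine ⟨by simpa [mul_assoc] using (x.2).1, ?_⟩
      calc g * (x : G) * g⁻¹ * z = g * ((x : G) * (g⁻¹ * z * g)) * g⁻¹ := by group
        _ = _ := by rw [hx]; group
    · intro a b h
      exact Subtype.ext (mul_left_cancel (mul_right_cancel (congrArg Subtype.val h :)))
  -- the image of `X` lies in `⟨(τ, 1)⟩`
  have hXM : X ≤ Subgroup.centralizer ({z} : Set G) := inf_le_right
  let S : Subgroup (Equiv.Perm (Fin 6)) :=
    (X.subgroupOf (Subgroup.centralizer ({z} : Set G))).map ((MonoidHom.snd _ _).comp π)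
  have hS2 : IsPGroup 2 S := by
    refine IsPGroup.map ?_ _
    have hX2 : IsPGroup 2 X := by
      refine IsPGroup.to_le ?_ inf_le_left
      exact (IsPGroup.of_card (p := 2) hcard).map _
    exact hX2.comap_of_injective _ (Subgroup.subtype_injective _)
  have hliftA : ∀ k ∈ alternatingGroup (Fin 6),
      ∃ h : ↥(Subgroup.centralizer ({z} : Set G)), c * (h : G) = h * c ∧ π h = (1, k) := by
    let K : Subgroup (Equiv.Perm (Fin 6)) :=
      { carrier := {k | ∃ h : ↥(Subgroup.centralizer ({z} : Set G)),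
          c * (h : G) = h * c ∧ π h = (1, k)}
        one_mem' := ⟨1, by simp, by rw [map_one]; rfl⟩
        mul_mem' := by
          rintro k k' ⟨h, e, hk⟩ ⟨h', e', hk'⟩
          exact ⟨h * h', (Commute.mul_right (show Commute c (h : G) from e) e').eq,
            by rw [map_mul, hk, hk']; simp⟩
        inv_mem' := by
          rintro k ⟨h, e, hk⟩
          exact ⟨h⁻¹, (Commute.inv_right (show Commute c (h : G) from e)).eq,
            by rw [map_inv, hk]; simp⟩ }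
    have hle : alternatingGroup (Fin 6) ≤ K := by
      rw [← Equiv.Perm.closure_three_cycles_eq_alternating, Subgroup.closure_le]
      intro k hk
      have h3 : k ^ 3 = 1 := by rw [← Equiv.Perm.IsThreeCycle.orderOf hk]; exact pow_orderOf_eq_one k
      have hkA := Equiv.Perm.IsThreeCycle.mem_alternatingGroup hk
      obtain ⟨m, hm⟩ := hA (k * k) (Subgroup.mul_mem _ hkA hkA)
      obtain ⟨h, hhc, hπh, -⟩ := hlift m _ hm
      refine ⟨h, hhc, ?_⟩
      rw [hπh, show k * k * (k * k) = k ^ 3 * k by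
        simp only [pow_succ, pow_zero, one_mul, mul_assoc], h3, one_mul]
    exact fun k hk => hle hk
  have hSn : ∀ h ∈ alternatingGroup (Fin 6), ∀ s ∈ S, h * s * h⁻¹ ∈ S := by
    rintro k hk _ ⟨x, hx, rfl⟩
    obtain ⟨h, hhc, hπh⟩ := hliftA k hk
    refine ⟨h * x * h⁻¹, ?_, by simp [map_mul, map_inv, hπh]⟩
    rw [SetLike.mem_coe, Subgroup.mem_subgroupOf] at hx ⊢
    simpa using hXn h h.2 hhc x hx
  have hS := two_subgroup_eq_bot S hS2 hSn
  have hXQ : ∀ x ∈ X, x ∈ Q ∨ x * c ∈ Q := by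
    intro x hx
    have h2 : (π ⟨x, hXM hx⟩).2 = 1 := by
      have : (π ⟨x, hXM hx⟩).2 ∈ S := ⟨⟨x, hXM hx⟩, Subgroup.mem_subgroupOf.2 hx, rfl⟩
      rwa [hS, Subgroup.mem_bot] at this
    have h1 : (π ⟨x, hXM hx⟩).1 * τ = τ * (π ⟨x, hXM hx⟩).1 := by
      have e : (⟨x, hXM hx⟩ * ⟨c, hcM⟩ : ↥(Subgroup.centralizer ({z} : Set G))) =
          ⟨c, hcM⟩ * ⟨x, hXM hx⟩ := Subtype.ext (hXc x hx).symm
      have e' := congrArg π e
      rw [map_mul, map_mul, hπc] at e'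
      exact congrArg Prod.fst e' 
    rcases cent_transposition τ hτ _ h1 with h | h
    · exact Or.inl ((hker ⟨x, hXM hx⟩).1 (Prod.ext h h2))
    · right
      refine (hker (⟨x, hXM hx⟩ * ⟨c, hcM⟩)).1 ?_
      rw [map_mul, hπc, show π ⟨x, hXM hx⟩ = (τ, 1) from Prod.ext h h2]
      have hττ : τ * τ = 1 :=
        (by decide +kernel : ∀ σ : Equiv.Perm (Fin 3), Equiv.Perm.sign σ = -1 → σ * σ = 1) τ hτ
      simp [hττ]
  let D : Subgroup G := X ⊓ Q
  have hcX : c ∈ X := (hXmem c).2 ⟨by rw [← hg]; simpa [mul_assoc] using hzQ, hcz⟩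
  have hD8 : 8 ≤ Nat.card D := by
    have : Nat.card X ≤ Nat.card (D × Bool) := by
      refine Nat.card_le_card_of_injective (fun x : X =>
        if h : (x : G) ∈ Q then (⟨x, x.2, h⟩, false)
        else (⟨(x : G) * c, X.mul_mem x.2 hcX, (hXQ x x.2).resolve_left h⟩, true)) ?_
      intro a b hab
      simp only at hab
      by_cases ha : (a : G) ∈ Q <;> by_cases hb : (b : G) ∈ Q <;>
        simp only [dif_pos, dif_neg, ha, hb, not_false_iff, Prod.ext_iff] at hab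
      · exact Subtype.ext (congrArg (fun y : D => (y : G)) hab.1 :)
      · exact absurd hab.2 (by simp)
      · exact absurd hab.2 (by simp)
      · exact Subtype.ext (mul_right_cancel (congrArg (fun y : D => (y : G)) hab.1 :))
    rw [Nat.card_prod, show Nat.card Bool = 2 by simp] at this
    omega
  have hzD : z ∉ D := fun h => hzQc ((hXmem z).1 h.1).1
  have hDc : ∀ d ∈ D, c * d = d * c := fun d hd => hXc d hd.1
  have hDn : ∀ h : ↥(Subgroup.centralizer ({z} : Set G)), c * (h : G) = h * c →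
      ∀ d ∈ D, (h : G) * d * (h : G)⁻¹ ∈ D :=
    fun h hh d hd => ⟨hXn h h.2 hh d hd.1, hQn h h.2 d hd.2⟩
  -- `D × ⟨z⟩` is all of the set `P`
  have hInC : ∀ d ∈ D, InP Q z c d ∧ InP Q z c (z * d) := by
    intro d hd
    have e1 : cm c d = 1 := by simp only [cm]; rw [hDc d hd]; group
    refine ⟨⟨hd.2, Or.inl e1⟩, Q.mul_mem hzQ hd.2, Or.inl ?_⟩
    rw [cm_mul, e1, show cm c z = 1 by simp only [cm]; rw [hcz]; group]
    group
  let ι : D × Bool → {p : G // InP Q z c p} := fun x =>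
    if x.2 then ⟨z * (x.1 : G), (hInC _ x.1.2).2⟩ else ⟨(x.1 : G), (hInC _ x.1.2).1⟩
  have hι : Function.Injective ι := by
    rintro ⟨a, ba⟩ ⟨b, bb⟩ hab
    cases ba <;> cases bb <;> simp [ι] at hab
    · exact Prod.ext hab rfl
    · exact absurd (by have e := D.mul_mem a.2 (D.inv_mem b.2); rw [hab] at e; simpa using e) hzD
    · exact absurd (by have e := D.mul_mem b.2 (D.inv_mem a.2); rw [← hab] at e; simpa using e) hzD
    · exact Prod.ext hab rfl
  have hD16 : Nat.card D = 16 := by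
    have hle : Nat.card (D × Bool) ≤ 32 := (Nat.card_le_card_of_injective ι hι).trans hP
    rw [Nat.card_prod, show Nat.card Bool = 2 by simp] at hle
    obtain ⟨i, -, hi⟩ := (Nat.dvd_prime_pow Nat.prime_two).1
      (hcard ▸ Subgroup.card_dvd_of_le (show D ≤ Q from inf_le_right))
    by_contra hne
    have hD : Nat.card D = 8 := by
      rw [hi] at hle hD8 hne ⊢
      have : i ≤ 4 := by
        by_contra hi5
        have := Nat.pow_le_pow_right (show 1 ≤ 2 by norm_num) (show 5 ≤ i by omega)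
        omega
      interval_cases i <;> omega
    obtain ⟨m, hm⟩ := hA (five ^ 3) (Subgroup.pow_mem _ hfive 3)
    obtain ⟨h, hhc, hπh, -⟩ := hlift m _ hm
    have hπ5 : π h = (1, five) := by
      rw [hπh, ← pow_add, show five ^ (3 + 3) = five ^ 5 * five from pow_succ five 5, hfive5,
        one_mul]
    have h5Q : ((h ^ 5 : ↥(Subgroup.centralizer ({z} : Set G))) : G) ∈ Q :=
      (hker _).1 (by rw [map_pow, hπ5, Prod.pow_mk, one_pow, hfive5]; rfl)
    have h5c : c * ((h ^ 5 : ↥(Subgroup.centralizer ({z} : Set G))) : G) =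
        ((h ^ 5 : ↥(Subgroup.centralizer ({z} : Set G))) : G) * c := by
      rw [Subgroup.coe_pow]
      exact (Commute.pow_right (show Commute c (h : G) from hhc) 5).eq
    have hcen : ∀ d ∈ D, (h : G) ^ 5 * d * ((h : G) ^ 5)⁻¹ = d := by
      intro d hd
      have hq : (h : G) ^ 5 ∈ Q := by simpa using h5Q
      have hn := hDn _ h5c d hd
      rw [Subgroup.coe_pow] at hn
      rcases hcomm _ hq d hd.2 with e | e
      · rwa [mul_inv_eq_one] at e
      · exact absurd (e ▸ D.mul_mem hn (D.inv_mem hd)) hzD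
    let α := {d : D // (d : G) ≠ 1}
    let act : α → α := fun d => ⟨⟨(h : G) * (d.1 : G) * (h : G)⁻¹, hDn h hhc _ d.1.2⟩, fun e =>
      d.2 (by
        have := congrArg (fun y => (h : G)⁻¹ * y * h) e
        simpa [mul_assoc] using this)⟩
    have hact : ∀ (n : ℕ) (d : α), ((act^[n] d).1 : G) = (h : G) ^ n * d.1 * ((h : G) ^ n)⁻¹ := by
      intro n d
      induction n with
      | zero => simp
      | succ n ih =>
        rw [Function.iterate_succ_apply']
        show (h : G) * ((act^[n] d).1 : G) * (h : G)⁻¹ = _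
        rw [ih, pow_succ']
        group
    have hinj : Function.Injective act := fun a b e => by
      have := congrArg (fun y : α => (h : G)⁻¹ * (y.1 : G) * h) e
      simp [act, mul_assoc] at this
      exact Subtype.ext this
    let σ : Equiv.Perm α := Equiv.ofBijective act hinj.bijective_of_finite
    have hσ5 : σ ^ 5 = 1 := by
      ext d
      rw [Equiv.Perm.coe_pow]
      show ((act^[5] d).1 : G) = _
      rw [hact, hcen _ d.1.2]
      rfl
    haveI : Fintype α := Fintype.ofFinite α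
    have hα : Fintype.card α = 7 := by
      rw [← Nat.card_eq_fintype_card]
      have := Nat.card_congr (Equiv.subtypeEquivRight (fun d : D => (by simp : (d : G) ≠ 1 ↔ d ≠ 1)))
      rw [this]
      haveI : Fintype D := Fintype.ofFinite D
      rw [Nat.card_eq_fintype_card, Fintype.card_subtype_compl, ← Nat.card_eq_fintype_card, hD]
      simp
    haveI : Fact (Nat.Prime 5) := ⟨by norm_num⟩
    obtain ⟨d, hd⟩ := Equiv.Perm.exists_fixed_point_of_prime (p := 5) (n := 1)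
      (by rw [hα]; norm_num) (σ := σ) (by simpa using hσ5)
    have hd' : (h : G) * (d.1 : G) * (h : G)⁻¹ = d.1 :=
      congrArg (fun y : α => (y.1 : G)) hd
    rcases hfix h hπ5 _ d.1.2.2 hd' with e | e
    · exact d.2 e
    · exact hzD (e ▸ d.1.2)
  have hsurj : ∀ p, InP Q z c p → c * p = p * c ∧ (p ∈ D ∨ z * p ∈ D) := by
    intro p hp
    have hb : Function.Surjective ι := by
      refine (hι.bijective_of_nat_card_le ?_).2
      rw [Nat.card_prod, hD16, show Nat.card Bool = 2 by simp]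
      exact hP
    obtain ⟨⟨d, b⟩, hd⟩ := hb ⟨p, hp⟩
    cases b <;> simp [ι] at hd <;> subst hd
    · exact ⟨hDc _ d.2, Or.inl d.2⟩
    · refine ⟨?_, Or.inr ?_⟩
      · rw [← mul_assoc, hcz, mul_assoc, hDc _ d.2, mul_assoc]
      · rw [← mul_assoc, hz, one_mul]; exact d.2
  have hcmQ : ∀ q ∈ Q, cm c q ∈ Q := fun q hq => Q.mul_mem (hcQ q hq) (Q.inv_mem hq)
  have hcD : ∀ q ∈ Q, cm c q ∈ D ∨ z * cm c q ∈ D := by
    intro q hq
    refine (hsurj _ ⟨hcmQ q hq, ?_⟩).2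
    have e : cm c (cm c q) = (cm c q * cm c q)⁻¹ := by
      simp only [cm, mul_inv_rev, inv_inv, hci]
      rw [show c * (c * q * c * q⁻¹) * c * (q * (c * (q⁻¹ * c))) =
        (c * c) * q * c * q⁻¹ * c * q * c * q⁻¹ * c by group, hc, one_mul]
      group
    rw [e]
    rcases hsq _ (hcmQ q hq) with h | h <;> rw [h]
    · left; exact inv_one
    · right; exact hzinv
  -- invariance
  obtain ⟨q₁, q₂, q₃, q₄, h₁, h₂, h₃, h₄, horth, hpair, hall⟩ := htri
  have heq : ∀ q ∈ ({q₂, q₁ * q₂, q₃, q₄, q₃ * q₄} : Set G),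
      (cm c q ∈ D ↔ cm c q₁ ∈ D) := by
    intro q hq
    obtain ⟨m, k, hk, hm, hp⟩ := hall q hq
    obtain ⟨h, hhc, hπh⟩ := hliftA k hk
    obtain ⟨q₀, hq₀, hh⟩ : ∃ q₀ ∈ Q, (h : G) = q₀ * m :=
      ⟨(h : G) * (m : G)⁻¹, by
        simpa using (hker (h * m⁻¹)).1 (by rw [map_mul, map_inv, hπh, hm, mul_inv_cancel]),
        by group⟩
    have hiff := cm_conj_mem_iff (c := c) (x := q₁) (D := D) (h := (h : G)) hhc (fun d =>
      ⟨fun hd => hDn h hhc d hd, fun hd => by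
        have hhc' : c * ((h⁻¹ : ↥(Subgroup.centralizer ({z} : Set G))) : G) =
            ((h⁻¹ : ↥(Subgroup.centralizer ({z} : Set G))) : G) * c := by
          rw [Subgroup.coe_inv]
          exact (Commute.inv_right (show Commute c (h : G) from hhc)).eq
        simpa [mul_assoc] using hDn _ hhc' _ hd⟩)
    rw [← hiff]
    set w : G := (m : G) * q₁ * (m : G)⁻¹ with hw
    have hwQ : w ∈ Q := hQn _ m.2 q₁ h₁
    have e : cm c ((h : G) * q₁ * (h : G)⁻¹) = cm c w := by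
      rw [hh, show q₀ * (m : G) * q₁ * (q₀ * (m : G))⁻¹ = (q₀ * w * q₀⁻¹ * w⁻¹) * w
        by rw [hw]; group]
      rcases hcomm q₀ hq₀ w hwQ with h' | h' <;> rw [h']
      · rw [one_mul]
      · rw [cm_mul, show cm c z = 1 by simp only [cm]; rw [hcz]; group, hzc _ (hcmQ w hwQ)]
        group
    rw [e, show w = q * (q⁻¹ * w) by group, cm_mul_right (hsurj _ hp).1]
  exact false_of_sym hzD hz q₁ q₂ q₃ q₄ (hzc _ (hcmQ q₃ h₃)) (hcD _ h₁) (hcD _ h₂)
    (hzc _ (hcmQ q₁ h₁)) (heq _ (by simp)) (heq _ (by simp)) (heq _ (by simp)) (heq _ (by simp))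
    (heq _ (by simp)) horth hpair

end CfsgLib.SThreeSSix.LemmaT
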