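import Cfsg.Agent.Lib.SThreeSSix.Setting
import Cfsg.Agent.Lib.ClassK.FStarCentralizer

/-!
No group has such a configuration: three collinear conjugates produce an element centralising a
maximal elementary subgroup of `Q` outside `Q`.
-/

set_option autoImplicit false
set_option maxRecDepth 100000
set_option synthInstance.maxSize 2000
set_option synthInstance.maxHeartbeats 400000
set_option linter.unusedSectionVars false
set_option linter.style.haveILetI false

namespace CfsgLib.SThreeSSix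

open Equiv CfsgLib.ExtraspecialLarge

theorem isO_orbit : ∀ m : Vec, isO m = true → ∃ (i : Fin 3) (g : P6), act i g aStd = m := by
  decide +kernel

/-- The pureness test used in the intrinsic description. -/
theorem inY_iff : ∀ m : Vec, inE m = true →
    (inY (pr 4 5) m = true ↔ m = w0 ∨ m = aStd ∨ (isO m = true ∧ ∃ n : Vec, inE n = true ∧
      isO n = true ∧ isO (wadd m n) = true ∧ n ≠ w0 ∧ n ≠ aStd ∧ n ≠ m ∧ n ≠ wadd aStd m)) := by
  decide +kernel

theorem inY_sub : ∀ m : Vec, inY (pr 4 5) m = true → inE m = true := by decide +kernel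

theorem exists_swapping : ∀ s : Vs, perp s (pr 4 5) = true → s ≠ v0 →
    ∃ g : P6, evenB g = true ∧ actV g (pr 4 5) = s ∧ actV g s = pr 4 5 := by decide +kernel

theorem exists_out : ∀ g : P6, evenB g = true → perp (actV g (pr 4 5)) (pr 4 5) = true →
    actV g (pr 4 5) ≠ pr 4 5 →
    ∃ t : Vs, perp t (pr 4 5) = true ∧ inE (actV g t, v0) = false := by decide +kernel

theorem act_trivial : ∀ (i : Fin 3) (g : P6),
    (∀ t ∈ [pr 0 1, pr 0 2, pr 0 3, pr 2 4], act i g (t, v0) = (t, v0)) → i = 0 ∧ g = 1 := by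
  decide +kernel

theorem perp_d : ∀ g : P6, evenB g = true → actV g (pr 4 5) = pr 0 1 →
    ∃ t : Vs, perp t (pr 4 5) = true ∧ actV g t = pr 2 4 := by decide +kernel

theorem act_zero_even {g : P6} (hg : evenB g = true) (t : Vs) :
    act 0 g (t, v0) = (actV g t, v0) := by
  have h0 : ∀ g : P6, actV g v0 = v0 := by
    intro g; simp [actV, v0, vadd]
  simp [act, actG, hg, actEven, h0]

variable {G : Type*} [Group G] [Finite G]

/-- Conjugates of `z`. -/
def Conj (z x : G) : Prop := ∃ g : G, g * z * g⁻¹ = x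

theorem Conj.conj {z x : G} (h : Conj z x) (g : G) : Conj z (g * x * g⁻¹) := by
  obtain ⟨k, rfl⟩ := h
  exact ⟨g * k, by group⟩

theorem Conj.trans' {z x y : G} (h : Conj z x) (h' : Conj x y) : Conj z y := by
  obtain ⟨k, rfl⟩ := h'
  exact h.conj k

theorem Conj.symm' {z x : G} (h : Conj z x) : Conj x z := by
  obtain ⟨k, rfl⟩ := h
  exact ⟨k⁻¹, by group⟩

/-- The symmetrical subgroup attached to two orthogonal conjugates, by its elements. -/
def InY (Qf : G → Subgroup G) (z a e : G) : Prop :=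
  e ∈ Qf z ∧ e ∈ Qf a ∧ (e = 1 ∨ e = z ∨ e = a ∨ e = z * a ∨
    (Conj z e ∧ ∃ f, f ∈ Qf z ∧ f ∈ Qf a ∧ Conj z f ∧ Conj z (e * f) ∧
      f ≠ 1 ∧ f ≠ z ∧ f ≠ a ∧ f ≠ z * a ∧ f ≠ e ∧ f ≠ z * e ∧ f ≠ a * e ∧ f ≠ z * a * e))

theorem Base.conjugate {Qf : G → Subgroup G} {z : G} (h : Base Qf z) (g : G) :
    Base Qf (g * z * g⁻¹) := by
  obtain ⟨φ, hker, hrange⟩ := h.iso
  have hmap : Qf (g * z * g⁻¹) = (Qf z).map (MulAut.conj g).toMonoidHom := h.core.eq_map g z
  refine ⟨⟨h.core.def_Q, ?_, ?_, ?_⟩, ?_, ?_, ?_⟩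
  · rw [show g * z * g⁻¹ = MulAut.conj g z from rfl, MulEquiv.orderOf_eq, h.core.order]
  · rw [hmap]
    exact CfsgLib.ClassK.isExtraspecial_congr
      ((Qf z).equivMapOfInjective (MulAut.conj g).toMonoidHom (MulAut.conj g).injective) h.core.extra
  · intro x hx
    exact (h.core.good_of_conj ⟨g, rfl⟩).cen x fun q hq => (Subgroup.mem_centralizer_iff.1 hx q hq).symm
  · rw [hmap, Subgroup.card_map_of_injective (MulAut.conj g).injective, h.card]
  · have hiff : ∀ x : G, x ∈ Subgroup.centralizer ({g * z * g⁻¹} : Set G) →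
        g⁻¹ * x * g ∈ Subgroup.centralizer ({z} : Set G) := by
      intro x hx
      rw [Subgroup.mem_centralizer_singleton_iff] at hx ⊢
      calc g⁻¹ * x * g * z = g⁻¹ * (x * (g * z * g⁻¹)) * g := by group
        _ = g⁻¹ * (g * z * g⁻¹ * x) * g := by rw [hx]
        _ = z * (g⁻¹ * x * g) := by group
    have hiff' : ∀ x : G, x ∈ Subgroup.centralizer ({z} : Set G) →
        g * x * g⁻¹ ∈ Subgroup.centralizer ({g * z * g⁻¹} : Set G) := by
      intro x hx
      rw [Subgroup.mem_centralizer_singleton_iff] at hx ⊢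
      calc g * x * g⁻¹ * (g * z * g⁻¹) = g * (x * z) * g⁻¹ := by group
        _ = g * (z * x) * g⁻¹ := by rw [hx]
        _ = g * z * g⁻¹ * (g * x * g⁻¹) := by group
    let ψ : ↥(Subgroup.centralizer ({g * z * g⁻¹} : Set G)) →* ↥(Subgroup.centralizer ({z} : Set G)) :=
      MonoidHom.mk' (fun x => ⟨g⁻¹ * x * g, hiff x x.2⟩) fun a b => Subtype.ext (by
        show g⁻¹ * ((a : G) * b) * g = g⁻¹ * a * g * (g⁻¹ * b * g)
        group)
    refine ⟨φ.comp ψ, fun m => ?_, fun p => ?_⟩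
    · rw [MonoidHom.comp_apply, hker, hmap, Subgroup.mem_map_equiv]
      rfl
    · rw [← hrange]
      constructor
      · rintro ⟨x, rfl⟩; exact ⟨ψ x, rfl⟩
      · rintro ⟨x, rfl⟩
        refine ⟨⟨g * x * g⁻¹, hiff' x x.2⟩, ?_⟩
        show φ (ψ _) = φ x
        exact congrArg φ (Subtype.ext (show g⁻¹ * (g * (x : G) * g⁻¹) * g = x by group))
  · obtain ⟨k, hk, hk'⟩ := h.fused
    refine ⟨g * k * g⁻¹, ?_, fun e => hk' ?_⟩
    · rw [show g * k * g⁻¹ * (g * z * g⁻¹) * (g * k * g⁻¹)⁻¹ = g * (k * z * k⁻¹) * g⁻¹ by group]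
      exact h.core.conj_mem g z hk
    · calc k * z * k⁻¹ = g⁻¹ * (g * k * g⁻¹ * (g * z * g⁻¹) * (g * k * g⁻¹)⁻¹) * g := by group
        _ = z := by rw [e]; group

namespace Rep

variable {Qf : G → Subgroup G} {z : G} (h : Base Qf z) (R : Rep Qf z)
include h

theorem co_one : R.co 1 = w0 := (R.co_eq 1 (Qf z).one_mem).2 (Or.inl rfl)

theorem co_z : R.co z = w0 := (R.co_eq z h.core.good.mem).2 (Or.inr rfl)

theorem co_conj_Q {q r : G} (hq : q ∈ Qf z) (hr : r ∈ Qf z) : R.co (q * r * q⁻¹) = R.co r := by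
  rcases h.core.good.cases_conj q hq r hr with e | e <;> rw [e]
  rw [R.co_mul z h.core.good.mem r hr, R.co_z h]
  have : ∀ m : Vec, wadd w0 m = m := by decide +kernel
  exact this _

theorem eq_or_of_co_eq {q r : G} (hq : q ∈ Qf z) (hr : r ∈ Qf z) (e : R.co q = R.co r) :
    r = q ∨ r = z * q := by
  have hm : R.co (r * q) = w0 := by
    rw [R.co_mul r hr q hq, e]
    have : ∀ m : Vec, wadd m m = w0 := by decide +kernel
    exact this _
  rcases h.core.good.sq q hq with s | s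
  · rcases (R.co_eq _ ((Qf z).mul_mem hr hq)).1 hm with t | t
    · exact Or.inl (by rw [eq_inv_of_mul_eq_one_left t, inv_eq_of_mul_eq_one_right s])
    · exact Or.inr (by rw [← t, mul_assoc, s, mul_one])
  · rcases (R.co_eq _ ((Qf z).mul_mem hr hq)).1 hm with t | t
    · right
      calc r = (r * q) * (q * q)⁻¹ * q := by group
        _ = z * q := by rw [t, s, inv_eq_of_mul_eq_one_right h.core.good.sq_u, one_mul]
    · left
      calc r = (r * q) * (q * q)⁻¹ * q := by group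
        _ = q := by rw [t, s, mul_inv_cancel, one_mul]

theorem exists_flip' {q : G} (hq : q ∈ Qf z) (h1 : q ≠ 1) (hz : q ≠ z) :
    ∃ s ∈ Qf z, s * q * s⁻¹ = z * q := by
  by_contra hcon
  push Not at hcon
  rcases h.core.good.center q hq fun s hs => mul_inv_eq_iff_eq_mul.1
      ((h.core.good.cases_conj s hs q hq).resolve_right (hcon s hs)) with e | e
  · exact h1 e
  · exact hz e

/-- An element of the centraliser with given image carrying `a` to `b`. -/
theorem move {a b : G} (ha : a ∈ Qf z) (hb : b ∈ Qf z) (i : Fin 3) (g : P6)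
    (e : R.co b = act i g (R.co a)) (hb1 : R.co b ≠ w0) :
    ∃ x : G, x * z = z * x ∧ x * a * x⁻¹ = b ∧
      ∀ q ∈ Qf z, R.co (x * q * x⁻¹) = act i g (R.co q) := by
  obtain ⟨x, hx, hi, hg⟩ := R.act_surj i g
  have hco : ∀ q ∈ Qf z, R.co (x * q * x⁻¹) = act i g (R.co q) := fun q hq => by
    rw [R.co_conj x hx q hq, hi, hg]
  have hmem : ∀ q ∈ Qf z, x * q * x⁻¹ ∈ Qf z := h.core.good.norm x hx
  rcases R.eq_or_of_co_eq h (hmem a ha) hb (by rw [hco a ha, e]) with t | t
  · exact ⟨x, hx, t.symm, hco⟩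
  · obtain ⟨s, hs, hsb⟩ := exists_flip' h (hmem a ha)
      (fun c => hb1 (by rw [e, ← hco a ha, c, R.co_one h]))
      (fun c => hb1 (by rw [e, ← hco a ha, c, R.co_z h]))
    refine ⟨s * x, ?_, ?_, fun q hq => ?_⟩
    · rw [mul_assoc, hx, ← mul_assoc, h.core.good.comm s hs, mul_assoc]
    · rw [t, ← hsb]; group
    · rw [show s * x * q * (s * x)⁻¹ = s * (x * q * x⁻¹) * s⁻¹ by group,
        R.co_conj_Q h hs (hmem q hq), hco q hq]

theorem exists_std : ∃ a ∈ Qf z, R.co a = aStd ∧ Conj z a := by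
  obtain ⟨k, hk, hk'⟩ := h.fused
  obtain ⟨i, g, e⟩ := R.pos k hk hk'
  obtain ⟨q, hq, hqe⟩ := R.co_surj aStd
  have hne : act i g aStd ≠ w0 := by
    have H : ∀ (i : Fin 3) (g : P6), act i g aStd ≠ w0 := fun i g c => by
      have := isO_act i g; rw [c] at this; exact absurd this (by decide +kernel)
    exact H i g
  obtain ⟨x, -, hxq, -⟩ := R.move h hq hk i g (by rw [hqe, e]) (by rw [e]; exact hne)
  exact ⟨q, hq, hqe, Conj.trans' ⟨k, rfl⟩ (Conj.symm' ⟨x, hxq⟩)⟩

theorem conj_iff {q : G} (hq : q ∈ Qf z) : (Conj z q ∧ q ≠ z) ↔ isO (R.co q) = true := by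
  constructor
  · rintro ⟨⟨k, rfl⟩, hne⟩
    obtain ⟨i, g, e⟩ := R.pos k hq hne
    rw [e]; exact isO_act i g
  · intro ho
    obtain ⟨a, ha, hae, hca⟩ := R.exists_std h
    obtain ⟨i, g, e⟩ := isO_orbit _ ho
    have hne : R.co q ≠ w0 := fun c => by rw [c] at ho; exact absurd ho (by decide +kernel)
    obtain ⟨x, -, hxa, -⟩ := R.move h ha hq i g (by rw [hae, e]) hne
    exact ⟨hxa ▸ hca.conj x, fun c => hne (by rw [c, R.co_z h])⟩

theorem std_facts {a : G} (ha : a ∈ Qf z) (hae : R.co a = aStd) :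
    Conj z a ∧ a ≠ z ∧ ∀ e ∈ Qf z, (e ∈ Qf a ↔ inE (R.co e) = true) := by
  classical
  obtain ⟨hca, hne⟩ := (R.conj_iff h ha).2 (by rw [hae]; decide +kernel)
  refine ⟨hca, hne, ?_⟩
  obtain ⟨k, hk⟩ := hca
  subst hk
  obtain ⟨h32, hin⟩ := R.inter k ha hae
  intro e he
  refine ⟨fun he' => hin e ⟨he, he'⟩, fun hE => ?_⟩
  -- every admissible value is taken on the intersection
  haveI := Fintype.ofFinite G
  let S : Finset G := Finset.univ.filter fun x => x ∈ Qf z ⊓ Qf (k * z * k⁻¹)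
  have hScard : S.card = 32 := by
    rw [← h32, Nat.card_eq_fintype_card]
    exact (Fintype.card_of_subtype S (fun x => by simp [S])).symm
  have hfib : ∀ m : Vec, (S.filter fun x => R.co x = m).card ≤ 2 := by
    intro m
    by_cases hm : ∃ x ∈ S, R.co x = m
    · obtain ⟨x, hx, hxm⟩ := hm
      refine le_trans (Finset.card_le_card (t := {x, z * x}) ?_) Finset.card_le_two
      intro y hy
      simp only [Finset.mem_filter, S, Finset.mem_univ, true_and] at hy hx
      rcases R.eq_or_of_co_eq h hx.1 hy.1.1 (hxm.trans hy.2.symm) with t | t <;> simp [t]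
    · rw [Finset.filter_eq_empty_iff.2 fun x hx c => hm ⟨x, hx, c⟩]; simp
  have hmul : S.card ≤ 2 * (S.image R.co).card :=
    Finset.card_le_mul_card_image S 2 fun m _ => hfib m
  have himg : S.image R.co = Finset.univ.filter fun m : Vec => inE m = true := by
    refine Finset.eq_of_subset_of_card_le ?_ (by rw [card_inE]; omega)
    intro m hm
    simp only [Finset.mem_image, S, Finset.mem_filter, Finset.mem_univ, true_and] at hm ⊢
    obtain ⟨x, hx, rfl⟩ := hm
    exact hin x hx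
  have : R.co e ∈ S.image R.co := by rw [himg]; simp [hE]
  simp only [Finset.mem_image, S, Finset.mem_filter, Finset.mem_univ, true_and] at this
  obtain ⟨x, hx, hxe⟩ := this
  rcases R.eq_or_of_co_eq h hx.1 he hxe with t | t <;> rw [t]
  · exact hx.2
  · exact (Qf _).mul_mem (h.core.symm ha) hx.2

theorem inY_std {a : G} (ha : a ∈ Qf z) (hae : R.co a = aStd) {e : G} :
    InY Qf z a e ↔ e ∈ Qf z ∧ inY (pr 4 5) (R.co e) = true := by
  obtain ⟨hca, hne, hE⟩ := R.std_facts h ha hae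
  have hazQ := (Qf z).mul_mem h.core.good.mem ha
  have cza : R.co (z * a) = aStd := by
    rw [R.co_mul z h.core.good.mem a ha, R.co_z h, hae]; decide +kernel
  have hconjz : Conj z z := ⟨1, by group⟩
  have four : ∀ {x}, x ∈ Qf z → (R.co x = w0 ∨ R.co x = aStd) →
      x = 1 ∨ x = z ∨ x = a ∨ x = z * a := by
    intro x hx c
    rcases c with c | c
    · rcases (R.co_eq x hx).1 c with t | t
      · exact Or.inl t
      · exact Or.inr (Or.inl t)
    · rcases R.eq_or_of_co_eq h ha hx (hae.trans c.symm) with t | t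
      · exact Or.inr (Or.inr (Or.inl t))
      · exact Or.inr (Or.inr (Or.inr t))
  constructor
  · rintro ⟨he, hea, hc⟩
    refine ⟨he, (inY_iff _ ((hE e he).1 hea)).2 ?_⟩
    rcases hc with rfl | rfl | rfl | rfl | ⟨hce, f, hf, hfa, hcf, hcef, h1, h2, h3, h4, h5, h6, h7, h8⟩
    · exact Or.inl (R.co_one h)
    · exact Or.inl (R.co_z h)
    · exact Or.inr (Or.inl hae)
    · exact Or.inr (Or.inl cza)
    by_cases he0 : R.co e = w0
    · exact Or.inl he0
    have hez : e ≠ z := fun c => he0 (by rw [c, R.co_z h])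
    refine Or.inr (Or.inr ⟨(R.conj_iff h he).1 ⟨hce, hez⟩, R.co f, (hE f hf).1 hfa,
      (R.conj_iff h hf).1 ⟨hcf, h2⟩, ?_, ?_, ?_, ?_, ?_⟩)
    · rw [← R.co_mul e he f hf]
      refine (R.conj_iff h ((Qf z).mul_mem he hf)).1 ⟨hcef, fun c => ?_⟩
      -- `e f = z` puts `f` into `{e, z e}`
      have : R.co e = R.co f := by
        have t := R.co_mul e he f hf
        rw [c, R.co_z h] at t
        have : ∀ m n : Vec, w0 = wadd m n → m = n := by decide +kernel
        exact this _ _ t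
      rcases R.eq_or_of_co_eq h he hf this with u | u
      · exact h5 u
      · exact h6 u
    · intro c
      rcases (R.co_eq f hf).1 c with u | u
      · exact h1 u
      · exact h2 u
    · intro c
      rcases R.eq_or_of_co_eq h ha hf (hae.trans c.symm) with u | u
      · exact h3 u
      · exact h4 u
    · intro c
      rcases R.eq_or_of_co_eq h he hf c.symm with u | u
      · exact h5 u
      · exact h6 u
    · intro c
      have hm : R.co (a * e) = wadd aStd (R.co e) := by rw [R.co_mul a ha e he, hae]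
      rcases R.eq_or_of_co_eq h ((Qf z).mul_mem ha he) hf (hm.trans c.symm) with u | u
      · exact h7 u
      · exact h8 (by rw [u, mul_assoc])
  · rintro ⟨he, hy⟩
    refine ⟨he, (hE e he).2 (inY_sub _ hy), ?_⟩
    rcases (inY_iff _ (inY_sub _ hy)).1 hy with c | c | ⟨ho, n, hnE, hno, hmn, n1, n2, n3, n4⟩
    · exact (four he (Or.inl c)).imp id (fun t => t.imp id (fun u => u.imp id Or.inl))
    · exact (four he (Or.inr c)).imp id (fun t => t.imp id (fun u => u.imp id Or.inl))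
    obtain ⟨f, hf, hfe⟩ := R.co_surj n
    refine Or.inr (Or.inr (Or.inr (Or.inr ⟨((R.conj_iff h he).2 ho).1, f, hf,
      (hE f hf).2 (by rw [hfe]; exact hnE), ((R.conj_iff h hf).2 (by rw [hfe]; exact hno)).1,
      ((R.conj_iff h ((Qf z).mul_mem he hf)).2 (by rw [R.co_mul e he f hf, hfe]; exact hmn)).1,
      ?_, ?_, ?_, ?_, ?_, ?_, ?_, ?_⟩))) <;> intro c <;> rw [c] at hfe
    · exact n1 (by rw [← hfe, R.co_one h])
    · exact n1 (by rw [← hfe, R.co_z h])
    · exact n2 (by rw [← hfe, hae])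
    · exact n2 (by rw [← hfe, cza])
    · exact n3 hfe.symm
    · refine n3 (hfe.symm.trans ?_)
      rw [R.co_mul z h.core.good.mem e he, R.co_z h]
      have : ∀ m : Vec, wadd w0 m = m := by decide +kernel
      exact this _
    · exact n4 (by rw [← hfe, R.co_mul a ha e he, hae])
    · exact n4 (by rw [← hfe, R.co_mul (z * a) hazQ e he, cza])

end Rep

variable {Qf : G → Subgroup G}

theorem Conj.iff_of_conj {z u y : G} (h : Conj z u) : Conj u y ↔ Conj z y :=
  ⟨fun t => h.trans' t, fun t => h.symm'.trans' t⟩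

theorem InY.symm {z a e : G} (hca : Conj z a) (hza : z * a = a * z) (h : InY Qf z a e) :
    InY Qf a z e := by
  obtain ⟨he, hea, hc⟩ := h
  refine ⟨hea, he, ?_⟩
  rcases hc with c | c | c | c | ⟨hce, f, hf, hfa, hcf, hcef, h1, h2, h3, h4, h5, h6, h7, h8⟩
  · exact Or.inl c
  · exact Or.inr (Or.inr (Or.inl c))
  · exact Or.inr (Or.inl c)
  · exact Or.inr (Or.inr (Or.inr (Or.inl (c.trans hza))))
  · exact Or.inr (Or.inr (Or.inr (Or.inr ⟨hca.iff_of_conj.2 hce, f, hfa, hf, hca.iff_of_conj.2 hcf,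
      hca.iff_of_conj.2 hcef, h1, h3, h2, hza ▸ h4, h5, h7, h6, hza ▸ h8⟩)))

theorem InY.conjugate {z a e : G} {Rz : Base Qf z} (x : G) (hxz : x * z * x⁻¹ = z)
    (h : InY Qf z a e) : InY Qf z (x * a * x⁻¹) (x * e * x⁻¹) := by
  obtain ⟨he, hea, hc⟩ := h
  have hm : ∀ {q y : G}, q ∈ Qf y → x * q * x⁻¹ ∈ Qf (x * y * x⁻¹) := fun hq =>
    Rz.core.conj_mem x _ hq
  have hmz : ∀ {q : G}, q ∈ Qf z → x * q * x⁻¹ ∈ Qf z := fun hq => by
    have := hm hq; rwa [hxz] at this
  refine ⟨hmz he, hm hea, ?_⟩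
  have inj : ∀ {p q : G}, x * p * x⁻¹ = x * q * x⁻¹ → p = q := fun c =>
    mul_left_cancel (mul_right_cancel c)
  have hp : ∀ p q : G, x * (p * q) * x⁻¹ = (x * p * x⁻¹) * (x * q * x⁻¹) := fun p q => by group
  rcases hc with rfl | rfl | rfl | rfl | ⟨hce, f, hf, hfa, hcf, hcef, h1, h2, h3, h4, h5, h6, h7, h8⟩
  · exact Or.inl (by group)
  · exact Or.inr (Or.inl hxz)
  · exact Or.inr (Or.inr (Or.inl rfl))
  · exact Or.inr (Or.inr (Or.inr (Or.inl (by rw [hp, hxz]))))
  · refine Or.inr (Or.inr (Or.inr (Or.inr ⟨hce.conj x, x * f * x⁻¹, hmz hf, hm hfa, hcf.conj x,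
      hp e f ▸ hcef.conj x, fun c => h1 (inj (c.trans (by group))),
      fun c => h2 (inj (c.trans hxz.symm)), fun c => h3 (inj c),
      fun c => h4 (inj (c.trans (by rw [hp, hxz]))), fun c => h5 (inj c),
      fun c => h6 (inj (c.trans (by rw [hp, hxz]))), fun c => h7 (inj (c.trans (hp a e).symm)),
      fun c => h8 (inj (c.trans (by rw [hp, hp, hxz])))⟩)))

/-- A conjugate in `Q` can be carried to the standard one. -/
theorem Rep.exists_to_std {z a : G} (h : Base Qf z) (R : Rep Qf z) (ha : a ∈ Qf z) (hca : Conj z a)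
    (hne : a ≠ z) : ∃ x : G, x * z * x⁻¹ = z ∧ R.co (x * a * x⁻¹) = aStd := by
  obtain ⟨q, hq, hqe, -⟩ := R.exists_std h
  obtain ⟨k, rfl⟩ := hca
  obtain ⟨i, g, e⟩ := R.pos k ha hne
  obtain ⟨x, hx, hxq, -⟩ := R.move h hq ha i g (by rw [hqe, e]) (by
    rw [e]; intro c; have := isO_act i g; rw [c] at this; exact absurd this (by decide +kernel))
  refine ⟨x⁻¹, ?_, ?_⟩
  · calc x⁻¹ * z * x⁻¹⁻¹ = x⁻¹ * (z * x) := by group
      _ = z := by rw [← hx]; group
  · rw [← hxq, show x⁻¹ * (x * q * x⁻¹) * x⁻¹⁻¹ = q by group, hqe]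

/-- The three local facts, in standard position. -/
theorem Rep.inY_second {z a : G} (h : Base Qf z) (R : Rep Qf z) (ha : a ∈ Qf z)
    (hae : R.co a = aStd) {y : G} (hy : InY Qf z a y) (hy1 : y ≠ 1) (hy2 : y ≠ z) :
    ∃ g : P6, evenB g = true ∧ actV g (pr 4 5) = (R.co y).1 ∧ (R.co y).2 = v0 ∧
      perp (R.co y).1 (pr 4 5) = true ∧ InY Qf z y a ∧
      ∀ e, InY Qf z y e ↔ e ∈ Qf z ∧ ∃ t, perp t (pr 4 5) = true ∧ R.co e = (actV g t, v0) := by
  obtain ⟨hyQ, hy'⟩ := (R.inY_std h ha hae).1 hy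
  obtain ⟨s, s', hs⟩ : ∃ s s', R.co y = (s, s') := ⟨_, _, rfl⟩
  rw [hs] at hy' ⊢
  simp only [inY, Bool.and_eq_true, beq_iff_eq] at hy'
  obtain ⟨rfl, hperp⟩ := hy'
  have hs0 : s ≠ v0 := fun c => by
    subst c
    rcases (R.co_eq y hyQ).1 hs with t | t
    · exact hy1 t
    · exact hy2 t
  obtain ⟨g, hg, hg1, hg2⟩ := exists_swapping s hperp hs0
  obtain ⟨x, hx, hxa, hxco⟩ := R.move h ha hyQ 0 g
    (by rw [hs, hae, aStd, act_zero_even hg, hg1]) (by rw [hs]; exact fun c => hs0 (congrArg Prod.fst c))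
  have hxz : x * z * x⁻¹ = z := mul_inv_eq_iff_eq_mul.2 hx
  have hiff : ∀ e, InY Qf z y e ↔
      e ∈ Qf z ∧ ∃ t, perp t (pr 4 5) = true ∧ R.co e = (actV g t, v0) := by
    intro e
    constructor
    · intro he
      have h' := InY.conjugate (Rz := h) x⁻¹ (by
        calc x⁻¹ * z * x⁻¹⁻¹ = x⁻¹ * (z * x) := by group
          _ = z := by rw [← hx]; group) he
      rw [show x⁻¹ * y * x⁻¹⁻¹ = a by rw [← hxa]; group] at h'
      obtain ⟨hq, hY⟩ := (R.inY_std h ha hae).1 h'
      simp only [inY, Bool.and_eq_true, beq_iff_eq] at hY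
      refine ⟨he.1, _, hY.2, ?_⟩
      conv_lhs => rw [show e = x * (x⁻¹ * e * x⁻¹⁻¹) * x⁻¹ by group, hxco _ hq]
      rw [← act_zero_even hg]
      exact congrArg _ (Prod.ext rfl hY.1)
    · rintro ⟨heQ, t, ht, hte⟩
      obtain ⟨q, hq, hqe⟩ := R.co_surj (t, v0)
      have hY : InY Qf z a q := (R.inY_std h ha hae).2 ⟨hq, by
        rw [hqe]; simp [inY, ht]⟩
      have h' := InY.conjugate (Rz := h) x hxz hY
      rw [hxa] at h'
      rcases R.eq_or_of_co_eq h h'.1 heQ (by rw [hxco q hq, hqe, act_zero_even hg, hte]) with u | u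
      · rwa [u]
      · have hz2 : z * (x * q * x⁻¹) = x * (z * q) * x⁻¹ := by
          rw [← mul_assoc x z q, hx]; group
        rw [u, hz2, ← hxa]
        refine InY.conjugate (Rz := h) x hxz ((R.inY_std h ha hae).2
          ⟨(Qf z).mul_mem h.core.good.mem hq, ?_⟩)
        rw [R.co_mul z h.core.good.mem q hq, R.co_z h, hqe]
        have : ∀ m : Vec, wadd w0 m = m := by decide +kernel
        rw [this]; simp [inY, ht]
  refine ⟨g, hg, hg1, rfl, hperp, (hiff a).2 ⟨ha, s, hperp, ?_⟩, hiff⟩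
  rw [hae, hg2]; rfl

theorem inY_comm {z y y' e f : G} (h : Base Qf z) (hy : y ∈ Qf z) (hcy : Conj z y) (hne : y ≠ z)
    (hy' : InY Qf z y y') (h1 : y' ≠ 1) (h2 : y' ≠ z) (he : InY Qf z y e) (hf : InY Qf z y' f) :
    e * f = f * e := by
  obtain ⟨R⟩ := h.exists_rep
  obtain ⟨x, hxz, hxy⟩ := R.exists_to_std h hy hcy hne
  have hxQ : ∀ q ∈ Qf z, x * q * x⁻¹ ∈ Qf z := fun q hq => by
    have := h.core.conj_mem x z hq; rwa [hxz] at this
  have inj : ∀ {p q : G}, x * p * x⁻¹ = x * q * x⁻¹ → p = q := fun c =>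
    mul_left_cancel (mul_right_cancel c)
  have a1 := InY.conjugate (Rz := h) x hxz hy'
  have a2 := InY.conjugate (Rz := h) x hxz he
  have a3 := InY.conjugate (Rz := h) x hxz hf
  obtain ⟨g, -, -, -, -, -, hiff⟩ := R.inY_second h (hxQ y hy) hxy a1
    (fun c => h1 (inj (c.trans (by group)))) (fun c => h2 (inj (c.trans hxz.symm)))
  obtain ⟨hfQ, t, -, hft⟩ := (hiff _).1 a3
  obtain ⟨heQ, hee⟩ := (R.inY_std h (hxQ y hy) hxy).1 a2
  simp only [inY, Bool.and_eq_true, beq_iff_eq] at hee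
  -- all values lie in the first summand, whose preimage has exponent two
  have key : ∀ q ∈ Qf z, (R.co q).2 = v0 → q * q = 1 := by
    intro q hq hq2
    rcases Classical.em (R.co q = w0) with c | c
    · rcases (R.co_eq q hq).1 c with u | u <;> rw [u]
      · exact one_mul 1
      · exact h.core.good.sq_u
    · have H : ∀ m : Vec, m.2 = v0 → m ≠ w0 → isO m = true := by decide +kernel
      obtain ⟨⟨k, rfl⟩, -⟩ := (R.conj_iff h hq).2 (H _ hq2 c)
      calc k * z * k⁻¹ * (k * z * k⁻¹) = k * (z * z) * k⁻¹ := by group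
        _ = 1 := by rw [h.core.good.sq_u]; group
  set p := x * e * x⁻¹ with hp
  set q := x * f * x⁻¹ with hq
  have hpq : (R.co (p * q)).2 = v0 := by
    rw [R.co_mul p heQ q hfQ, hft]
    show vadd (R.co p).2 v0 = v0
    rw [hee.1]; rfl
  have e1 := key _ ((Qf z).mul_mem heQ hfQ) hpq
  have e2 := key p heQ hee.1
  have e3 := key q hfQ (by rw [hft])
  have hcomm : p * q = q * p := by
    rw [← inv_eq_of_mul_eq_one_right e1, mul_inv_rev, inv_eq_of_mul_eq_one_right e2,
      inv_eq_of_mul_eq_one_right e3]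
  apply inj
  calc x * (e * f) * x⁻¹ = p * q := by rw [hp, hq]; group
    _ = q * p := hcomm
    _ = x * (f * e) * x⁻¹ := by rw [hp, hq]; group

theorem inY_swap {z y y' : G} (h : Base Qf z) (hy : y ∈ Qf z) (hcy : Conj z y) (hne : y ≠ z)
    (hy' : InY Qf z y y') (h1 : y' ≠ 1) (h2 : y' ≠ z) : InY Qf z y' y := by
  obtain ⟨R⟩ := h.exists_rep
  obtain ⟨x, hxz, hxy⟩ := R.exists_to_std h hy hcy hne
  have hxQ : x * y * x⁻¹ ∈ Qf z := by
    have := h.core.conj_mem x z hy; rwa [hxz] at this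
  have inj : ∀ {p q : G}, x * p * x⁻¹ = x * q * x⁻¹ → p = q := fun c =>
    mul_left_cancel (mul_right_cancel c)
  obtain ⟨g, -, -, -, -, hback, -⟩ := R.inY_second h hxQ hxy (InY.conjugate (Rz := h) x hxz hy')
    (fun c => h1 (inj (c.trans (by group)))) (fun c => h2 (inj (c.trans hxz.symm)))
  have := InY.conjugate (Rz := h) x⁻¹ (by
    conv_lhs => rw [← hxz]
    group) hback
  rwa [show x⁻¹ * (x * y' * x⁻¹) * x⁻¹⁻¹ = y' by group,
    show x⁻¹ * (x * y * x⁻¹) * x⁻¹⁻¹ = y by group] at this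

theorem inY_out {z y y' : G} (h : Base Qf z) (hy : y ∈ Qf z) (hcy : Conj z y) (hne : y ≠ z)
    (hy' : InY Qf z y y') (h1 : y' ≠ 1) (h2 : y' ≠ z) (h3 : y' ≠ y) (h4 : y' ≠ z * y) :
    ∃ e, InY Qf z y' e ∧ e ∉ Qf y := by
  obtain ⟨R⟩ := h.exists_rep
  obtain ⟨x, hxz, hxy⟩ := R.exists_to_std h hy hcy hne
  have hxQ : x * y * x⁻¹ ∈ Qf z := by
    have := h.core.conj_mem x z hy; rwa [hxz] at this
  have inj : ∀ {p q : G}, x * p * x⁻¹ = x * q * x⁻¹ → p = q := fun c =>
    mul_left_cancel (mul_right_cancel c)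
  have a1 := InY.conjugate (Rz := h) x hxz hy'
  obtain ⟨g, hg, hg1, hsnd, hperp, -, hiff⟩ := R.inY_second h hxQ hxy a1
    (fun c => h1 (inj (c.trans (by group)))) (fun c => h2 (inj (c.trans hxz.symm)))
  obtain ⟨t, ht, hout⟩ := exists_out g hg (by rw [hg1]; exact hperp) (fun c => by
    have hco : R.co (x * y * x⁻¹) = R.co (x * y' * x⁻¹) := by
      rw [hxy, aStd, ← c, hg1]; exact Prod.ext rfl hsnd.symm
    rcases R.eq_or_of_co_eq h hxQ a1.1 hco with u | u
    · exact h3 (inj u)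
    · exact h4 (inj (u.trans (by
        calc z * (x * y * x⁻¹) = (x * z * x⁻¹) * (x * y * x⁻¹) := by rw [hxz]
          _ = x * (z * y) * x⁻¹ := by group))))
  obtain ⟨q, hq, hqe⟩ := R.co_surj (actV g t, v0)
  refine ⟨x⁻¹ * q * x, ?_, fun c => ?_⟩
  · have := InY.conjugate (Rz := h) x⁻¹ (by
      conv_lhs => rw [← hxz]
      group) ((hiff q).2 ⟨hq, t, ht, hqe⟩)
    rwa [show x⁻¹ * (x * y' * x⁻¹) * x⁻¹⁻¹ = y' by group,
      show x⁻¹ * q * x⁻¹⁻¹ = x⁻¹ * q * x by group] at this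
  · have hc := h.core.conj_mem x y c
    rw [show x * (x⁻¹ * q * x) * x⁻¹ = q by group] at hc
    have := ((R.std_facts h hxQ hxy).2.2 q hq).1 hc
    rw [hqe, hout] at this
    exact absurd this (by decide)

/-- There is no such configuration. -/
theorem false_of_base {z : G} (h : Base Qf z) : False := by
  obtain ⟨R⟩ := h.exists_rep
  obtain ⟨a, ha, hae, -⟩ := R.exists_std h
  obtain ⟨hca, hane, -⟩ := R.std_facts h ha hae
  obtain ⟨d, hd, hde⟩ := R.co_surj dStd
  have hdY : InY Qf z a d := (R.inY_std h ha hae).2 ⟨hd, by rw [hde]; decide +kernel⟩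
  have hd1 : d ≠ 1 := fun c => by rw [c, R.co_one h] at hde; exact absurd hde (by decide +kernel)
  have hdz : d ≠ z := fun c => by rw [c, R.co_z h] at hde; exact absurd hde (by decide +kernel)
  have hda : d ≠ a := fun c => by rw [c, hae] at hde; exact absurd hde (by decide +kernel)
  have hdza : d ≠ z * a := fun c => by
    rw [c, R.co_mul z h.core.good.mem a ha, R.co_z h, hae] at hde
    exact absurd hde (by decide +kernel)
  have hza : z * a = a * z := (h.core.le_centralizer z ha).symm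
  have hzd : z * d = d * z := (h.core.le_centralizer z hd).symm
  obtain ⟨hcd, -⟩ := (R.conj_iff h hd).2 (by rw [hde]; decide +kernel)
  -- the view from `a`
  have hA : Base Qf a := by
    obtain ⟨k, rfl⟩ := hca
    exact h.conjugate k
  have hzQa : z ∈ Qf a := by
    obtain ⟨k, rfl⟩ := hca
    exact h.core.symm ha
  have hdA : InY Qf a z d := hdY.symm hca hza
  have hzd' : InY Qf a d z := inY_swap hA hzQa hca.symm' hane.symm hdA hd1 hda
  obtain ⟨c, hc, hcQ⟩ := inY_out hA hzQa hca.symm' hane.symm hdA hd1 hda hdz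
    (fun e => hdza (e.trans hza.symm))
  have hzA : InY Qf a z z := ⟨hzQa, h.core.good.mem, Or.inr (Or.inr (Or.inl rfl))⟩
  have hcz : c * z = z * c := (inY_comm hA hzQa hca.symm' hane.symm hdA hd1 hda hzA hc).symm
  -- the view from `d`
  have hD : Base Qf d := by
    obtain ⟨k, rfl⟩ := hcd
    exact h.conjugate k
  have hzQd : z ∈ Qf d := by
    obtain ⟨k, rfl⟩ := hcd
    exact h.core.symm hd
  have hadY : InY Qf z d a := inY_swap h ha hca hane hdY hd1 hdz
  have haD : InY Qf d z a := hadY.symm hcd hzd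
  have ha1 : a ≠ 1 := fun e => by rw [e, R.co_one h] at hae; exact absurd hae (by decide +kernel)
  have had : a * d = d * a := (hA.core.le_centralizer a hdA.1).symm
  have hcd' : InY Qf d a c := hc.symm (hca.symm'.trans' hcd) had
  have hfix : ∀ e, InY Qf z a e ∨ InY Qf z d e → R.co (c * e * c⁻¹) = R.co e := by
    intro e he
    refine congrArg R.co (mul_inv_eq_iff_eq_mul.2 ?_)
    rcases he with he | he
    · exact (inY_comm hA hzQa hca.symm' hane.symm hdA hd1 hda (he.symm hca hza) hc).symm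
    · exact (inY_comm hD hzQd hcd.symm' hdz.symm haD ha1 hda.symm (he.symm hcd hzd) hcd').symm
  obtain ⟨g, hg, hg1, -, -, -, hiff⟩ := R.inY_second h ha hae hdY hd1 hdz
  rw [hde] at hg1
  have hlist : ∀ t ∈ [pr 0 1, pr 0 2, pr 0 3, pr 2 4],
      act (R.ii c) (R.gg c) (t, v0) = (t, v0) := by
    intro t ht
    obtain ⟨q, hq, hqe⟩ := R.co_surj (t, v0)
    have hY : InY Qf z a q ∨ InY Qf z d q := by
      simp only [List.mem_cons, List.not_mem_nil, or_false] at ht
      rcases ht with rfl | rfl | rfl | rfl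
      · exact Or.inl ((R.inY_std h ha hae).2 ⟨hq, by rw [hqe]; decide +kernel⟩)
      · exact Or.inl ((R.inY_std h ha hae).2 ⟨hq, by rw [hqe]; decide +kernel⟩)
      · exact Or.inl ((R.inY_std h ha hae).2 ⟨hq, by rw [hqe]; decide +kernel⟩)
      · refine Or.inr ((hiff q).2 ⟨hq, ?_⟩)
        obtain ⟨t', ht', e⟩ := perp_d g hg hg1
        exact ⟨t', ht', by rw [hqe, e]⟩
    have := hfix q hY
    rwa [R.co_conj c hcz q hq, hqe] at this
  obtain ⟨hi, hgg⟩ := act_trivial _ _ hlist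
  exact hcQ (R.mem_Q c hcz hi hgg)

end CfsgLib.SThreeSSix
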