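import Mathlib

/-!
Finite facts on the model `V × V`, `V` the four dimensional module of the symmetric group of
degree six, for the equal-sign part of `S₃ × S₆`.
-/

set_option autoImplicit false
set_option maxRecDepth 100000
set_option synthInstance.maxSize 2000
set_option synthInstance.maxHeartbeats 400000

attribute [local instance 10000] List.decidableBAll List.decidableBEx

namespace CfsgLib.SThreeSSix

open Equiv

/-- The symmetric group of degree six. -/
abbrev P6 := Equiv.Perm (Fin 6)

/-- Vectors of the four dimensional space over two elements. -/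
abbrev Vs := Bool × Bool × Bool × Bool

/-- Sum of vectors. -/
def vadd : Vs → Vs → Vs
  | (a, b, c, d), (a', b', c', d') => (xor a a', xor b b', xor c c', xor d d')

/-- The zero vector. -/
def v0 : Vs := (false, false, false, false)

/-- The images of the six points. -/
def pt : Fin 6 → Vs :=
  ![(false, false, false, false), (true, false, false, false), (false, true, false, false),
    (false, false, true, false), (false, false, false, true), (true, true, true, true)]

/-- The vector of a pair of points. -/
def pr (a b : Fin 6) : Vs := vadd (pt a) (pt b)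

/-- The action of a permutation. -/
def actV (g : P6) : Vs → Vs
  | (a, b, c, d) =>
    vadd (vadd (if a then pr (g 0) (g 1) else v0) (if b then pr (g 0) (g 2) else v0))
      (vadd (if c then pr (g 0) (g 3) else v0) (if d then pr (g 0) (g 4) else v0))

/-- The eight dimensional space. -/
abbrev Vec := Vs × Vs

/-- Sum in the eight dimensional space. -/
def wadd (m n : Vec) : Vec := (vadd m.1 n.1, vadd m.2 n.2)

/-- The zero of the eight dimensional space. -/
def w0 : Vec := (v0, v0)

/-- The action of the element of order three. -/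
def actC (m : Vec) : Vec := (m.2, vadd m.1 m.2)

/-- The action of an even permutation. -/
def actEven (g : P6) (m : Vec) : Vec := (actV g m.1, actV g m.2)

/-- The action of an odd permutation. -/
def actOdd (g : P6) (m : Vec) : Vec := (vadd (actV g m.1) (actV g m.2), actV g m.2)

/-- A parity test. -/
def evenB (g : P6) : Bool :=
  ((List.finRange 6).map fun i =>
    ((List.finRange 6).filter fun j => decide (i < j ∧ g j < g i)).length).sum % 2 == 0

theorem sign_eq : ∀ g : P6, Perm.sign g = if evenB g then 1 else -1 := by decide +kernel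

theorem evenB_iff (g : P6) : evenB g = true ↔ Perm.sign g = 1 := by
  rw [sign_eq g]
  cases evenB g <;> simp

/-- The action of a permutation on the eight dimensional space. -/
def actG (g : P6) (m : Vec) : Vec := if evenB g then actEven g m else actOdd g m

/-- The action of a power of the element of order three followed by a permutation. -/
def act (i : Fin 3) (g : P6) (m : Vec) : Vec := actC^[i.val] (actG g m)

/-- First generator of the standard four-group. -/
def fA : P6 := swap 0 1 * swap 2 3

/-- Second generator of the standard four-group. -/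
def fB : P6 := swap 0 2 * swap 1 3

/-- Second generator of the other four-group. -/
def fP : P6 := swap 0 1 * swap 4 5

/-- The transposition fixing the standard four-group. -/
def tC : P6 := swap 4 5

/-- The standard vector. -/
def aStd : Vec := (pr 4 5, v0)

/-- A standard vector orthogonal to the first one. -/
def dStd : Vec := (pr 0 1, v0)

/-- Orthogonality of vectors (pairs meeting in an even number of points). -/
def perp (s t : Vs) : Bool :=
  !((xor (xor (s.1 && t.2.1) (s.2.1 && t.1)) (xor (s.1 && t.2.2.1) (s.2.2.1 && t.1))) != 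
    xor (xor (xor (s.1 && t.2.2.2) (s.2.2.2 && t.1)) (xor (s.2.1 && t.2.2.1) (s.2.2.1 && t.2.1)))
      (xor (xor (s.2.1 && t.2.2.2) (s.2.2.2 && t.2.1)) (xor (s.2.2.1 && t.2.2.2) (s.2.2.2 && t.2.2.1))))

/-- The images of the conjugates in the space. -/
def isO (m : Vec) : Bool :=
  m != w0 && (m.1 == v0 || m.2 == v0 || m.1 == m.2)

/-- The image of the intersection at the standard vector. -/
def inE (m : Vec) : Bool :=
  (m.2 == v0 || m.2 == pr 4 5) && perp m.1 (pr 4 5)

/-- The sixteen element subgroup with all elements pure. -/
def inY (s : Vs) (m : Vec) : Bool := m.2 == v0 && perp m.1 s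

theorem eq_std_of_fixed : ∀ s : Vs, actV (swap 0 1 * swap 2 3) s = s →
    actV (swap 0 2 * swap 0 1) s = s → s = v0 ∨ s = pr 4 5 := by decide +kernel

theorem even_cent_fA : ∀ f : P6, f * f = 1 → evenB f = true → f * fA = fA * f →
    f ∈ [1, fA, fB, fA * fB, fP, fA * fP] := by decide +kernel

theorem comm_fA_cases : ∀ f ∈ [1, fA, fB, fA * fB, fP, fA * fP],
    ∀ g ∈ [1, fA, fB, fA * fB, fP, fA * fP], f * g = g * f →
    f ∈ [1, fA] ∨ g ∈ [1, fA, f, fA * f] := by decide +kernel

theorem odd_cent_std : ∀ g : P6, evenB g = false → g * fA = fA * g → g * fB = fB * g →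
    g = tC ∨ g = fA * tC ∨ g = fB * tC ∨ g = fA * fB * tC := by decide +kernel

theorem conj_std : ∀ g : P6, g * fA * g⁻¹ ∈ [fA, fB, fA * fB] ∨
    ¬ ((g 4 = 4 ∧ g 5 = 5) ∨ (g 4 = 5 ∧ g 5 = 4)) := by decide +kernel

theorem conj_std_B : ∀ g : P6, g * fB * g⁻¹ ∈ [fA, fB, fA * fB] ∨
    ¬ ((g 4 = 4 ∧ g 5 = 5) ∨ (g 4 = 5 ∧ g 5 = 4)) := by decide +kernel

theorem stab_decomp : ∀ g : P6, ((g 4 = 4 ∧ g 5 = 5) ∨ (g 4 = 5 ∧ g 5 = 4)) →
    let g1 := swap 0 (g 0) * g
    let g2 := swap 1 (g1 1) * g1
    let g3 := swap 2 (g2 2) * g2
    g 0 < 4 ∧ g1 1 < 4 ∧ g2 2 < 4 ∧ (g3 = 1 ∨ g3 = swap 4 5) := by decide +kernel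

theorem mem_inE : ∀ m : Vec,
    (actEven fA m = m ∨ actEven fA m = wadd m aStd) →
    (actEven fB m = m ∨ actEven fB m = wadd m aStd) →
    (actOdd tC m = m ∨ actOdd tC m = wadd m aStd) → inE m = true := by decide +kernel

theorem card_inE : (Finset.univ.filter fun m : Vec => inE m = true).card = 16 := by decide +kernel

end CfsgLib.SThreeSSix
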