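import Mathlib

/-!
An outer involutory automorphism of `Perm (Fin 6)`: the action on the six totals
(partitions of the fifteen duads into five synthemes). A syntheme is encoded by its
fixed-point-free involution, a total by the list of its five synthemes.
-/

set_option autoImplicit false

namespace CfsgLib.SThreeSSix.Outer

abbrev S6 := Equiv.Perm (Fin 6)

/-- The six totals. -/
def total : Fin 6 → List (Fin 6 → Fin 6) :=
  ![[![1, 0, 3, 2, 5, 4], ![2, 4, 0, 5, 1, 3], ![3, 5, 4, 0, 2, 1], ![4, 3, 5, 1, 0, 2], ![5, 2, 1, 4, 3, 0]],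
    [![1, 0, 3, 2, 5, 4], ![2, 5, 0, 4, 3, 1], ![3, 4, 5, 0, 1, 2], ![4, 2, 1, 5, 0, 3], ![5, 3, 4, 1, 2, 0]],
    [![1, 0, 5, 4, 3, 2], ![2, 3, 0, 1, 5, 4], ![3, 5, 4, 0, 2, 1], ![4, 2, 1, 5, 0, 3], ![5, 4, 3, 2, 1, 0]],
    [![1, 0, 5, 4, 3, 2], ![2, 4, 0, 5, 1, 3], ![3, 2, 1, 0, 5, 4], ![4, 5, 3, 2, 0, 1], ![5, 3, 4, 1, 2, 0]],
    [![1, 0, 4, 5, 2, 3], ![2, 3, 0, 1, 5, 4], ![3, 4, 5, 0, 1, 2], ![4, 5, 3, 2, 0, 1], ![5, 2, 1, 4, 3, 0]],
    [![1, 0, 4, 5, 2, 3], ![2, 5, 0, 4, 3, 1], ![3, 2, 1, 0, 5, 4], ![4, 3, 5, 1, 0, 2], ![5, 4, 3, 2, 1, 0]]]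

/-- `Rel σ k l`: conjugation by `σ` takes total `k` to total `l`. -/
def Rel (σ : S6) (k l : Fin 6) : Prop :=
  ∀ f ∈ total k, ∃ g ∈ total l, ∀ i, g (σ i) = σ (f i)

/-- Boolean form of `Rel`. -/
def relB (σ : S6) (k l : Fin 6) : Bool :=
  (total k).all fun f => (total l).any fun g =>
    (List.finRange 6).all fun i => (g (σ i)).val == (σ (f i)).val

theorem relB_iff {σ : S6} {k l : Fin 6} : relB σ k l = true ↔ Rel σ k l := by
  simp [relB, Rel, Fin.val_inj]

theorem two_determine : ∀ l l' : Fin 6, l ≠ l' → ∀ a ∈ total l, ∀ b ∈ total l,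
    a ≠ b → a ∈ total l' → b ∈ total l' → False := by decide +kernel

theorem two_in : ∀ k : Fin 6, ∃ a ∈ total k, ∃ b ∈ total k, a ≠ b := by decide +kernel

theorem rel_unique {σ : S6} {k l l' : Fin 6} (h : Rel σ k l) (h' : Rel σ k l') : l = l' := by
  by_contra hne
  obtain ⟨a, ha, b, hb, hab⟩ := two_in k
  obtain ⟨a₁, ha₁, ea⟩ := h a ha
  obtain ⟨b₁, hb₁, eb⟩ := h b hb
  obtain ⟨a₂, ha₂, ea'⟩ := h' a ha
  obtain ⟨b₂, hb₂, eb'⟩ := h' b hb
  have hA : a₂ = a₁ := funext fun j => by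
    obtain ⟨i, rfl⟩ := σ.surjective j
    rw [ea, ea']
  have hB : b₂ = b₁ := funext fun j => by
    obtain ⟨i, rfl⟩ := σ.surjective j
    rw [eb, eb']
  refine two_determine l l' hne a₁ ha₁ b₁ hb₁ ?_ (hA ▸ ha₂) (hB ▸ hb₂)
  rintro rfl
  exact hab (funext fun i => σ.injective (by rw [← ea, ← eb]))

theorem rel_mul {σ τ : S6} {k l m : Fin 6} (h : Rel τ k l) (h' : Rel σ l m) :
    Rel (σ * τ) k m := by
  intro f hf
  obtain ⟨g, hg, e⟩ := h f hf
  obtain ⟨u, hu, e'⟩ := h' g hg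
  exact ⟨u, hu, fun i => by rw [Equiv.Perm.mul_apply, e', e]; rfl⟩

theorem relB_one : ∀ k : Fin 6, relB 1 k k = true := by decide +kernel

theorem rel_one (k : Fin 6) : Rel 1 k k := relB_iff.1 (relB_one k)

theorem relB_swap : ∀ i j k : Fin 6,
    ((List.finRange 6).any fun l => relB (Equiv.swap i j) k l) = true := by decide +kernel

theorem rel_swap (i j k : Fin 6) : ∃ l, Rel (Equiv.swap i j) k l := by
  obtain ⟨l, -, hl⟩ := List.any_eq_true.1 (relB_swap i j k)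
  exact ⟨l, relB_iff.1 hl⟩

theorem rel_exists (σ : S6) : ∀ k, ∃ l, Rel σ k l := by
  induction σ using Equiv.Perm.swap_induction_on with
  | one => exact fun k => ⟨k, rel_one k⟩
  | swap_mul f x y _ ih =>
    intro k
    obtain ⟨l, hl⟩ := ih k
    obtain ⟨m, hm⟩ := rel_swap x y l
    exact ⟨m, rel_mul hl hm⟩

noncomputable def act (σ : S6) (k : Fin 6) : Fin 6 := Classical.choose (rel_exists σ k)

theorem act_spec (σ : S6) (k : Fin 6) : Rel σ k (act σ k) :=
  Classical.choose_spec (rel_exists σ k)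

theorem act_one (k : Fin 6) : act 1 k = k := rel_unique (act_spec 1 k) (rel_one k)

theorem act_mul (σ τ : S6) (k : Fin 6) : act (σ * τ) k = act σ (act τ k) :=
  rel_unique (act_spec _ k) (rel_mul (act_spec τ k) (act_spec σ _))

noncomputable def outerHom : S6 →* S6 where
  toFun σ :=
    { toFun := act σ
      invFun := act σ⁻¹
      left_inv := fun k => by rw [← act_mul, inv_mul_cancel, act_one]
      right_inv := fun k => by rw [← act_mul, mul_inv_cancel, act_one] }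
  map_one' := Equiv.ext act_one
  map_mul' σ τ := Equiv.ext (act_mul σ τ)

theorem rel_outerHom (σ : S6) (k : Fin 6) : Rel σ k (outerHom σ k) := act_spec σ k

theorem outerHom_eq {σ π : S6} (h : ∀ k, Rel σ k (π k)) : outerHom σ = π :=
  Equiv.ext fun k => rel_unique (rel_outerHom σ k) (h k)

/-- Image of a transposition, as a function. -/
def swapImgFun : Fin 6 → Fin 6 → Fin 6 → Fin 6 :=
  ![![![0, 1, 2, 3, 4, 5],
     ![1, 0, 3, 2, 5, 4],
     ![3, 5, 4, 0, 2, 1],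
     ![2, 4, 0, 5, 1, 3],
     ![5, 2, 1, 4, 3, 0],
     ![4, 3, 5, 1, 0, 2]],
   ![![1, 0, 3, 2, 5, 4],
     ![0, 1, 2, 3, 4, 5],
     ![4, 2, 1, 5, 0, 3],
     ![5, 3, 4, 1, 2, 0],
     ![3, 4, 5, 0, 1, 2],
     ![2, 5, 0, 4, 3, 1]],
   ![![3, 5, 4, 0, 2, 1],
     ![4, 2, 1, 5, 0, 3],
     ![0, 1, 2, 3, 4, 5],
     ![1, 0, 5, 4, 3, 2],
     ![2, 3, 0, 1, 5, 4],
     ![5, 4, 3, 2, 1, 0]],
   ![![2, 4, 0, 5, 1, 3],
     ![5, 3, 4, 1, 2, 0],
     ![1, 0, 5, 4, 3, 2],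
     ![0, 1, 2, 3, 4, 5],
     ![4, 5, 3, 2, 0, 1],
     ![3, 2, 1, 0, 5, 4]],
   ![![5, 2, 1, 4, 3, 0],
     ![3, 4, 5, 0, 1, 2],
     ![2, 3, 0, 1, 5, 4],
     ![4, 5, 3, 2, 0, 1],
     ![0, 1, 2, 3, 4, 5],
     ![1, 0, 4, 5, 2, 3]],
   ![![4, 3, 5, 1, 0, 2],
     ![2, 5, 0, 4, 3, 1],
     ![5, 4, 3, 2, 1, 0],
     ![3, 2, 1, 0, 5, 4],
     ![1, 0, 4, 5, 2, 3],
     ![0, 1, 2, 3, 4, 5]]]

theorem swapImgFun_invol : ∀ i j k : Fin 6, swapImgFun i j (swapImgFun i j k) = k := by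
  decide +kernel

/-- Image of a transposition. -/
def swapImg (i j : Fin 6) : S6 :=
  Function.Involutive.toPerm (swapImgFun i j) (swapImgFun_invol i j)

theorem relB_swapImg : ∀ i j : Fin 6, ((List.finRange 6).all fun k =>
    relB (Equiv.swap i j) k (swapImg i j k) && relB (swapImg i j) k (Equiv.swap i j k)) = true := by
  decide +kernel

theorem outerHom_swap (i j : Fin 6) : outerHom (Equiv.swap i j) = swapImg i j :=
  outerHom_eq fun k => relB_iff.1
    ((Bool.and_eq_true _ _).mp (List.all_eq_true.1 (relB_swapImg i j) k (List.mem_finRange k))).1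

theorem outerHom_swapImg (i j : Fin 6) : outerHom (swapImg i j) = Equiv.swap i j :=
  outerHom_eq fun k => relB_iff.1
    ((Bool.and_eq_true _ _).mp (List.all_eq_true.1 (relB_swapImg i j) k (List.mem_finRange k))).2

theorem outerHom_outerHom (σ : S6) : outerHom (outerHom σ) = σ := by
  induction σ using Equiv.Perm.swap_induction_on with
  | one => simp
  | swap_mul f x y _ ih => rw [map_mul, map_mul, ih, outerHom_swap, outerHom_swapImg]

/-- An outer automorphism of `S₆` of order two. -/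
noncomputable def outer : S6 ≃* S6 where
  toFun := outerHom
  invFun := outerHom
  left_inv := outerHom_outerHom
  right_inv := outerHom_outerHom
  map_mul' := outerHom.map_mul

theorem sign_swapImg : ∀ i j : Fin 6, i ≠ j → Equiv.Perm.sign (swapImg i j) = -1 := by
  decide +kernel

theorem sign_outer (σ : S6) : Equiv.Perm.sign (outer σ) = Equiv.Perm.sign σ := by
  show Equiv.Perm.sign (outerHom σ) = _
  induction σ using Equiv.Perm.swap_induction_on with
  | one => simp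
  | swap_mul f x y hxy ih =>
    rw [map_mul, map_mul, map_mul, ih, outerHom_swap, sign_swapImg x y hxy,
      Equiv.Perm.sign_swap hxy]

theorem three_cycle_img_moves : ∀ i j k : Fin 6, i ≠ j → i ≠ k → j ≠ k → ∀ l : Fin 6,
    swapImgFun i k (swapImgFun i j l) ≠ l := by decide +kernel

/-- `outer` sends every 3-cycle `(i k)(i j)` to a fixed-point-free element. -/
theorem outer_three_cycle_ne {i j k : Fin 6} (hij : i ≠ j) (hik : i ≠ k) (hjk : j ≠ k) (l : Fin 6) :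
    outer (Equiv.swap i k * Equiv.swap i j) l ≠ l := by
  show outerHom _ l ≠ l
  rw [map_mul, outerHom_swap, outerHom_swap]
  exact three_cycle_img_moves i j k hij hik hjk l

end CfsgLib.SThreeSSix.Outer
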