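import Mathlib
import Cfsg.Agent.Lib.SThreeSSix.Model
import Cfsg.Agent.Lib.SThreeSSix.Burnside
import Cfsg.Agent.Lib.SThreeSSix.Outer

/-!
An eight dimensional space with an element `c` of order three and a compatible action of the
symmetric group of degree six: a fixed vector of a four-group gives coordinates `V × V`.
-/

set_option autoImplicit false
set_option maxRecDepth 100000
set_option synthInstance.maxSize 2000
set_option synthInstance.maxHeartbeats 400000
set_option linter.style.haveILetI false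
set_option linter.unusedSectionVars false

namespace CfsgLib.SThreeSSix

open Equiv

/-- The element of order three with three fixed points. -/
def yA : P6 := swap 0 2 * swap 0 1

/-- Its disjoint partner. -/
def yB : P6 := swap 3 5 * swap 3 4

/-- The fixed-point-free element of order three. -/
def yAB : P6 := yA * yB

theorem exists_conj_fA : ∀ f : P6, f * f = 1 → f ≠ 1 → evenB f = true →
    ∃ g : P6, g * fA = f * g := by decide +kernel

theorem exists_inverted : ∀ f : P6, f * f = 1 → f ≠ 1 → evenB f = true →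
    ∃ g : P6, f * (g * yAB * g⁻¹) * f = (g * yAB * g⁻¹)⁻¹ := by decide +kernel

theorem exists_conj_yAB : ∀ h : P6, h * h * h = 1 → (∀ x, h x ≠ x) →
    ∃ g : P6, g * yAB = h * g := by decide +kernel

theorem stab_of_fixed : ∀ (i : Fin 3) (g : P6), act i g aStd = aStd →
    (g 4 = 4 ∧ g 5 = 5) ∨ (g 4 = 5 ∧ g 5 = 4) := by decide +kernel

theorem isO_act : ∀ (i : Fin 3) (g : P6), isO (act i g aStd) = true := by decide +kernel

theorem fin_one : ∀ a < 9, ∀ b < 5, 2 ^ a % 3 = 1 → 2 ^ b % 3 = 1 → b ≠ 0 → a + 2 * b ≤ 8 →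
    (a = 0 ∧ b = 2) ∨ (a = 2 ∧ b = 2) ∨ (a = 4 ∧ b = 2) ∨ (a = 0 ∧ b = 4) := by decide +kernel

theorem fin {a b a' b' : ℕ} (h1 : 2 ^ a % 3 = 1) (h2 : 2 ^ b % 3 = 1) (h3 : b ≠ 0)
    (h4 : 2 ^ a' % 3 = 1) (h5 : 2 ^ b' % 3 = 1) (h6 : b' ≠ 0) (hle : a + 2 * b ≤ 8)
    (hs : a + 2 * b = a' + 2 * b')
    (hB : 9 ∣ 2 ^ (a + 2 * b) + 2 * (2 ^ a + 2 ^ a + 2 ^ a' + 2 ^ a')) :
    a + 2 * b = 8 ∧ (a = 0 ∨ a' = 0) := by
  rcases fin_one a (by omega) b (by omega) h1 h2 h3 hle with
    ⟨rfl, rfl⟩ | ⟨rfl, rfl⟩ | ⟨rfl, rfl⟩ | ⟨rfl, rfl⟩ <;>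
  rcases fin_one a' (by omega) b' (by omega) h4 h5 h6 (by omega) with
    ⟨rfl, rfl⟩ | ⟨rfl, rfl⟩ | ⟨rfl, rfl⟩ | ⟨rfl, rfl⟩ <;>
  omega

/-- An eight dimensional space with `c` and a compatible action of the symmetric group. -/
structure Pair (W : Type*) [CommGroup W] where
  sigma : P6 → MulAut W
  sigma_hom : ∀ g h, Perm.sign g = 1 → Perm.sign h = 1 → sigma (g * h) = sigma g * sigma h
  c : MulAut W
  c_cube : ∀ w, c (c (c w)) = w
  comm_even : ∀ g w, Perm.sign g = 1 → sigma g (c w) = c (sigma g w)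
  comm_any : ∀ g, (∀ w, sigma g (c w) = c (sigma g w)) ∨ (∀ w, sigma g (c w) = c (c (sigma g w)))
  sq : ∀ w : W, w * w = 1
  card : Nat.card W = 256

/-- The data of one conjugate: a four-group fixing `w` and moving some vectors by `w`. -/
structure LineData {W : Type*} [CommGroup W] (P : Pair W) (f1 f2 : P6) (w : W) : Prop where
  even1 : Perm.sign f1 = 1
  even2 : Perm.sign f2 = 1
  inv1 : f1 * f1 = 1
  inv2 : f2 * f2 = 1
  ne1 : f1 ≠ 1
  ne2 : f2 ≠ 1
  ne12 : f1 ≠ f2
  comm : f1 * f2 = f2 * f1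
  fix1 : P.sigma f1 w = w
  fix2 : P.sigma f2 w = w
  moved : P.c w ≠ w
  flip : ∃ e, P.sigma f1 e = e * w
  kern : ∃ e, P.sigma f1 e = e ∧ P.sigma f2 e = e * w

/-- The action is defined on the whole symmetric group and odd permutations invert `c`. -/
structure Pair.Full {W : Type*} [CommGroup W] (P : Pair W) : Prop where
  mul : ∀ g h, P.sigma (g * h) = P.sigma g * P.sigma h
  odd : ∀ g w, Perm.sign g = -1 → P.sigma g (P.c w) = P.c (P.c (P.sigma g w))

/-- The fixed-point-free normalisation. -/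
structure Pair.Normal {W : Type*} [CommGroup W] (P : Pair W) : Prop where
  free : ∀ w, w * P.c w * P.c (P.c w) = 1
  fpf : ∀ w, P.sigma yAB w = w → w = 1

namespace Pair

variable {W : Type*} [CommGroup W] (P : Pair W)
include P

theorem sigma_mul {g h : P6} (hg : Perm.sign g = 1) (hh : Perm.sign h = 1) (w : W) :
    P.sigma (g * h) w = P.sigma g (P.sigma h w) := by
  rw [P.sigma_hom g h hg hh]; rfl

theorem sigma_one (w : W) : P.sigma 1 w = w := by
  have h := P.sigma_mul (g := 1) (h := 1) (map_one _) (map_one _) w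
  rw [one_mul] at h
  exact ((P.sigma 1).injective h).symm

theorem inv_eq (w : W) : w⁻¹ = w := inv_eq_of_mul_eq_one_right (P.sq w)

theorem eq_of_mul_eq_one {u v : W} (h : u * v = 1) : u = v := by
  rw [eq_inv_of_mul_eq_one_left h, P.inv_eq]

/-- The norm map of `c`. -/
def nm : W →* W where
  toFun w := w * P.c w * P.c (P.c w)
  map_one' := by simp
  map_mul' u v := by simp only [map_mul]; ac_rfl

theorem nm_apply (w : W) : P.nm w = w * P.c w * P.c (P.c w) := rfl

theorem c_nm (w : W) : P.c (P.nm w) = P.nm w := by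
  simp only [nm_apply, map_mul, P.c_cube]; ac_rfl

theorem nm_c (w : W) : P.nm (P.c w) = P.nm w := by
  simp only [nm_apply, P.c_cube]; ac_rfl

theorem nm_sigma (g : P6) (w : W) : P.nm (P.sigma g w) = P.sigma g (P.nm w) := by
  rcases P.comm_any g with h | h
  · simp only [nm_apply, map_mul, h]
  · simp only [nm_apply, map_mul, h, P.c_cube]; ac_rfl

theorem nm_nm (w : W) : P.nm (P.nm w) = P.nm w := by
  rw [nm_apply P (P.nm w), P.c_nm, P.c_nm, P.sq, one_mul]

theorem isPGroup [Finite W] : IsPGroup 2 W := fun w => ⟨1, by rw [pow_one, pow_two, P.sq]⟩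

variable [Finite W]

theorem free_and_pattern {f1 f2 : P6} {w : W} (L : LineData P f1 f2 w) :
    (∀ u, u * P.c u * P.c (P.c u) = 1) ∧
      ((∀ u, P.sigma yA u = u → u = 1) ∨ (∀ u, P.sigma yAB u = u → u = 1)) := by
  classical
  set D : Subgroup W := P.nm.ker with hD
  have memD : ∀ {u}, u ∈ D ↔ P.nm u = 1 := fun {u} => MonoidHom.mem_ker
  -- `f1` moves `D`
  have hf1D : ∃ u ∈ D, P.sigma f1 u ≠ u := by
    obtain ⟨e, he⟩ := L.flip
    refine ⟨e * P.nm e, ?_, fun h => L.moved ?_⟩
    · rw [memD, map_mul, P.nm_nm, P.sq]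
    · rw [map_mul, ← P.nm_sigma, he, map_mul] at h
      have h2 : w * P.nm w = 1 := by
        have := congrArg (fun t => (e * P.nm e) * t) h
        simp only [P.sq] at this
        rw [← this]
        calc w * P.nm w = (e * e) * (P.nm e * P.nm e) * (w * P.nm w) := by rw [P.sq, P.sq]; simp
          _ = _ := by ac_rfl
      rw [P.eq_of_mul_eq_one h2, P.c_nm]
  -- the kernel on `D` is trivial
  let K : Subgroup ↥(alternatingGroup (Fin 6)) :=
    { carrier := {g | ∀ u ∈ D, P.sigma g u = u}
      one_mem' := fun u _ => P.sigma_one u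
      mul_mem' := fun {g h} hg hh u hu => by
        rw [Subgroup.coe_mul, P.sigma_mul (Perm.mem_alternatingGroup.1 g.2)
          (Perm.mem_alternatingGroup.1 h.2), hh u hu, hg u hu]
      inv_mem' := fun {g} hg u hu => by
        conv_lhs => rw [← hg u hu]
        rw [← P.sigma_mul (Perm.mem_alternatingGroup.1 (g⁻¹).2) (Perm.mem_alternatingGroup.1 g.2),
          ← Subgroup.coe_mul, inv_mul_cancel, Subgroup.coe_one, P.sigma_one] }
  haveI : K.Normal := ⟨fun g hg h u hu => by
    rw [Subgroup.coe_mul, P.sigma_mul (Perm.mem_alternatingGroup.1 (h * g).2)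
      (Perm.mem_alternatingGroup.1 (h⁻¹).2), Subgroup.coe_mul,
      P.sigma_mul (Perm.mem_alternatingGroup.1 h.2) (Perm.mem_alternatingGroup.1 g.2),
      hg _ (by rw [memD, P.nm_sigma, memD.1 hu, map_one]),
      ← P.sigma_mul (Perm.mem_alternatingGroup.1 h.2) (Perm.mem_alternatingGroup.1 (h⁻¹).2),
      ← Subgroup.coe_mul, mul_inv_cancel, Subgroup.coe_one, P.sigma_one]⟩
  have hK : ∀ g : P6, Perm.sign g = 1 → (∀ u ∈ D, P.sigma g u = u) → g = 1 := by
    intro g hev hg
    haveI : IsSimpleGroup ↥(alternatingGroup (Fin 6)) :=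
      alternatingGroup.isSimpleGroup (by simp)
    rcases (inferInstance : K.Normal).eq_bot_or_eq_top with h | h
    · have : (⟨g, Perm.mem_alternatingGroup.2 hev⟩ : ↥(alternatingGroup (Fin 6))) ∈ K := hg
      rw [h, Subgroup.mem_bot] at this
      exact congrArg Subtype.val this
    · obtain ⟨u, hu, hne'⟩ := hf1D
      exact absurd ((show (⟨f1, Perm.mem_alternatingGroup.2 L.even1⟩ :
        ↥(alternatingGroup (Fin 6))) ∈ K by rw [h]; trivial) u hu) hne'
  -- automorphisms of `D`
  have hcD : ∀ u ∈ D, P.c u ∈ D := fun u hu => by rw [memD, P.nm_c, memD.1 hu]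
  have hsD : ∀ g, ∀ u ∈ D, P.sigma g u ∈ D := fun g u hu => by
    rw [memD, P.nm_sigma, memD.1 hu, map_one]
  let cD : D ≃* D :=
    MulEquiv.ofBijective (MonoidHom.mk' (fun u : D => (⟨P.c u, hcD u u.2⟩ : D))
      fun u v => Subtype.ext (map_mul P.c (u : W) v))
      (Finite.injective_iff_bijective.1 fun u v e =>
        Subtype.ext (P.c.injective (congrArg Subtype.val e)))
  let sD : P6 → (D ≃* D) := fun g =>
    MulEquiv.ofBijective (MonoidHom.mk' (fun u : D => (⟨P.sigma g u, hsD g u u.2⟩ : D))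
      fun u v => Subtype.ext (map_mul (P.sigma g) (u : W) v))
      (Finite.injective_iff_bijective.1 fun u v e =>
        Subtype.ext ((P.sigma g).injective (congrArg Subtype.val e)))
  have cD_val : ∀ u : D, (cD u : W) = P.c u := fun u => rfl
  have sD_val : ∀ (g) (u : D), (sD g u : W) = P.sigma g u := fun g u => rfl
  have hfreeD : ∀ u : D, u * cD u * cD (cD u) = 1 := fun u => Subtype.ext (by
    simp only [Subgroup.coe_mul, cD_val, Subgroup.coe_one]; exact memD.1 u.2)
  have hc3 : ∀ u : D, cD (cD (cD u)) = u := fun u => Subtype.ext (by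
    simp only [cD_val, P.c_cube])
  have hsqD : ∀ u : D, u * u = 1 := fun u => Subtype.ext (P.sq u)
  have hpD : IsPGroup 2 D := P.isPGroup.to_subgroup D
  haveI : Fact (Nat.Prime 3) := ⟨Nat.prime_three⟩
  haveI : Fact (Nat.Prime 2) := ⟨Nat.prime_two⟩
  have four_pow : ∀ e : D ≃* D, (∀ u, e (cD u) = cD (e u)) →
      ∃ i, Nat.card {u // e u = u} = 2 ^ i ∧ 2 ^ i % 3 = 1 := by
    intro e hec
    let H : Subgroup D := e.toMonoidHom.eqLocus (MonoidHom.id D)
    haveI := Fintype.ofFinite H
    obtain ⟨i, hi⟩ := (hpD.to_subgroup H).exists_card_eq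
    have hH : Nat.card {u // e u = u} = Nat.card H := rfl
    refine ⟨i, hH.trans hi, ?_⟩
    let σ : Function.End H := fun u =>
      ⟨cD u.1, show e (cD u.1) = cD u.1 by rw [hec]; exact congrArg cD u.2⟩
    have hσ : σ ^ 3 ^ 1 = 1 := funext fun u => Subtype.ext (hc3 u.1)
    have hmod := Equiv.Perm.card_fixedPoints_modEq hσ
    have h1 : Fintype.card (Function.fixedPoints σ) = 1 := by
      refine Fintype.card_eq_one_iff.2 ⟨⟨1, Subtype.ext (map_one cD)⟩, fun u => ?_⟩
      obtain ⟨⟨⟨u, huD⟩, hu⟩, hfix⟩ := u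
      have hcu : P.c u = u := congrArg (fun t : H => (t.1 : W)) hfix
      have h0 := memD.1 huD
      rw [nm_apply, hcu, hcu, P.sq, one_mul] at h0
      exact Subtype.ext (Subtype.ext (Subtype.ext h0))
    rw [h1, ← Nat.card_eq_fintype_card, hi] at hmod
    exact hmod
  have hcyA : ∀ (y : P6), Perm.sign y = 1 → ∀ u : D, sD y (cD u) = cD (sD y u) := fun y hy u =>
    Subtype.ext (by simp only [sD_val, cD_val, P.comm_even _ _ hy])
  -- the two classes
  have main : ∀ (y h : P6), y * y * y = 1 → y ≠ 1 → Perm.sign y = 1 → Perm.sign h = 1 →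
      h * y * h⁻¹ = y⁻¹ →
      ∃ i j, Nat.card {u // sD y u = u} = 2 ^ i ∧ Nat.card D = 2 ^ (i + 2 * j) ∧
        2 ^ i % 3 = 1 ∧ 2 ^ j % 3 = 1 ∧ j ≠ 0 := by
    intro y h hy hyne hev hhev hinv
    have hy3 : ∀ u : D, sD y (sD y (sD y u)) = u := fun u => Subtype.ext (by
      simp only [sD_val]; rw [← P.sigma_mul hev hev, ← P.sigma_mul (by rw [map_mul, hev, one_mul]) hev, hy, P.sigma_one])
    have hsplit := card_split hsqD cD (sD y) hc3 hy3 (hcyA y hev) hfreeD
    obtain ⟨i, hi, hi3⟩ := four_pow (sD y) (hcyA y hev)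
    obtain ⟨j, hj, hj3⟩ := four_pow ((sD y).trans cD) (fun u => by
      simp [hcyA y hev])
    have hsame : Nat.card {u // cD (cD (sD y u)) = u} = Nat.card {u // cD (sD y u) = u} := by
      refine Nat.card_congr (Equiv.subtypeEquiv (sD h).toEquiv fun u => ?_)
      show cD (cD (sD y u)) = u ↔ cD (sD y (sD h u)) = sD h u
      have e1 : ∀ v, sD h (sD y v) = sD y (sD y (sD h v)) := fun v => Subtype.ext (by
        simp only [sD_val]
        rw [← P.sigma_mul hhev hev, ← P.sigma_mul hev hhev,
          ← P.sigma_mul hev (by rw [map_mul, hev, hhev, one_mul])]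
        congr 2
        have : y⁻¹ = y * y := inv_eq_of_mul_eq_one_left hy
        rw [← mul_assoc, ← this, ← hinv]; group)
      constructor
      · intro e
        conv_rhs => rw [← e, hcyA h hhev, hcyA h hhev, e1]
        have e2 := congrArg (sD h) e
        rw [hcyA h hhev, hcyA h hhev, e1] at e2
        conv_lhs => rw [← e2, hcyA y hev, hcyA y hev, hy3, hc3]
        exact e2.symm
      · intro e
        apply (sD h).injective
        rw [hcyA h hhev, hcyA h hhev, e1]
        conv_rhs => rw [← e]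
        conv_lhs => rw [← e, hcyA y hev, hcyA y hev]
        rw [hy3, hc3]
        exact e.symm
    refine ⟨i, j, hi, ?_, hi3, hj3, fun hj0 => hyne (hK y hev fun u hu => ?_)⟩
    · rw [hsplit, hsame, hi]
      have hj' : Nat.card {u // cD (sD y u) = u} = 2 ^ j := hj
      rw [hj', ← pow_add, ← pow_add, two_mul]
    · subst hj0
      have hj' : Nat.card {u // cD (sD y u) = u} = 1 := hj.trans (pow_zero 2)
      rw [hsame, hj', mul_one, mul_one] at hsplit
      have hall : ∀ v : D, sD y v = v := by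
        intro v
        have hb := (Nat.bijective_iff_injective_and_card
          (Subtype.val : {u // sD y u = u} → D)).2 ⟨Subtype.val_injective, hsplit.symm⟩
        obtain ⟨⟨v', hv'⟩, rfl⟩ := hb.2 v
        exact hv'
      exact congrArg Subtype.val (hall ⟨u, hu⟩)
  have hswap : ∀ (g y y' : P6), Perm.sign g = 1 → Perm.sign y = 1 → g * y * g⁻¹ = y' →
      Nat.card {u // sD y u = u} = Nat.card {u // sD y' u = u} := by
    intro g y y' hg hy e
    refine Nat.card_congr (Equiv.subtypeEquiv (sD g).toEquiv fun u => ?_)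
    show sD y u = u ↔ sD y' (sD g u) = sD g u
    rw [← (sD g).injective.eq_iff]
    have e1 : sD g (sD y u) = sD y' (sD g u) := Subtype.ext (by
      simp only [sD_val]
      rw [← P.sigma_mul hg hy, ← e,
        ← P.sigma_mul (by simp [hg, hy]) hg]
      congr 2; group)
    rw [e1]
  obtain ⟨i1, j1, hk1, hd1, hi1, hj1, hj1'⟩ := main yA (swap 0 1 * swap 3 4)
    (by decide +kernel) (by decide +kernel) (by decide +kernel) (by decide +kernel) (by decide +kernel)
  obtain ⟨i2, j2, hk2, hd2, hi2, hj2, hj2'⟩ := main yAB (swap 0 1 * swap 3 4)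
    (by decide +kernel) (by decide +kernel) (by decide +kernel) (by decide +kernel) (by decide +kernel)
  have hyB : Nat.card {u // sD yB u = u} = 2 ^ i1 :=
    (hswap (swap 0 3 * swap 1 4 * swap 2 5 * swap 3 4) yA yB (by decide +kernel) (by decide +kernel)
      (by decide +kernel)).symm.trans hk1
  have hyAB' : Nat.card {u // sD (yA * yB⁻¹) u = u} = 2 ^ i2 :=
    (hswap (swap 0 3 * (swap 1 4 * swap 1 2 * swap 1 5)) yAB (yA * yB⁻¹) (by decide +kernel)
      (by decide +kernel) (by decide +kernel)).symm.trans hk2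
  have hev : ∀ g ∈ [yA, yB, yB⁻¹, yA * yA, yB * yB], Perm.sign g = 1 := by decide +kernel
  have hYmul : ∀ (g h : P6), Perm.sign g = 1 → Perm.sign h = 1 →
      (sD g).toEquiv * (sD h).toEquiv = (sD (g * h)).toEquiv := fun g h hg hh =>
    Equiv.ext fun u => Subtype.ext (P.sigma_mul hg hh _).symm
  have hY3 : ∀ g : P6, Perm.sign g = 1 → g * g * g = 1 → ((sD g).toEquiv : Perm D) ^ 3 = 1 :=
    fun g hg h3 => by
      rw [pow_succ, pow_two, hYmul g g hg hg, hYmul _ g (by rw [map_mul, hg, one_mul]) hg, h3]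
      exact Equiv.ext fun u => Subtype.ext (P.sigma_one _)
  have hYinv : ((sD yB).toEquiv : Perm D)⁻¹ = (sD yB⁻¹).toEquiv := by
    refine inv_eq_of_mul_eq_one_right ?_
    rw [hYmul _ _ (hev _ (by simp)) (hev _ (by simp)), mul_inv_cancel]
    exact Equiv.ext fun u => Subtype.ext (P.sigma_one _)
  have hB := nine_dvd_fixed ((sD yA).toEquiv : Perm D) (sD yB).toEquiv
    (hY3 _ (hev _ (by simp)) (by decide +kernel)) (hY3 _ (hev _ (by simp)) (by decide +kernel))
    (by rw [hYmul _ _ (hev _ (by simp)) (hev _ (by simp)),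
      hYmul _ _ (hev _ (by simp)) (hev _ (by simp)), show yA * yB = yB * yA by decide +kernel])
  rw [hYinv, hYmul _ _ (hev _ (by simp)) (hev _ (by simp)),
    hYmul _ _ (hev _ (by simp)) (hev _ (by simp))] at hB
  have hB' : 9 ∣ 2 ^ (i1 + 2 * j1) + 2 * (2 ^ i1 + 2 ^ i1 + 2 ^ i2 + 2 ^ i2) := by
    have e1 : Nat.card {u // (sD yA).toEquiv u = u} = 2 ^ i1 := hk1
    have e2 : Nat.card {u // (sD yB).toEquiv u = u} = 2 ^ i1 := hyB
    have e3 : Nat.card {u // (sD (yA * yB)).toEquiv u = u} = 2 ^ i2 := hk2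
    have e4 : Nat.card {u // (sD (yA * yB⁻¹)).toEquiv u = u} = 2 ^ i2 := hyAB'
    rwa [e1, e2, e3, e4, hd1] at hB
  have hle : i1 + 2 * j1 ≤ 8 := by
    have h := Subgroup.card_subgroup_dvd_card D
    rw [hd1, P.card, show (256 : ℕ) = 2 ^ 8 by rfl] at h
    exact (Nat.pow_dvd_pow_iff_le_right (by norm_num)).1 h
  have hsum : i1 + 2 * j1 = i2 + 2 * j2 :=
    Nat.pow_right_injective le_rfl (hd1.symm.trans hd2)
  obtain ⟨h8, hzero⟩ := fin
    hi1 hj1 hj1' hi2 hj2 hj2' hle hsum hB'
  have hDtop : ∀ u, u ∈ D := by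
    intro u
    have : D = ⊤ := Subgroup.eq_top_of_card_eq D (by rw [hd1, h8, P.card]; rfl)
    rw [this]; trivial
  refine ⟨fun u => memD.1 (hDtop u), ?_⟩
  have triv : ∀ y, Nat.card {u // sD y u = u} = 1 → ∀ u, P.sigma y u = u → u = 1 := by
    intro y hy u hu
    obtain ⟨hsub, -⟩ := Nat.card_eq_one_iff_unique.1 hy
    have := @Subsingleton.elim _ hsub ⟨⟨u, hDtop u⟩, Subtype.ext hu⟩ ⟨1, map_one _⟩
    exact congrArg (fun t : {v : D // sD y v = v} => (t.1 : W)) this
  rcases hzero with h | h
  · exact Or.inl (triv yA (by rw [hk1, h, pow_zero]))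
  · exact Or.inr (triv yAB (by rw [hk2, h, pow_zero]))

/-- Composition of the action with an automorphism of the symmetric group preserving signs. -/
noncomputable def twist (e : P6 ≃* P6) (he : ∀ g, Perm.sign (e g) = Perm.sign g) : Pair W where
  sigma g := P.sigma (e g)
  sigma_hom g h hg hh := by
    rw [map_mul, P.sigma_hom (e g) (e h) (by rw [he, hg]) (by rw [he, hh])]
  c := P.c
  c_cube := P.c_cube
  comm_even g w hg := P.comm_even _ _ (by rw [he, hg])
  comm_any g := P.comm_any _
  sq := P.sq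
  card := P.card

theorem fpf_conj {g h y : P6} (hg : Perm.sign g = 1) (hy : Perm.sign y = 1)
    (hfpf : ∀ w, P.sigma y w = w → w = 1) (e : g * y = h * g) (hh : Perm.sign h = 1)
    (w : W) (hw : P.sigma h w = w) : w = 1 := by
  obtain ⟨v, rfl⟩ := (P.sigma g).surjective w
  rw [← P.sigma_mul hh hg, ← e, P.sigma_mul hg hy] at hw
  rw [hfpf v ((P.sigma g).injective hw), map_one]

theorem exists_normal (hF : P.Full) {f1 f2 : P6} {w : W} (L : LineData P f1 f2 w) :
    ∃ (e : P6 ≃* P6) (he : ∀ g, Perm.sign (e g) = Perm.sign g),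
      (P.twist e he).Normal ∧ (P.twist e he).Full := by
  obtain ⟨hfree, h | h⟩ := P.free_and_pattern L
  · refine ⟨Outer.outer, Outer.sign_outer, ⟨hfree, fun u hu => ?_⟩,
      ⟨fun g h => by simp only [twist, map_mul, hF.mul],
       fun g u hg => hF.odd _ u (by rw [Outer.sign_outer, hg])⟩⟩
    have h3 : Outer.outer yA * Outer.outer yA * Outer.outer yA = 1 := by
      rw [← map_mul, ← map_mul, show yA * yA * yA = 1 by decide +kernel, map_one]
    obtain ⟨g, hg⟩ := exists_conj_yAB _ h3
      (fun x => Outer.outer_three_cycle_ne (by decide) (by decide) (by decide) x)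
    -- hence `outer yAB` is conjugate to `yA`
    have e : Outer.outer g * Outer.outer yAB = yA * Outer.outer g := by
      rw [← map_mul, hg, map_mul]
      congr 1
      exact Outer.outerHom_outerHom yA
    change P.sigma (Outer.outer yAB) u = u at hu
    have hmul : ∀ a b v, P.sigma (a * b) v = P.sigma a (P.sigma b v) := fun a b v => by
      rw [hF.mul]; rfl
    have := h (P.sigma (Outer.outer g) u) (by rw [← hmul, ← e, hmul, hu])
    exact (P.sigma (Outer.outer g)).injective (this.trans (map_one _).symm)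
  · exact ⟨MulEquiv.refl _, fun _ => rfl, ⟨hfree, h⟩, ⟨hF.mul, hF.odd⟩⟩

theorem lineData_twist {e : P6 ≃* P6} {he : ∀ g, Perm.sign (e g) = Perm.sign g} {f1 f2 : P6}
    {w : W} (L : LineData P f1 f2 w) : LineData (P.twist e he) (e.symm f1) (e.symm f2) w where
  even1 := by rw [← he, e.apply_symm_apply, L.even1]
  even2 := by rw [← he, e.apply_symm_apply, L.even2]
  inv1 := by rw [← map_mul, L.inv1, map_one]
  inv2 := by rw [← map_mul, L.inv2, map_one]
  ne1 := fun h => L.ne1 (by simpa using congrArg e h)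
  ne2 := fun h => L.ne2 (by simpa using congrArg e h)
  ne12 := fun h => L.ne12 (e.symm.injective h)
  comm := by rw [← map_mul, L.comm, map_mul]
  fix1 := by simpa [Pair.twist] using L.fix1
  fix2 := by simpa [Pair.twist] using L.fix2
  moved := L.moved
  flip := by simpa [Pair.twist] using L.flip
  kern := by simpa [Pair.twist] using L.kern

section Normal

variable (hN : P.Normal)
include hN

theorem eq_one_of_c_fixed {u : W} (h : P.c u = u) : u = 1 := by
  have := hN.free u
  rwa [h, h, P.sq, one_mul] at this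

theorem c_c_eq (u : W) : P.c (P.c u) = u * P.c u := by
  have := P.eq_of_mul_eq_one (hN.free u)
  exact this.symm

theorem card_fixed_sigma {f : P6} (hf : Perm.sign f = 1) (hff : f * f = 1) (hne : f ≠ 1) :
    Nat.card {u // P.sigma f u = u} = 16 := by
  obtain ⟨g, hg⟩ := exists_inverted f hff hne ((evenB_iff f).2 hf)
  set s := g * yAB * g⁻¹ with hs
  have hsev : Perm.sign s = 1 := by
    rw [hs, Perm.sign_mul, Perm.sign_mul, Perm.sign_inv]
    rcases Int.units_eq_one_or (Perm.sign g) with h | h <;> rw [h] <;> decide +kernel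
  have hs3 : s * s * s = 1 := by
    rw [hs, show g * yAB * g⁻¹ * (g * yAB * g⁻¹) * (g * yAB * g⁻¹) =
      g * (yAB * yAB * yAB) * g⁻¹ by group, show yAB * yAB * yAB = 1 by decide +kernel]
    group
  have hsfix : ∀ u, P.sigma s u = u → u = 1 := by
    intro u hu
    rcases Int.units_eq_one_or (Perm.sign g) with h | h
    · exact P.fpf_conj h (by decide +kernel) hN.fpf (by rw [hs]; group) hsev u hu
    · -- adjust by an odd permutation centralising `yAB`
      have ht : swap 0 3 * swap 1 4 * swap 2 5 * yAB = yAB * (swap 0 3 * swap 1 4 * swap 2 5) := by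
        decide +kernel
      refine P.fpf_conj (g := g * (swap 0 3 * swap 1 4 * swap 2 5)) (by
        rw [Perm.sign_mul, h]; decide +kernel) (by decide +kernel) hN.fpf ?_ hsev u hu
      rw [mul_assoc, ht, hs]; group
  let H : Subgroup W := (P.sigma f).toMonoidHom.eqLocus (MonoidHom.id W)
  have hmemH : ∀ u, u ∈ H ↔ P.sigma f u = u := fun u => Iff.rfl
  have hcardH : Nat.card {u // P.sigma f u = u} = Nat.card H := rfl
  have hfs : ∀ u, P.sigma f (P.sigma s u) = P.sigma s⁻¹ (P.sigma f u) := by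
    intro u
    rw [← P.sigma_mul hf hsev, ← P.sigma_mul (by rw [Perm.sign_inv, hsev]) hf]
    congr 2
    rw [← hg, mul_assoc (f * s) f f, hff, mul_one]
  -- upper bound
  have hup : Nat.card H * Nat.card H ≤ 256 := by
    rw [← Nat.card_prod, ← P.card]
    refine Nat.card_le_card_of_injective (fun p : H × H => (p.1 : W) * P.sigma s p.2) ?_
    rintro ⟨⟨a, ha⟩, ⟨b, hb⟩⟩ ⟨⟨a', ha'⟩, ⟨b', hb'⟩⟩ e
    simp only at e
    have h1 : a * a' = P.sigma s (b * b') := P.eq_of_mul_eq_one (by
      rw [map_mul]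
      calc a * a' * (P.sigma s b * P.sigma s b') = (a * P.sigma s b) * (a' * P.sigma s b') := by
            ac_rfl
        _ = 1 := by rw [e]; exact P.sq _)
    have hbb : P.sigma f (b * b') = b * b' := H.mul_mem hb hb'
    have h2 : P.sigma s (P.sigma s (b * b')) = b * b' := by
      have h3 : P.sigma f (P.sigma s (b * b')) = P.sigma s (b * b') := by
        rw [← h1]; exact H.mul_mem ha ha'
      rw [hfs, hbb] at h3
      conv_lhs => rw [← h3]
      rw [← P.sigma_mul hsev (by rw [Perm.sign_inv, hsev]), mul_inv_cancel, P.sigma_one]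
    have h4 : P.sigma s (b * b') = b * b' := by
      conv_rhs => rw [← show P.sigma (s * s * s) (b * b') = b * b' by rw [hs3, P.sigma_one]]
      rw [P.sigma_mul (by rw [map_mul, hsev, one_mul]) hsev, P.sigma_mul hsev hsev]
      conv_lhs => rw [← h2]
    have hb1 := hsfix _ h4
    rw [hb1, map_one] at h1
    simp [P.eq_of_mul_eq_one h1, P.eq_of_mul_eq_one hb1]
  -- lower bound
  let n : W →* W :=
    { toFun := fun u => u * P.sigma f u
      map_one' := by simp
      map_mul' := fun u v => by simp only [map_mul]; ac_rfl }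
  have hker : n.ker ≤ H := fun u hu => by
    exact (P.eq_of_mul_eq_one (MonoidHom.mem_ker.1 hu)).symm
  have hrange : n.range ≤ H := by
    rintro _ ⟨u, rfl⟩
    show P.sigma f (u * P.sigma f u) = u * P.sigma f u
    rw [map_mul, ← P.sigma_mul hf hf, hff, P.sigma_one, mul_comm]
  have hlow : 256 ≤ Nat.card H * Nat.card H := by
    rw [← P.card, Subgroup.card_eq_card_quotient_mul_card_subgroup n.ker,
      Nat.card_congr (QuotientGroup.quotientKerEquivRange n).toEquiv]
    exact Nat.mul_le_mul (Subgroup.card_le_of_le hrange) (Subgroup.card_le_of_le hker)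
  rw [hcardH]
  nlinarith

/-- The common fixed space of the four-group of a conjugate. -/
theorem fixed_of_line {f1 f2 : P6} {w u : W} (L : LineData P f1 f2 w)
    (h1 : P.sigma f1 u = u) (h2 : P.sigma f2 u = u) :
    u = 1 ∨ u = w ∨ u = P.c w ∨ u = P.c (P.c w) := by
  classical
  haveI := Fintype.ofFinite W
  haveI : Fact (Nat.Prime 2) := ⟨Nat.prime_two⟩
  haveI : Fact (Nat.Prime 3) := ⟨Nat.prime_three⟩
  let H : Subgroup W := (P.sigma f1).toMonoidHom.eqLocus (MonoidHom.id W) ⊓
    (P.sigma f2).toMonoidHom.eqLocus (MonoidHom.id W)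
  have hmemH : ∀ v, v ∈ H ↔ P.sigma f1 v = v ∧ P.sigma f2 v = v := fun v => Iff.rfl
  have hcH : ∀ v ∈ H, P.c v ∈ H := fun v hv => by
    rw [hmemH, P.comm_even _ _ L.even1, P.comm_even _ _ L.even2, ((hmemH v).1 hv).1,
      ((hmemH v).1 hv).2]
    exact ⟨rfl, rfl⟩
  have hwH : w ∈ H := ⟨L.fix1, L.fix2⟩
  have hle : Nat.card H ≤ 16 := by
    rw [← P.card_fixed_sigma hN L.even1 L.inv1 L.ne1]
    exact Nat.card_le_card_of_injective (fun v : H => (⟨v, v.2.1⟩ : {u // P.sigma f1 u = u}))
      (fun v v' e => Subtype.ext (congrArg (fun t : {u // P.sigma f1 u = u} => (t : W)) e))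
  have hne16 : Nat.card H ≠ 16 := by
    intro h16
    obtain ⟨e, he1, he2⟩ := L.kern
    have hb := (Nat.bijective_iff_injective_and_card
      (fun v : H => (⟨v, v.2.1⟩ : {u // P.sigma f1 u = u}))).2
      ⟨fun v v' e => Subtype.ext (congrArg (fun t : {u // P.sigma f1 u = u} => (t : W)) e),
        by rw [h16, P.card_fixed_sigma hN L.even1 L.inv1 L.ne1]⟩
    obtain ⟨⟨v, hv⟩, hv'⟩ := hb.2 ⟨e, he1⟩
    have he : v = e := congrArg Subtype.val hv'
    subst he
    rw [((hmemH v).1 hv).2] at he2
    refine L.moved ?_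
    have : w = 1 := by simpa using he2.symm
    rw [this, map_one]
  obtain ⟨i, hi⟩ := (P.isPGroup.to_subgroup H).exists_card_eq
  let σ : Function.End H := fun v => ⟨P.c v, hcH v v.2⟩
  have hσ : σ ^ 3 ^ 1 = 1 := funext fun v => Subtype.ext (P.c_cube v.1)
  have hmod := Equiv.Perm.card_fixedPoints_modEq hσ
  have hone : Fintype.card (Function.fixedPoints σ) = 1 := by
    refine Fintype.card_eq_one_iff.2 ⟨⟨1, Subtype.ext (map_one P.c)⟩, fun v => ?_⟩
    exact Subtype.ext (Subtype.ext (P.eq_one_of_c_fixed hN (congrArg Subtype.val v.2)))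
  rw [hone, ← Nat.card_eq_fintype_card, hi] at hmod
  have hmod' : 2 ^ i % 3 = 1 := hmod
  have hi4 : Nat.card H ≤ 4 := by
    rw [hi] at hle hne16 ⊢
    have : i ≤ 4 := (Nat.pow_le_pow_iff_right (a := 2) (by norm_num)).1 (by simpa using hle)
    interval_cases i <;> simp_all
  by_contra hne
  push Not at hne
  have hw1 : w ≠ 1 := fun e => L.moved (by rw [e, map_one])
  have hcc : P.c (P.c w) ≠ w := fun e => L.moved (by
    have := congrArg P.c e; rwa [P.c_cube, eq_comm] at this)
  have hnd : [1, w, P.c w, P.c (P.c w), u].Nodup := by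
    simp only [List.nodup_cons, List.mem_cons, List.not_mem_nil, List.nodup_nil, not_or]
    have a1 : P.c w ≠ 1 := fun e => hw1 (P.c.injective (e.trans (map_one _).symm))
    have a2 : P.c (P.c w) ≠ 1 := fun e => a1 (P.c.injective (e.trans (map_one _).symm))
    exact ⟨⟨hw1.symm, a1.symm, a2.symm, hne.1.symm, not_false⟩,
      ⟨L.moved.symm, hcc.symm, hne.2.1.symm, not_false⟩,
      ⟨fun e => L.moved (P.c.injective e.symm), hne.2.2.1.symm, not_false⟩,
      ⟨hne.2.2.2.symm, not_false⟩, not_false, trivial⟩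
  have hsub : ∀ x ∈ [1, w, P.c w, P.c (P.c w), u], x ∈ H := by
    simp only [List.mem_cons, List.not_mem_nil, or_false]
    rintro x (rfl | rfl | rfl | rfl | rfl)
    · exact H.one_mem
    · exact hwH
    · exact hcH _ hwH
    · exact hcH _ (hcH _ hwH)
    · exact ⟨h1, h2⟩
  have h5 : 5 ≤ Nat.card H := by
    have := Finset.card_le_card (s := [1, w, P.c w, P.c (P.c w), u].toFinset)
      (t := (H : Set W).toFinset) (fun x hx => by
        simpa using hsub x (List.mem_toFinset.1 hx))
    rw [List.toFinset_card_of_nodup hnd] at this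
    rw [Nat.card_eq_fintype_card]
    simpa [Set.toFinset_card] using this
  omega

theorem four_elements_fixed {h : P6} (hh : Perm.sign h = 1) (hhh : h * h = 1) {f1 f2 : P6} {w : W}
    (L : LineData P f1 f2 w) (e1 : h * f1 = f1 * h ∨ h * f1 = f2 * h ∨ h * f1 = f1 * f2 * h)
    (e2 : h * f2 = f2 * h ∨ h * f2 = f1 * h ∨ h * f2 = f1 * f2 * h) : P.sigma h w = w := by
  have hconj : ∀ f, Perm.sign f = 1 → (h * f = f1 * h ∨ h * f = f2 * h ∨ h * f = f1 * f2 * h) →
      P.sigma f (P.sigma h w) = P.sigma h w := by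
    intro f hf e
    have e' : f * h = h * f1 ∨ f * h = h * f2 ∨ f * h = h * (f1 * f2) := by
      have key : ∀ a, h * f = a * h → f * h = h * a := fun a ea => by
        calc f * h = h * (h * f) * h := by rw [← mul_assoc h h f, hhh, one_mul]
          _ = h * (a * h) * h := by rw [ea]
          _ = h * a := by rw [mul_assoc h, mul_assoc a, hhh, mul_one]
      exact e.imp (key _) (fun t => t.imp (key _) (key _))
    rw [← P.sigma_mul hf hh]
    rcases e' with e | e | e <;> rw [e]
    · rw [P.sigma_mul hh L.even1, L.fix1]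
    · rw [P.sigma_mul hh L.even2, L.fix2]
    · rw [P.sigma_mul hh (by rw [map_mul, L.even1, L.even2, one_mul]),
        P.sigma_mul L.even1 L.even2, L.fix2, L.fix1]
  have e2' : h * f2 = f1 * h ∨ h * f2 = f2 * h ∨ h * f2 = f1 * f2 * h := or_left_comm.1 e2
  rcases P.fixed_of_line hN L (hconj f1 L.even1 e1) (hconj f2 L.even2 e2') with e | e | e | e
  · exact absurd ((P.sigma h).injective (e.trans (map_one _).symm)) (fun t => L.moved (by rw [t, map_one]))
  · exact e
  · exfalso
    have := congrArg (P.sigma h) e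
    rw [← P.sigma_mul hh hh, hhh, P.sigma_one, P.comm_even _ _ hh, e] at this
    exact L.moved (by
      have t := congrArg P.c this
      rwa [P.c_cube] at t)
  · exfalso
    have := congrArg (P.sigma h) e
    rw [← P.sigma_mul hh hh, hhh, P.sigma_one, P.comm_even _ _ hh, P.comm_even _ _ hh, e,
      P.c_cube] at this
    exact L.moved this.symm

theorem exists_fA_conj {f1 f2 : P6} {w : W} (L : LineData P f1 f2 w) :
    ∃ g : P6, (g * fA = f1 * g) ∧
      (g * fB = f2 * g ∨ g * (fA * fB) = f2 * g) := by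
  obtain ⟨g, hg⟩ := exists_conj_fA f1 L.inv1 L.ne1 ((evenB_iff f1).2 L.even1)
  refine ⟨g, hg, ?_⟩
  set f2' := g⁻¹ * f2 * g with hf2'
  have back : ∀ a, f2' = a → g * a = f2 * g := fun a e => by rw [← e, hf2']; group
  have hA : g⁻¹ * f1 * g = fA := by rw [mul_assoc, ← hg]; group
  have hev : evenB f2' = true := (evenB_iff _).2 (by
    rw [hf2', Perm.sign_mul, Perm.sign_mul, Perm.sign_inv, L.even2, mul_one]
    exact Int.units_mul_self _)
  have hmem := even_cent_fA f2' (by
      rw [hf2', show g⁻¹ * f2 * g * (g⁻¹ * f2 * g) = g⁻¹ * (f2 * f2) * g by group, L.inv2]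
      group) hev (by
      rw [← hA, hf2', show g⁻¹ * f2 * g * (g⁻¹ * f1 * g) = g⁻¹ * (f2 * f1) * g by group, ← L.comm]
      group)
  have hne1 : f2' ≠ 1 := fun e => L.ne2 (by
    have := back 1 e
    exact mul_right_cancel (b := g) (by rw [one_mul]; exact ((mul_one g).symm.trans this).symm))
  have hneA : f2' ≠ fA := fun e => L.ne12 (mul_right_cancel (hg.symm.trans (back fA e)))
  simp only [List.mem_cons, List.not_mem_nil, or_false] at hmem
  rcases hmem with e | e | e | e | e | e
  · exact absurd e hne1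
  · exact absurd e hneA
  · exact Or.inl (back _ e)
  · exact Or.inr (back _ e)
  all_goals
    exfalso
    -- the other class of four-groups has no fixed vectors moved by `c`
    set ha := g * (swap 0 2 * swap 1 3) * g⁻¹ with hha
    set hb := g * (swap 2 4 * swap 3 5) * g⁻¹ with hhb
    have sev : ∀ a : P6, Perm.sign a = 1 → Perm.sign (g * a * g⁻¹) = 1 := fun a ha => by
      rw [Perm.sign_mul, Perm.sign_mul, Perm.sign_inv, ha, mul_one, Int.units_mul_self]
    have sa : Perm.sign ha = 1 := sev _ (by decide +kernel)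
    have sb : Perm.sign hb = 1 := sev _ (by decide +kernel)
    have f1e : f1 = g * fA * g⁻¹ := by rw [hg]; group
    have f2e := (back _ e).symm
    have f2e' : f2 = g * f2' * g⁻¹ := by rw [hf2']; group
    rw [e] at f2e'
    have mk : ∀ a b c : P6, a * b = c * a → (g * a * g⁻¹) * (g * b * g⁻¹) =
        (g * c * g⁻¹) * (g * a * g⁻¹) := fun a b c t => by
      rw [show g * a * g⁻¹ * (g * b * g⁻¹) = g * (a * b) * g⁻¹ by group, t]; group
    have f12 : ∀ d, f2 = g * d * g⁻¹ → f1 * f2 = g * (fA * d) * g⁻¹ := fun d hd => by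
      rw [f1e, hd]; group
    have fa : P.sigma ha w = w := by
      refine P.four_elements_fixed hN sa (by
        rw [hha, show g * (swap 0 2 * swap 1 3) * g⁻¹ * (g * (swap 0 2 * swap 1 3) * g⁻¹) =
          g * ((swap 0 2 * swap 1 3) * (swap 0 2 * swap 1 3) : P6) * g⁻¹ by group,
          show ((swap 0 2 * swap 1 3) * (swap 0 2 * swap 1 3) : P6) = 1 by decide +kernel]
        group) L ?_ ?_
      · rw [f12 _ f2e', f1e, f2e']
        first
          | exact Or.inl (mk _ _ _ (by decide +kernel))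
          | exact Or.inr (Or.inl (mk _ _ _ (by decide +kernel)))
          | exact Or.inr (Or.inr (mk _ _ _ (by decide +kernel)))
      · rw [f12 _ f2e', f1e, f2e']
        first
          | exact Or.inl (mk _ _ _ (by decide +kernel))
          | exact Or.inr (Or.inl (mk _ _ _ (by decide +kernel)))
          | exact Or.inr (Or.inr (mk _ _ _ (by decide +kernel)))
    have fb : P.sigma hb w = w := by
      refine P.four_elements_fixed hN sb (by
        rw [hhb, show g * (swap 2 4 * swap 3 5) * g⁻¹ * (g * (swap 2 4 * swap 3 5) * g⁻¹) =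
          g * ((swap 2 4 * swap 3 5) * (swap 2 4 * swap 3 5) : P6) * g⁻¹ by group,
          show ((swap 2 4 * swap 3 5) * (swap 2 4 * swap 3 5) : P6) = 1 by decide +kernel]
        group) L ?_ ?_
      · rw [f12 _ f2e', f1e, f2e']
        first
          | exact Or.inl (mk _ _ _ (by decide +kernel))
          | exact Or.inr (Or.inl (mk _ _ _ (by decide +kernel)))
          | exact Or.inr (Or.inr (mk _ _ _ (by decide +kernel)))
      · rw [f12 _ f2e', f1e, f2e']
        first
          | exact Or.inl (mk _ _ _ (by decide +kernel))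
          | exact Or.inr (Or.inl (mk _ _ _ (by decide +kernel)))
          | exact Or.inr (Or.inr (mk _ _ _ (by decide +kernel)))
    have hw : P.sigma (ha * hb) w = w := by rw [P.sigma_mul sa sb, fb, fa]
    have hab : ha * hb = g * ((swap 0 2 * swap 1 3) * (swap 2 4 * swap 3 5)) * g⁻¹ := by
      rw [hha, hhb]; group
    obtain ⟨k, hk⟩ := exists_conj_yAB (ha * hb) (by
        rw [hab]
        calc _ = g * (((swap 0 2 * swap 1 3) * (swap 2 4 * swap 3 5)) *
            ((swap 0 2 * swap 1 3) * (swap 2 4 * swap 3 5)) *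
            ((swap 0 2 * swap 1 3) * (swap 2 4 * swap 3 5)) : P6) * g⁻¹ := by group
          _ = 1 := by
            rw [show (((swap 0 2 * swap 1 3) * (swap 2 4 * swap 3 5)) *
              ((swap 0 2 * swap 1 3) * (swap 2 4 * swap 3 5)) *
              ((swap 0 2 * swap 1 3) * (swap 2 4 * swap 3 5)) : P6) = 1 by decide +kernel]
            group)
      (fun x hx => by
        rw [hab] at hx
        have hno : ∀ y : Fin 6, ((swap 0 2 * swap 1 3) * (swap 2 4 * swap 3 5) : P6) y ≠ y := by
          decide +kernel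
        refine hno (g⁻¹ x) ?_
        have := congrArg (g⁻¹ : P6) hx
        simpa [Perm.mul_apply] using this)
    have hk1 : w = 1 := by
      rcases Int.units_eq_one_or (Perm.sign k) with h | h
      · exact P.fpf_conj h (by decide +kernel) hN.fpf hk (by rw [map_mul, sa, sb, one_mul]) w hw
      · refine P.fpf_conj (g := k * (swap 0 3 * swap 1 4 * swap 2 5)) (by
          rw [Perm.sign_mul, h]; decide +kernel) (by decide +kernel) hN.fpf ?_
          (by rw [map_mul, sa, sb, one_mul]) w hw
        rw [mul_assoc, show (swap 0 3 * swap 1 4 * swap 2 5 : P6) * yAB =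
          yAB * (swap 0 3 * swap 1 4 * swap 2 5) by decide +kernel, ← mul_assoc, hk, mul_assoc]
    exact L.moved (by rw [hk1, map_one])

end Normal

end Pair

end CfsgLib.SThreeSSix
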