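import Cfsg.Agent.Lib.SThreeSSix.Coord
import Cfsg.Agent.Lib.SThreeSSix.Line

/-!
The centraliser of `z` with quotient the equal-sign part of `S₃ × S₆`: coordinates on `Q/⟨z⟩`
and the position of a conjugate of `z` lying in `Q`.
-/

set_option autoImplicit false
set_option maxRecDepth 100000
set_option synthInstance.maxSize 2000
set_option synthInstance.maxHeartbeats 400000
set_option linter.unusedSectionVars false
set_option linter.style.haveILetI false

namespace CfsgLib.SThreeSSix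

open Equiv CfsgLib.ExtraspecialLarge

/-- The element of order three of the symmetric group of degree three. -/
def c3 : Perm (Fin 3) := swap 0 2 * swap 0 1

/-- The first component going with a permutation of six points. -/
def par (g : P6) : Perm (Fin 3) := if evenB g then 1 else swap 0 1

theorem sign_par (g : P6) : Perm.sign (par g) = Perm.sign g := by
  rw [sign_eq g, par]
  cases evenB g <;> decide +kernel

theorem par_decomp : ∀ (p : Perm (Fin 3)) (b : Bool), Perm.sign p = (if b then 1 else -1) →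
    ∃ i : Fin 3, p = c3 ^ i.val * (if b then 1 else swap 0 1) := by decide +kernel

theorem odd_c3 : (swap 0 1 : Perm (Fin 3)) * c3 = c3 * c3 * swap 0 1 := by decide +kernel

theorem c3_cube : c3 * c3 * c3 = 1 := by decide +kernel

theorem par_sq_even : ∀ p : Perm (Fin 3), Perm.sign p = 1 → p * p = 1 → p = 1 := by decide +kernel

theorem par_c3 : ∀ p : Perm (Fin 3), Perm.sign p = -1 → c3 * p * c3⁻¹ * p ≠ 1 := by decide +kernel

theorem act_tC : ∀ i : Fin 3, ∀ g ∈ [tC, fA * tC, fB * tC, fA * fB * tC],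
    act i g aStd = aStd → i = 0 := by decide +kernel

variable {G : Type*} [Group G] [Finite G]

/-- The hypotheses at one involution. -/
structure Base (Qf : G → Subgroup G) (z : G) : Prop where
  core : CoreSetting Qf z
  card : Nat.card ↥(Qf z) = 2 ^ 9
  iso : ∃ φ : ↥(Subgroup.centralizer ({z} : Set G)) →* Perm (Fin 3) × P6,
    (∀ m, φ m = 1 ↔ (m : G) ∈ Qf z) ∧ (∀ p, p ∈ φ.range ↔ Perm.sign p.1 = Perm.sign p.2)
  fused : ∃ g : G, g * z * g⁻¹ ∈ Qf z ∧ g * z * g⁻¹ ≠ z

/-- Coordinates at `z`. -/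
structure Rep (Qf : G → Subgroup G) (z : G) where
  co : G → Vec
  ii : G → Fin 3
  gg : G → P6
  co_mul : ∀ q ∈ Qf z, ∀ r ∈ Qf z, co (q * r) = wadd (co q) (co r)
  co_eq : ∀ q ∈ Qf z, (co q = w0 ↔ q = 1 ∨ q = z)
  co_surj : ∀ m, ∃ q ∈ Qf z, co q = m
  co_conj : ∀ x : G, x * z = z * x → ∀ q ∈ Qf z, co (x * q * x⁻¹) = act (ii x) (gg x) (co q)
  act_surj : ∀ i g, ∃ x : G, x * z = z * x ∧ ii x = i ∧ gg x = g
  mem_Q : ∀ x : G, x * z = z * x → ii x = 0 → gg x = 1 → x ∈ Qf z
  pos : ∀ g : G, g * z * g⁻¹ ∈ Qf z → g * z * g⁻¹ ≠ z →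
    ∃ i h, co (g * z * g⁻¹) = act i h aStd
  inter : ∀ g : G, g * z * g⁻¹ ∈ Qf z → co (g * z * g⁻¹) = aStd →
    Nat.card ↥(Qf z ⊓ Qf (g * z * g⁻¹)) = 32 ∧
      ∀ e ∈ Qf z ⊓ Qf (g * z * g⁻¹), inE (co e) = true

theorem card_comm_inv {S : Subgroup P6} (hsq : ∀ s ∈ S, s * s = 1)
    (hcomm : ∀ s ∈ S, ∀ t ∈ S, s * t = t * s) :
    Nat.card ↥(S ⊓ alternatingGroup (Fin 6)) ≤ 4 := by
  classical
  by_cases h : ∀ s ∈ S ⊓ alternatingGroup (Fin 6), s = 1
  · rw [(Subgroup.eq_bot_iff_forall _).2 h, Subgroup.card_bot]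
    norm_num
  push Not at h
  obtain ⟨f, hf, hf1⟩ := h
  obtain ⟨g, hg⟩ := exists_conj_fA f (hsq _ hf.1) hf1 ((evenB_iff f).2 (Perm.mem_alternatingGroup.1 hf.2))
  let cand : List P6 := [1, fA, fB, fA * fB, fP, fA * fP]
  have hin : ∀ s ∈ S ⊓ alternatingGroup (Fin 6), g⁻¹ * s * g ∈ cand := by
    intro s hs
    have hA : fA = g⁻¹ * f * g := by rw [mul_assoc, ← hg]; group
    refine even_cent_fA _ ?_ ?_ ?_
    · rw [show g⁻¹ * s * g * (g⁻¹ * s * g) = g⁻¹ * (s * s) * g by group, hsq s hs.1]; group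
    · rw [evenB_iff, Perm.sign_mul, Perm.sign_mul, Perm.sign_inv,
        Perm.mem_alternatingGroup.1 hs.2, mul_one, Int.units_mul_self]
    · rw [hA, show g⁻¹ * s * g * (g⁻¹ * f * g) = g⁻¹ * (s * f) * g by group,
        hcomm s hs.1 f hf.1]
      group
  have key : ∃ u : P6, ∀ s ∈ S ⊓ alternatingGroup (Fin 6), g⁻¹ * s * g ∈ [1, fA, u, fA * u] := by
    by_cases h2 : ∀ s ∈ S ⊓ alternatingGroup (Fin 6), g⁻¹ * s * g ∈ [1, fA]
    · exact ⟨1, fun s hs => by
        have := h2 s hs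
        simp only [List.mem_cons, List.not_mem_nil, or_false] at this ⊢
        tauto⟩
    push Not at h2
    obtain ⟨t, ht, ht'⟩ := h2
    refine ⟨g⁻¹ * t * g, fun s hs => ?_⟩
    refine (comm_fA_cases _ (hin t ht) _ (hin s hs) ?_).resolve_left ht'
    rw [show g⁻¹ * t * g * (g⁻¹ * s * g) = g⁻¹ * (t * s) * g by group, hcomm t ht.1 s hs.1]
    group
  obtain ⟨u, hu⟩ := key
  calc Nat.card ↥(S ⊓ alternatingGroup (Fin 6))
      ≤ Nat.card {x // x ∈ [1, fA, u, fA * u]} := by
        refine Nat.card_le_card_of_injective (fun s => ⟨g⁻¹ * s.1 * g, hu s.1 s.2⟩) ?_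
        intro a b e
        exact Subtype.ext (mul_left_cancel (mul_right_cancel (Subtype.mk.inj e)))
    _ ≤ 4 := by
        rw [Nat.card_eq_fintype_card, Fintype.card_of_subtype [1, fA, u, fA * u].toFinset
          (fun x => by simp)]
        exact (List.toFinset_card_le _).trans (by simp)

theorem exists_pair {W : Type*} [CommGroup W] [Finite W] (hWsq : ∀ w : W, w * w = 1)
    (hWcard : Nat.card W = 256) {L : Subgroup (Perm (Fin 3) × P6)}
    (hL : ∀ p, p ∈ L ↔ Perm.sign p.1 = Perm.sign p.2) (ρ : L →* MulAut W) :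
    ∃ P : Pair W, P.Full ∧ ∀ (p : L) (i : Fin 3) (g : P6),
      (p : Perm (Fin 3) × P6) = (c3 ^ i.val * par g, g) →
      ∀ w, ρ p w = (P.c)^[i.val] (P.sigma g w) := by
  have hemb : ∀ g : P6, (par g, g) ∈ L := fun g => (hL _).2 (sign_par g)
  have hc3 : (c3, (1 : P6)) ∈ L := (hL _).2 (by decide +kernel)
  let sig : P6 → MulAut W := fun g => ρ ⟨_, hemb g⟩
  have hpar : ∀ g g', par (g * g') = par g * par g' := by
    intro g g'
    have H : ∀ b b' : Bool, ∀ c : Bool, ((if c then 1 else -1) : ℤˣ) = (if b then 1 else -1) * (if b' then 1 else -1) →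
        ((if c then 1 else swap 0 1) : Perm (Fin 3)) = (if b then 1 else swap 0 1) * (if b' then 1 else swap 0 1) := by
      decide +kernel
    exact H _ _ _ (by rw [← sign_eq, ← sign_eq, ← sign_eq, map_mul])
  have sig_mul : ∀ g g', sig (g * g') = sig g * sig g' := fun g g' => by
    simp only [sig, ← map_mul]
    refine congrArg ρ ?_
    refine Subtype.ext ?_
    simp only [Subgroup.coe_mul, Prod.mk_mul_mk, hpar]
  let P : Pair W :=
    { sigma := sig
      sigma_hom := fun g g' _ _ => sig_mul g g'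
      c := ρ ⟨_, hc3⟩
      c_cube := fun w => by
        have e : ρ ⟨_, hc3⟩ * ρ ⟨_, hc3⟩ * ρ ⟨_, hc3⟩ = 1 := by
          rw [← map_mul, ← map_mul, ← map_one ρ]
          refine congrArg ρ ?_
          refine Subtype.ext ?_
          simp only [Subgroup.coe_mul, Subgroup.coe_one, Prod.mk_mul_mk, mul_one, c3_cube]
          rfl
        exact DFunLike.congr_fun e w
      comm_even := fun g w hg => by
        have e : sig g * ρ ⟨_, hc3⟩ = ρ ⟨_, hc3⟩ * sig g := by
          simp only [sig, ← map_mul]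
          refine congrArg ρ ?_
          refine Subtype.ext ?_
          simp [Subgroup.coe_mul, Prod.mk_mul_mk, par, (evenB_iff g).2 hg]
        exact DFunLike.congr_fun e w
      comm_any := fun g => by
        cases hb : evenB g
        · refine Or.inr fun w => ?_
          have e : sig g * ρ ⟨_, hc3⟩ = ρ ⟨_, hc3⟩ * ρ ⟨_, hc3⟩ * sig g := by
            simp only [sig, ← map_mul]
            refine congrArg ρ ?_
            refine Subtype.ext ?_
            simp only [Subgroup.coe_mul, Prod.mk_mul_mk, mul_one, one_mul, par, hb,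
              Bool.false_eq_true, if_false]
            rw [odd_c3]
          exact DFunLike.congr_fun e w
        · refine Or.inl fun w => ?_
          have e : sig g * ρ ⟨_, hc3⟩ = ρ ⟨_, hc3⟩ * sig g := by
            simp only [sig, ← map_mul]
            refine congrArg ρ ?_
            refine Subtype.ext ?_
            simp [Subgroup.coe_mul, Prod.mk_mul_mk, par, hb]
          exact DFunLike.congr_fun e w
      sq := hWsq
      card := hWcard }
  have hFull : P.Full := ⟨sig_mul, fun g w hg => by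
    have e : sig g * ρ ⟨_, hc3⟩ = ρ ⟨_, hc3⟩ * ρ ⟨_, hc3⟩ * sig g := by
      simp only [sig, ← map_mul]
      refine congrArg ρ ?_
      refine Subtype.ext ?_
      have hb : evenB g = false := by
        cases hb : evenB g
        · rfl
        · rw [(evenB_iff g).1 hb] at hg; exact absurd hg (by decide)
      simp only [Subgroup.coe_mul, Prod.mk_mul_mk, mul_one, one_mul, par, hb,
        Bool.false_eq_true, if_false]
      rw [odd_c3]
    exact DFunLike.congr_fun e w⟩
  refine ⟨P, hFull, fun p i g hp w => ?_⟩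
  have e : p = (⟨_, hc3⟩ : L) ^ i.val * ⟨_, hemb g⟩ := by
    refine Subtype.ext ?_
    rw [Subgroup.coe_mul, Subgroup.coe_pow]
    show (p : Perm (Fin 3) × P6) = (c3, (1 : P6)) ^ i.val * (par g, g)
    rw [Prod.pow_mk, one_pow, Prod.mk_mul_mk, one_mul]
    exact hp
  rw [e, map_mul, map_pow]
  have hpow : ∀ (n : ℕ) (v : W), (P.c ^ n) v = (P.c)^[n] v := by
    intro n
    induction n with
    | zero => intro v; rfl
    | succ n ih => intro v; rw [pow_succ, Function.iterate_succ_apply]; exact ih _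
  exact hpow _ _

universe u

/-- The space `Q/⟨z⟩` with the action. -/
structure Pre {G : Type u} [Group G] (Qf : G → Subgroup G) (z : G)
    (φ : ↥(Subgroup.centralizer ({z} : Set G)) →* Perm (Fin 3) × P6) where
  W : Type u
  [grp : CommGroup W]
  [fin : Finite W]
  P : Pair W
  full : P.Full
  mq : ↥(Qf z) → W
  mq_mul : ∀ q r, mq (q * r) = mq q * mq r
  mq_one : ∀ q, mq q = 1 ↔ (q : G) = 1 ∨ (q : G) = z
  mq_surj : ∀ w, ∃ q, mq q = w
  ix : ↥(Subgroup.centralizer ({z} : Set G)) → Fin 3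
  hix : ∀ x, φ x = (c3 ^ (ix x).val * par (φ x).2, (φ x).2)
  conj : ∀ (x : ↥(Subgroup.centralizer ({z} : Set G))) (q q' : ↥(Qf z)),
    (q' : G) = (x : G) * q * (x : G)⁻¹ → mq q' = (P.c)^[(ix x).val] (P.sigma (φ x).2 (mq q))

attribute [instance] Pre.grp Pre.fin

set_option maxHeartbeats 800000 in
theorem exists_pre {G : Type u} [Group G] [Finite G] {Qf : G → Subgroup G} {z : G} (h : Base Qf z)
    {φ : ↥(Subgroup.centralizer ({z} : Set G)) →* Perm (Fin 3) × P6}
    (hker : ∀ m, φ m = 1 ↔ (m : G) ∈ Qf z)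
    (hrange : ∀ p, p ∈ φ.range ↔ Perm.sign p.1 = Perm.sign p.2) : Nonempty (Pre Qf z φ) := by
  classical
  let M := Subgroup.centralizer ({z} : Set G)
  have hM : ∀ {x : G}, x ∈ M ↔ x * z = z * x := fun {x} => Subgroup.mem_centralizer_singleton_iff
  have hQM : Qf z ≤ M := fun q hq => hM.2 (h.core.le_centralizer z hq)
  have hzM : z ∈ M := hM.2 rfl
  let Zs : Subgroup M := Subgroup.zpowers ⟨z, hzM⟩
  haveI : Zs.Normal := ⟨fun n hn g => by
    have hc : g * n = n * g := by
      obtain ⟨k, rfl⟩ := Subgroup.mem_zpowers_iff.1 hn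
      exact (Commute.zpow_right (show Commute g ⟨z, hzM⟩ from Subtype.ext (hM.1 g.2)) k).eq
    rwa [hc, mul_inv_cancel_right]⟩
  let Qm : Subgroup M := (Qf z).subgroupOf M
  haveI : Qm.Normal := ⟨fun n hn g => by
    have := h.core.conj_mem (g : G) z (Subgroup.mem_subgroupOf.1 hn)
    rw [show (g : G) * z * (g : G)⁻¹ = z from mul_inv_eq_iff_eq_mul.2 (hM.1 g.2)] at this
    exact Subgroup.mem_subgroupOf.2 this⟩
  let mk := QuotientGroup.mk' Zs
  let W : Subgroup (M ⧸ Zs) := Qm.map mk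
  haveI : W.Normal := Subgroup.Normal.map inferInstance mk (QuotientGroup.mk'_surjective Zs)
  have hZs : ∀ x : M, mk x = 1 ↔ (x : G) = 1 ∨ (x : G) = z := by
    intro x
    refine (QuotientGroup.eq_one_iff x).trans ⟨fun hx => ?_, fun hx => ?_⟩
    · obtain ⟨k, rfl⟩ := Subgroup.mem_zpowers_iff.1 hx
      rcases Int.even_or_odd' k with ⟨j, rfl | rfl⟩
      · left; simp [zpow_mul, pow_two, h.core.good.sq_u, zpow_ofNat]
      · right; simp [zpow_add, zpow_mul, pow_two, h.core.good.sq_u, zpow_ofNat]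
    · rcases hx with hx | hx
      · rw [show x = 1 from Subtype.ext hx]; exact Zs.one_mem
      · rw [show x = ⟨z, hzM⟩ from Subtype.ext hx]; exact Subgroup.mem_zpowers _
  let mq : ↥(Qf z) → W := fun q => ⟨mk ⟨q, hQM q.2⟩, ⟨q, hQM q.2⟩, q.2, rfl⟩
  have mq_surj : ∀ w : W, ∃ q, mq q = w := by
    rintro ⟨_, ⟨x, hx, rfl⟩⟩
    exact ⟨⟨x, hx⟩, rfl⟩
  have mq_mul : ∀ q r, mq (q * r) = mq q * mq r := fun q r => Subtype.ext (map_mul mk ⟨q, hQM q.2⟩ ⟨r, hQM r.2⟩)
  have mq_one : ∀ q : ↥(Qf z), mq q = 1 ↔ (q : G) = 1 ∨ (q : G) = z := fun q =>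
    (Subtype.ext_iff).trans (hZs _)
  have hWcomm : ∀ a b : W, a * b = b * a := by
    intro a b
    obtain ⟨q, rfl⟩ := mq_surj a
    obtain ⟨r, rfl⟩ := mq_surj b
    rw [← mul_inv_eq_one, ← mq_mul, ← mq_mul]
    have e : ∀ t : ↥(Qf z), (mq t)⁻¹ = mq t⁻¹ := fun t => by
      refine inv_eq_of_mul_eq_one_right ?_
      rw [← mq_mul, mul_inv_cancel]; exact (mq_one 1).2 (Or.inl rfl)
    rw [e, ← mq_mul, mq_one]
    rcases h.core.good.cases_conj q q.2 r r.2 with c | c
    · left
      simp only [Subgroup.coe_mul, Subgroup.coe_inv, mul_inv_rev]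
      rw [show (q : G) * r * ((q : G)⁻¹ * (r : G)⁻¹) = (q : G) * r * (q : G)⁻¹ * (r : G)⁻¹ by group, c,
        mul_inv_cancel]
    · right
      simp only [Subgroup.coe_mul, Subgroup.coe_inv, mul_inv_rev]
      rw [show (q : G) * r * ((q : G)⁻¹ * (r : G)⁻¹) = (q : G) * r * (q : G)⁻¹ * (r : G)⁻¹ by group, c,
        mul_inv_cancel_right]
  letI : CommGroup W := { (inferInstance : Group W) with mul_comm := hWcomm }
  have hWsq : ∀ w : W, w * w = 1 := by
    intro w
    obtain ⟨q, rfl⟩ := mq_surj w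
    rw [← mq_mul, mq_one]
    exact h.core.good.sq q q.2
  have hWcard : Nat.card W = 256 := by
    let f : ↥(Qf z) →* W := MonoidHom.mk' mq mq_mul
    have hf : Function.Surjective f := mq_surj
    have hk : f.ker = Subgroup.zpowers ⟨z, h.core.good.mem⟩ := by
      ext q
      rw [MonoidHom.mem_ker]
      refine (mq_one q).trans ⟨fun hq => ?_, fun hq => ?_⟩
      · rcases hq with hq | hq
        · rw [show q = 1 from Subtype.ext hq]; exact Subgroup.one_mem _
        · rw [show q = ⟨z, h.core.good.mem⟩ from Subtype.ext hq]; exact Subgroup.mem_zpowers _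
      · obtain ⟨k, rfl⟩ := Subgroup.mem_zpowers_iff.1 hq
        rcases Int.even_or_odd' k with ⟨j, rfl | rfl⟩
        · left; simp [zpow_mul, pow_two, h.core.good.sq_u, zpow_ofNat]
        · right; simp [zpow_add, zpow_mul, pow_two, h.core.good.sq_u, zpow_ofNat]
    have := Subgroup.card_eq_card_quotient_mul_card_subgroup f.ker
    rw [Nat.card_congr (QuotientGroup.quotientKerEquivOfSurjective f hf).toEquiv, h.card, hk,
      Nat.card_zpowers, orderOf_eq_prime (p := 2) (by
        rw [pow_two]; exact Subtype.ext h.core.good.sq_u)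
        (fun e => h.core.good.ne_one (congrArg Subtype.val e))] at this
    omega
  -- the action
  let actM : M →* MulAut W := (MulAut.conjNormal (H := W)).comp mk
  have actM_apply : ∀ (x : M) (q : ↥(Qf z)),
      actM x (mq q) = mq ⟨(x : G) * q * (x : G)⁻¹, by
        have := h.core.conj_mem (x : G) z q.2
        rwa [mul_inv_eq_iff_eq_mul.2 (hM.1 x.2)] at this⟩ := by
    intro x q
    apply Subtype.ext
    simp only [actM, MonoidHom.comp_apply, MulAut.conjNormal_apply, mq]
    rw [← map_inv, ← map_mul, ← map_mul]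
    rfl
  have hkerle : φ.rangeRestrict.ker ≤ actM.ker := by
    intro x hx
    have hxQ : (x : G) ∈ Qf z := (hker x).1 (congrArg Subtype.val (MonoidHom.mem_ker.1 hx : φ.rangeRestrict x = 1))
    rw [MonoidHom.mem_ker]
    ext w : 1
    obtain ⟨q, rfl⟩ := mq_surj w
    rw [actM_apply]
    show mq _ = mq q
    rw [show (⟨(x : G) * q * (x : G)⁻¹, _⟩ : ↥(Qf z)) = ⟨x, hxQ⟩ * q * ⟨x, hxQ⟩⁻¹ from rfl,
      mq_mul, mq_mul, hWcomm (mq _) (mq q), mul_assoc, ← mq_mul, mul_inv_cancel,
      (mq_one 1).2 (Or.inl rfl), mul_one]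
  let ρ : φ.range →* MulAut W :=
    φ.rangeRestrict.liftOfSurjective φ.rangeRestrict_surjective ⟨actM, hkerle⟩
  have ρ_apply : ∀ x, ρ (φ.rangeRestrict x) = actM x := fun x =>
    φ.rangeRestrict.liftOfRightInverse_comp_apply _ _ _ x
  obtain ⟨P, hFull, hρ⟩ := exists_pair hWsq hWcard hrange ρ
  -- components
  have hdec : ∀ x, ∃ i : Fin 3, φ x = (c3 ^ i.val * par (φ x).2, (φ x).2) := by
    intro x
    have hs := (hrange (φ x)).1 ⟨x, rfl⟩
    obtain ⟨i, hi⟩ := par_decomp (φ x).1 (evenB (φ x).2) (by rw [hs, sign_eq])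
    exact ⟨i, Prod.ext hi rfl⟩
  choose ix hix using hdec
  have actM_eq : ∀ (x : M) (w : W), actM x w = (P.c)^[(ix x).val] (P.sigma (φ x).2 w) := fun x w => by
    rw [← ρ_apply]
    exact hρ _ _ _ (hix x) w
  exact ⟨{
    W := W
    P := P
    full := hFull
    mq := mq
    mq_mul := mq_mul
    mq_one := mq_one
    mq_surj := mq_surj
    ix := ix
    hix := hix
    conj := fun x q q' e => by
      have e2 := actM_apply x q
      rw [actM_eq] at e2
      rw [e2]
      exact congrArg mq (Subtype.ext e) }⟩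

set_option maxHeartbeats 800000 in
theorem Pre.lineAt {G : Type u} [Group G] [Finite G] {Qf : G → Subgroup G} {z : G} (h : Base Qf z)
    {φ : ↥(Subgroup.centralizer ({z} : Set G)) →* Perm (Fin 3) × P6}
    (hker : ∀ m, φ m = 1 ↔ (m : G) ∈ Qf z)
    (hrange : ∀ p, p ∈ φ.range ↔ Perm.sign p.1 = Perm.sign p.2) (X : Pre Qf z φ)
    (g : G) (ha : g * z * g⁻¹ ∈ Qf z) (hne : g * z * g⁻¹ ≠ z) :
      ∃ (f1 f2 : P6) (i : Fin 3) (t : P6), LineData X.P f1 f2 (X.mq ⟨_, ha⟩) ∧
        Perm.sign t = -1 ∧ t * f1 = f1 * t ∧ t * f2 = f2 * t ∧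
        (X.P.c)^[i.val] (X.P.sigma t (X.mq ⟨_, ha⟩)) = X.mq ⟨_, ha⟩ ∧
        Nat.card ↥(Qf z ⊓ Qf (g * z * g⁻¹)) = 32 ∧
        ∀ e : ↥(Qf z), (e : G) ∈ Qf (g * z * g⁻¹) →
          (X.P.sigma f1 (X.mq e) = X.mq e ∨ X.P.sigma f1 (X.mq e) = X.mq e * X.mq ⟨_, ha⟩) ∧
          (X.P.sigma f2 (X.mq e) = X.mq e ∨ X.P.sigma f2 (X.mq e) = X.mq e * X.mq ⟨_, ha⟩) ∧
          ((X.P.c)^[i.val] (X.P.sigma t (X.mq e)) = X.mq e ∨
            (X.P.c)^[i.val] (X.P.sigma t (X.mq e)) = X.mq e * X.mq ⟨_, ha⟩) := by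
    classical
    obtain ⟨W, P, hFull, mq, mq_mul, mq_one, mq_surj, ix, hix, hconj⟩ := X
    dsimp only
    let M := Subgroup.centralizer ({z} : Set G)
    have hM : ∀ {x : G}, x ∈ M ↔ x * z = z * x := fun {x} => Subgroup.mem_centralizer_singleton_iff
    have hQM : Qf z ≤ M := fun q hq => hM.2 (h.core.le_centralizer z hq)
    have hWcomm : ∀ a b : W, a * b = b * a := mul_comm
    set a := g * z * g⁻¹ with hadef
    have hL : Line Qf z a := line h.core h.card ha hne
    have hgood : Good (Qf a) a := h.core.good_of_conj ⟨g, rfl⟩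
    let R : Subgroup M := (Qf a).subgroupOf M
    let S : Subgroup P6 := (R.map φ).map (MonoidHom.snd _ _)
    have hRmem : ∀ x : M, x ∈ R ↔ (x : G) ∈ Qf a := fun x => Subgroup.mem_subgroupOf
    have hsqφ : ∀ x : M, x ∈ R → φ x * φ x = 1 := fun x hx => by
      rw [← map_mul, hker]
      exact (hL.sq_R _ hx (hM.1 x.2)).1
    have hcommφ : ∀ x y : M, x ∈ R → y ∈ R → φ x * φ y = φ y * φ x := fun x y hx hy => by
      rw [← mul_inv_eq_one, ← map_mul, ← map_mul, ← map_inv, ← map_mul, hker]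
      have := hL.comm_R _ hx (hM.1 x.2) _ hy (hM.1 y.2)
      simp only [Subgroup.coe_mul, Subgroup.coe_inv, mul_inv_rev]
      rw [show (x : G) * y * ((x : G)⁻¹ * (y : G)⁻¹) = (x : G) * y * (x : G)⁻¹ * (y : G)⁻¹ by group]
      exact this.1
    have hsnd : ∀ x : M, x ∈ R → (φ x).2 = 1 → φ x = 1 := by
      intro x hx e
      refine Prod.ext (par_sq_even _ ?_ (congrArg Prod.fst (hsqφ x hx))) e
      rw [(hrange (φ x)).1 ⟨x, rfl⟩, e, map_one]
    have hSmem : ∀ s, s ∈ S ↔ ∃ x ∈ R, (φ x).2 = s := by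
      intro s
      simp only [S, Subgroup.mem_map, MonoidHom.coe_snd, exists_exists_and_eq_and]
      exact Iff.rfl
    have hSsq : ∀ s ∈ S, s * s = 1 := by
      intro s hs
      obtain ⟨x, hx, rfl⟩ := (hSmem s).1 hs
      exact congrArg Prod.snd (hsqφ x hx)
    have hScomm : ∀ s ∈ S, ∀ t ∈ S, s * t = t * s := by
      intro s hs t ht
      obtain ⟨x, hx, rfl⟩ := (hSmem s).1 hs
      obtain ⟨y, hy, rfl⟩ := (hSmem t).1 ht
      exact congrArg Prod.snd (hcommφ x y hx hy)
    have hSA := card_comm_inv hSsq hScomm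
    have hSle : Nat.card S ≤ 2 * Nat.card ↥(S ⊓ alternatingGroup (Fin 6)) := by
      let f : S →* ℤˣ := (Perm.sign).comp S.subtype
      have hk : Nat.card f.ker = Nat.card ↥(S ⊓ alternatingGroup (Fin 6)) := by
        refine Nat.card_congr ⟨fun x => ⟨x.1.1, x.1.2, Perm.mem_alternatingGroup.2 x.2⟩,
          fun x => ⟨⟨x.1, x.2.1⟩, Perm.mem_alternatingGroup.1 x.2.2⟩, fun _ => rfl, fun _ => rfl⟩
      rw [Subgroup.card_eq_card_quotient_mul_card_subgroup f.ker, hk,
        Nat.card_congr (QuotientGroup.quotientKerEquivRange f).toEquiv]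
      refine Nat.mul_le_mul_right _ ?_
      calc Nat.card f.range ≤ Nat.card ℤˣ := Nat.card_le_card_of_injective _ Subtype.val_injective
        _ = 2 := by rw [Nat.card_eq_fintype_card]; decide
    have hcards : Nat.card S * Nat.card ↥(Qf z ⊓ Qf a) = 256 := by
      let f : R →* P6 := ((MonoidHom.snd _ _).comp φ).comp R.subtype
      have hr : Nat.card f.range = Nat.card S := by
        refine Nat.card_congr (Equiv.subtypeEquivRight fun s => ?_)
        rw [hSmem]
        exact ⟨fun ⟨x, hx⟩ => ⟨x.1, x.2, hx⟩, fun ⟨x, hx, e⟩ => ⟨⟨x, hx⟩, e⟩⟩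
      have hk : Nat.card f.ker = Nat.card ↥(Qf z ⊓ Qf a) := by
        refine Nat.card_congr
          ⟨fun x => ⟨x.1.1, (hker x.1.1).1 (hsnd x.1.1 x.1.2 x.2), x.1.2⟩,
           fun e => ⟨⟨⟨e.1, hQM e.2.1⟩, e.2.2⟩, ?_⟩, fun _ => rfl, fun _ => rfl⟩
        show (φ ⟨e.1, hQM e.2.1⟩).2 = 1
        rw [(hker ⟨e.1, hQM e.2.1⟩).2 e.2.1]; rfl
      have hR : Nat.card R = 256 := by
        rw [← hL.card_R]
        exact Nat.card_congr ⟨fun x => ⟨x.1.1, x.2, x.1.2⟩, fun x => ⟨⟨x.1, x.2.2⟩, x.2.1⟩,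
          fun _ => rfl, fun _ => rfl⟩
      have := Subgroup.card_eq_card_quotient_mul_card_subgroup f.ker
      rw [Nat.card_congr (QuotientGroup.quotientKerEquivRange f).toEquiv, hr, hk, hR] at this
      exact this.symm
    have hE32 : Nat.card ↥(Qf z ⊓ Qf a) = 32 := by
      have := hL.card_E_le
      nlinarith
    have hS8 : Nat.card S = 8 := by rw [hE32] at hcards; omega
    have hA4 : Nat.card ↥(S ⊓ alternatingGroup (Fin 6)) = 4 := by omega
    obtain ⟨⟨f1, hf1⟩, hf1ne⟩ : ∃ f : ↥(S ⊓ alternatingGroup (Fin 6)), f ≠ 1 := by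
      haveI : Nontrivial ↥(S ⊓ alternatingGroup (Fin 6)) :=
        Finite.one_lt_card_iff_nontrivial.1 (by omega)
      exact exists_ne 1
    obtain ⟨f2, hf2, hf2ne1, hf2ne⟩ : ∃ f ∈ S ⊓ alternatingGroup (Fin 6), f ≠ 1 ∧ f ≠ f1 := by
      by_contra hcon
      push Not at hcon
      have : Nat.card ↥(S ⊓ alternatingGroup (Fin 6)) ≤ Nat.card {x // x ∈ [1, f1]} :=
        Nat.card_le_card_of_injective
          (fun s => ⟨s.1, by
            by_cases e : s.1 = 1
            · simp [e]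
            · simp [hcon s.1 s.2 e]⟩)
          (fun a b e => Subtype.ext (congrArg (fun t : {x // x ∈ [1, f1]} => t.1) e))
      rw [hA4, Nat.card_eq_fintype_card,
        Fintype.card_of_subtype [1, f1].toFinset (fun x => by simp)] at this
      have h2 := (List.toFinset_card_le ([1, f1] : List P6))
      simp only [List.length_cons, List.length_nil] at h2
      omega
    obtain ⟨t, htS, htodd⟩ : ∃ t ∈ S, Perm.sign t = -1 := by
      by_contra hcon
      push Not at hcon
      have : S ≤ S ⊓ alternatingGroup (Fin 6) := fun s hs =>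
        ⟨hs, Perm.mem_alternatingGroup.2 ((Int.units_eq_one_or _).resolve_right (hcon s hs))⟩
      have := Subgroup.card_le_of_le this
      omega
    obtain ⟨x1, hx1, ex1⟩ := (hSmem f1).1 hf1.1
    obtain ⟨x2, hx2, ex2⟩ := (hSmem f2).1 hf2.1
    obtain ⟨xt, hxt, ext⟩ := (hSmem t).1 htS
    have hsig : ∀ (x : M) (f : P6), x ∈ R → (φ x).2 = f → Perm.sign f = 1 →
        ∀ q q' : ↥(Qf z), (q' : G) = (x : G) * q * (x : G)⁻¹ → mq q' = P.sigma f (mq q) := by
      intro x f hx e hf q q' hq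
      have h1 : (φ x).1 = 1 := par_sq_even _ (by rw [(hrange (φ x)).1 ⟨x, rfl⟩, e, hf])
        (congrArg Prod.fst (hsqφ x hx))
      have h2 := congrArg Prod.fst (hix x)
      simp only [h1, e, par, (evenB_iff f).2 hf, if_true, mul_one] at h2
      have : ix x = 0 := by
        have H : ∀ i : Fin 3, 1 = c3 ^ i.val → i = 0 := by decide +kernel
        exact H _ h2
      rw [hconj x q q' hq, this, e]; rfl
    have hxnQ : ∀ (x : M), (φ x).2 ≠ 1 → (x : G) ∉ Qf z := fun x e hxQ =>
      e (congrArg Prod.snd ((hker x).2 hxQ))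
    have hconjQ : ∀ (x : M) (q : ↥(Qf z)), (x : G) * q * (x : G)⁻¹ ∈ Qf z := fun x q => by
      have := h.core.conj_mem (x : G) z q.2
      rwa [mul_inv_eq_iff_eq_mul.2 (hM.1 x.2)] at this
    have hact : ∀ (x : M), x ∈ R → ∀ e : ↥(Qf z), (e : G) ∈ Qf a →
        mq ⟨_, hconjQ x e⟩ = mq e ∨ mq ⟨_, hconjQ x e⟩ = mq e * mq ⟨a, ha⟩ := by
      intro x hx e he
      rcases hL.conj_E _ hx e ⟨e.2, he⟩ with c | c
      · exact Or.inl (congrArg mq (Subtype.ext c))
      · right
        rw [hWcomm (mq e), ← mq_mul]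
        exact congrArg mq (Subtype.ext c)
    have hfixw : ∀ x : M, x ∈ R → mq ⟨_, hconjQ x ⟨a, ha⟩⟩ = mq ⟨a, ha⟩ := fun x hx =>
      congrArg mq (Subtype.ext (mul_inv_eq_iff_eq_mul.2 (hgood.comm _ hx)))
    have hE1 := hsig x1 f1 hx1 ex1 (Perm.mem_alternatingGroup.1 hf1.2)
    have hE2 := hsig x2 f2 hx2 ex2 (Perm.mem_alternatingGroup.1 hf2.2)
    have hf1' : f1 ≠ 1 := fun e => hf1ne (Subtype.ext e)
    have hLD : LineData P f1 f2 (mq ⟨a, ha⟩) := by
      refine ⟨Perm.mem_alternatingGroup.1 hf1.2, Perm.mem_alternatingGroup.1 hf2.2, hSsq _ hf1.1,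
        hSsq _ hf2.1, hf1', hf2ne1, Ne.symm hf2ne, hScomm _ hf1.1 _ hf2.1, ?_, ?_, ?_, ?_, ?_⟩
      · rw [← hE1 _ ⟨_, hconjQ x1 ⟨a, ha⟩⟩ rfl]; exact hfixw _ hx1
      · rw [← hE2 _ ⟨_, hconjQ x2 ⟨a, ha⟩⟩ rfl]; exact hfixw _ hx2
      · -- an element of order three of the first factor does not fix `a` modulo `z`
        intro hcw
        obtain ⟨C, hC⟩ := (hrange (c3, (1 : P6))).2 (by decide +kernel)
        have hCw : mq ⟨_, hconjQ C ⟨a, ha⟩⟩ = mq ⟨a, ha⟩ := by
          rw [hconj C ⟨a, ha⟩ _ rfl, hC, P.sigma_one]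
          have h1 := congrArg Prod.fst (hix C)
          simp only [hC] at h1
          have H : ∀ i : Fin 3, c3 = c3 ^ i.val * par 1 → i = 1 := by decide +kernel
          rw [H _ h1]
          exact hcw
        obtain ⟨C', hC'φ, hC'a⟩ : ∃ C' : M, φ C' = (c3, 1) ∧ (C' : G) * a * (C' : G)⁻¹ = a := by
          have h1 := hCw
          rw [← mul_inv_eq_one] at h1
          have h2 : ∀ t : ↥(Qf z), (mq t)⁻¹ = mq t⁻¹ := fun t => by
            refine inv_eq_of_mul_eq_one_right ?_
            rw [← mq_mul, mul_inv_cancel]; exact (mq_one 1).2 (Or.inl rfl)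
          rw [h2, ← mq_mul, mq_one] at h1
          simp only [Subgroup.coe_mul, Subgroup.coe_inv] at h1
          rcases h1 with h1 | h1
          · exact ⟨C, hC, mul_inv_eq_one.1 h1⟩
          · obtain ⟨q, hq, hqa⟩ : ∃ q ∈ Qf z, q * a * q⁻¹ = z * a := by
              by_contra hcon
              push Not at hcon
              rcases h.core.good.center a ha fun q hq => mul_inv_eq_iff_eq_mul.1
                  ((h.core.good.cases_conj q hq a ha).resolve_right (hcon q hq)) with e | e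
              · exact hgood.ne_one e
              · exact hne e
            refine ⟨⟨q, hQM hq⟩ * C, by rw [map_mul, (hker _).2 hq, one_mul, hC], ?_⟩
            rw [mul_inv_eq_iff_eq_mul] at h1
            simp only [Subgroup.coe_mul]
            calc q * (C : G) * a * (q * (C : G))⁻¹ = q * ((C : G) * a * (C : G)⁻¹) * q⁻¹ := by group
              _ = q * (z * a) * q⁻¹ := by rw [h1]
              _ = (q * z * q⁻¹) * (q * a * q⁻¹) := by group
              _ = z * (z * a) := by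
                rw [hqa, mul_inv_eq_iff_eq_mul.2 (h.core.good.comm q hq)]
              _ = a := by rw [← mul_assoc, h.core.good.sq_u, one_mul]
        have hy : C' * xt * C'⁻¹ ∈ R := by
          rw [hRmem]
          have := h.core.conj_mem (C' : G) a ((hRmem xt).1 hxt)
          rwa [hC'a] at this
        have := hsnd (C' * xt * C'⁻¹ * xt) (R.mul_mem hy hxt) (by
          simp only [map_mul, map_inv, hC'φ, Prod.snd_mul, Prod.snd_inv, ext]
          rw [one_mul, inv_one, mul_one, hSsq t htS])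
        refine par_c3 (φ xt).1 (by rw [(hrange (φ xt)).1 ⟨xt, rfl⟩, ext, htodd]) ?_
        have := congrArg Prod.fst this
        simpa [map_mul, map_inv, hC'φ] using this
      · obtain ⟨e, he, hr⟩ := hL.flip hE32 x1 ((hRmem x1).1 hx1) (hxnQ x1 (by rw [ex1]; exact hf1'))
        refine ⟨mq ⟨e, he.1⟩, ?_⟩
        rw [← hE1 _ ⟨_, hconjQ x1 ⟨e, he.1⟩⟩ rfl, hWcomm (mq _), ← mq_mul]
        exact congrArg mq (Subtype.ext hr)
      · obtain ⟨e, he, hr1, hr2⟩ := hL.kern hE32 x1 ((hRmem x1).1 hx1)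
          (hxnQ x1 (by rw [ex1]; exact hf1')) x2 ((hRmem x2).1 hx2)
          (hxnQ x2 (by rw [ex2]; exact hf2ne1))
          (hxnQ (x1 * x2) (by
            rw [map_mul, Prod.snd_mul, ex1, ex2]
            intro e
            apply hf2ne
            rw [eq_inv_of_mul_eq_one_right e, inv_eq_of_mul_eq_one_right (hSsq _ hf1.1)]))
        refine ⟨mq ⟨e, he.1⟩, ?_, ?_⟩
        · rw [← hE1 _ ⟨_, hconjQ x1 ⟨e, he.1⟩⟩ rfl]
          exact congrArg mq (Subtype.ext (mul_inv_eq_iff_eq_mul.2 hr1))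
        · rw [← hE2 _ ⟨_, hconjQ x2 ⟨e, he.1⟩⟩ rfl, hWcomm (mq _), ← mq_mul]
          exact congrArg mq (Subtype.ext hr2)
    refine ⟨f1, f2, ix xt, t, hLD, htodd, hScomm _ htS _ hf1.1, hScomm _ htS _ hf2.1, ?_, hE32,
      fun e he => ⟨?_, ?_, ?_⟩⟩
    · have := hfixw xt hxt
      rwa [hconj xt ⟨a, ha⟩ _ rfl, ext] at this
    · rw [← hE1 _ ⟨_, hconjQ x1 e⟩ rfl]; exact hact x1 hx1 e he
    · rw [← hE2 _ ⟨_, hconjQ x2 e⟩ rfl]; exact hact x2 hx2 e he
    · have := hact xt hxt e he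
      rwa [hconj xt e _ rfl, ext] at this

set_option maxHeartbeats 800000 in
theorem Base.exists_rep {G : Type u} [Group G] [Finite G] {Qf : G → Subgroup G} {z : G}
    (h : Base Qf z) : Nonempty (Rep Qf z) := by
  classical
  obtain ⟨φ, hker, hrange⟩ := h.iso
  obtain ⟨X⟩ := exists_pre h hker hrange
  have lineAt' := fun g ha hne => X.lineAt h hker hrange g ha hne
  obtain ⟨W, P, hFull, mq, mq_mul, mq_one, mq_surj, ix, hix, hconj⟩ := X
  dsimp only at lineAt'
  let M := Subgroup.centralizer ({z} : Set G)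
  have hM : ∀ {x : G}, x ∈ M ↔ x * z = z * x := fun {x} => Subgroup.mem_centralizer_singleton_iff
  have hWsq : ∀ w : W, w * w = 1 := P.sq
  -- normalisation and coordinates
  obtain ⟨g0, hg0, hg0'⟩ := h.fused
  obtain ⟨k1, k2, -, -, hk, -⟩ := lineAt' g0 hg0 hg0'
  obtain ⟨e, he, hN, hF⟩ := P.exists_normal hFull hk
  obtain ⟨C⟩ := (P.twist e he).exists_coords hN hF (P.lineData_twist (e := e) (he := he) hk)
  let Ψ := Equiv.ofBijective C.Φ C.bij
  have hΨ : ∀ w, C.Φ (Ψ.symm w) = w := fun w => Ψ.apply_symm_apply w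
  have hΨ' : ∀ m, Ψ.symm (C.Φ m) = m := fun m => Ψ.symm_apply_apply m
  let co : G → Vec := fun q => if hq : q ∈ Qf z then Ψ.symm (mq ⟨q, hq⟩) else w0
  let ii : G → Fin 3 := fun x => if hx : x ∈ M then ix ⟨x, hx⟩ else 0
  let gg : G → P6 := fun x => if hx : x ∈ M then e.symm (φ ⟨x, hx⟩).2 else 1
  have hco : ∀ q (hq : q ∈ Qf z), C.Φ (co q) = mq ⟨q, hq⟩ := fun q hq => by
    simp only [co, dif_pos hq, hΨ]
  have hΦ0 : C.Φ w0 = 1 := by
    have := C.map_add w0 w0
    rw [show wadd w0 w0 = w0 by decide +kernel] at this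
    exact (mul_eq_right (a := C.Φ w0)).1 this.symm
  have hiter : ∀ (n : ℕ) (m : Vec), C.Φ (actC^[n] m) = (P.c)^[n] (C.Φ m) := by
    intro n
    induction n with
    | zero => intro m; rfl
    | succ n ih =>
      intro m
      rw [Function.iterate_succ_apply', Function.iterate_succ_apply', C.map_c, ih]
      rfl
  have hact_coord : ∀ (i : Fin 3) (g : P6) (m : Vec),
      C.Φ (act i g m) = (P.c)^[i.val] (P.sigma (e g) (C.Φ m)) := fun i g m => by
    rw [act, hiter, C.map_g]; rfl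
  refine ⟨{
    co := co
    ii := ii
    gg := gg
    co_mul := ?_
    co_eq := ?_
    co_surj := ?_
    co_conj := ?_
    act_surj := ?_
    mem_Q := ?_
    pos := ?_
    inter := ?_ }⟩
  · intro q hq r hr
    refine C.bij.1 ?_
    rw [hco _ ((Qf z).mul_mem hq hr), C.map_add, hco q hq, hco r hr, ← mq_mul]
    rfl
  · intro q hq
    rw [← C.bij.1.eq_iff, hco q hq, hΦ0, mq_one]
  · intro m
    obtain ⟨q, hq⟩ := mq_surj (C.Φ m)
    exact ⟨q, q.2, C.bij.1 (by rw [hco _ q.2]; exact hq)⟩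
  · intro x hx q hq
    have hxM : x ∈ M := hM.2 hx
    have hq' : x * q * x⁻¹ ∈ Qf z := by
      have := h.core.conj_mem x z hq
      rwa [mul_inv_eq_iff_eq_mul.2 hx] at this
    refine C.bij.1 ?_
    rw [hco _ hq', hact_coord, hco q hq]
    simp only [ii, gg, dif_pos hxM, MulEquiv.apply_symm_apply]
    exact hconj ⟨x, hxM⟩ ⟨q, hq⟩ ⟨_, hq'⟩ rfl
  · intro i g
    obtain ⟨x, hx⟩ := (hrange (c3 ^ i.val * par (e g), e g)).2 (by
      rw [map_mul, map_pow, sign_par, show Perm.sign c3 = 1 by decide +kernel, one_pow, one_mul])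
    refine ⟨x, hM.1 x.2, ?_, ?_⟩
    · simp only [ii, dif_pos x.2]
      have h1 := congrArg Prod.fst (hix x)
      rw [dif_pos (show (x : G) ∈ M from x.2)]
      rw [hx] at h1
      have H : ∀ i j : Fin 3, c3 ^ i.val = c3 ^ j.val → i = j := by decide +kernel
      exact (H _ _ (mul_right_cancel h1)).symm
    · simp only [gg]
      rw [dif_pos (show (x : G) ∈ M from x.2)]
      simp only [Subtype.coe_eta, hx, MulEquiv.symm_apply_apply]
  · intro x hx hi hg
    have hxM : x ∈ M := hM.2 hx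
    simp only [ii, gg, dif_pos hxM] at hi hg
    refine (hker ⟨x, hxM⟩).1 ?_
    rw [hix ⟨x, hxM⟩, hi, show (φ ⟨x, hxM⟩).2 = 1 by simpa using congrArg e hg]
    refine Prod.ext ?_ rfl
    show c3 ^ (0 : Fin 3).val * par 1 = 1
    decide +kernel
  · intro g ha hne
    obtain ⟨f1, f2, i, t, hLD, -⟩ := lineAt' g ha hne
    obtain ⟨j, g', hj, -⟩ := (P.twist e he).exists_act_eq hN hF C (P.lineData_twist (e := e) (he := he) hLD)
    exact ⟨j, g', C.bij.1 (by rw [hco _ ha]; exact hj)⟩
  · intro g ha hstd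
    have hne : g * z * g⁻¹ ≠ z := by
      intro e'
      rw [e', (show co z = w0 from C.bij.1 (by
        rw [hco z h.core.good.mem, hΦ0, mq_one]; exact Or.inr rfl))] at hstd
      exact absurd hstd (by decide +kernel)
    obtain ⟨f1, f2, i, t, hLD, htodd, ht1, ht2, htw, h32, hE⟩ := lineAt' g ha hne
    refine ⟨h32, fun x hx => ?_⟩
    obtain ⟨j, g', hj, hg1, hg2⟩ := (P.twist e he).exists_act_eq hN hF C
      (P.lineData_twist (e := e) (he := he) hLD)
    rw [← hco _ ha, hstd] at hj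
    have hst := stab_of_fixed j g' (C.bij.1 hj).symm
    have hA' : g' * fA * g'⁻¹ ∈ [fA, fB, fA * fB] := (conj_std g').resolve_right fun e' => e' hst
    have hB' : g' * fB * g'⁻¹ ∈ [fA, fB, fA * fB] := (conj_std_B g').resolve_right fun e' => e' hst
    have hF1 : e.symm f1 = g' * fA * g'⁻¹ := by rw [hg1]; group
    have hF2 : e.symm f2 = g' * fB * g'⁻¹ ∨ e.symm f2 = g' * (fA * fB) * g'⁻¹ := by
      rcases hg2 with e' | e'
      · left; rw [e']; group
      · right; rw [e']; group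
    -- the possible images
    obtain ⟨s, hs⟩ : ∃ s, s = e.symm f1 := ⟨_, rfl⟩
    obtain ⟨s', hs'⟩ : ∃ s', s' = e.symm f2 := ⟨_, rfl⟩
    have hmemss : s ∈ [fA, fB, fA * fB] ∧ s' ∈ [fA, fB, fA * fB] ∧ s ≠ s' := by
      refine ⟨by rw [hs, hF1]; exact hA', ?_, fun e' => hLD.ne12 (e.symm.injective (hs.symm.trans (e'.trans hs')))⟩
      rcases hF2 with e' | e'
      · rw [hs', e']; exact hB'
      · rw [hs', e', show g' * (fA * fB) * g'⁻¹ = (g' * fA * g'⁻¹) * (g' * fB * g'⁻¹) by group]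
        have H : ∀ p ∈ [fA, fB, fA * fB], ∀ q ∈ [fA, fB, fA * fB], p = q ∨ p * q ∈ [fA, fB, fA * fB] := by
          decide +kernel
        refine (H _ hA' _ hB').resolve_left fun e'' => ?_
        exact absurd (mul_left_cancel (mul_right_cancel e'')) (by decide +kernel)
    have hs1 : P.sigma (e s) = P.sigma f1 := by rw [hs, e.apply_symm_apply]
    have hs2 : P.sigma (e s') = P.sigma f2 := by rw [hs', e.apply_symm_apply]
    have gen : ∀ p ∈ [fA, fB, fA * fB], ∀ q ∈ [fA, fB, fA * fB], p ≠ q →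
        (fA = p ∨ fA = q ∨ fA = p * q) ∧ (fB = p ∨ fB = q ∨ fB = p * q) := by decide +kernel
    obtain ⟨genA, genB⟩ := gen s hmemss.1 s' hmemss.2.1 hmemss.2.2
    obtain ⟨m, hm, hmx⟩ : ∃ m : Vec, m = co x ∧ C.Φ m = mq ⟨x, hx.1⟩ := ⟨_, rfl, hco x hx.1⟩
    obtain ⟨hE1, hE2, hE3⟩ := hE ⟨x, hx.1⟩ hx.2
    have hw : C.Φ aStd = mq ⟨_, ha⟩ := by rw [← hstd]; exact hco _ ha
    have hmove : ∀ p : P6, p = s ∨ p = s' ∨ p = s * s' →
        P.sigma (e p) (C.Φ m) = C.Φ m ∨ P.sigma (e p) (C.Φ m) = C.Φ m * C.Φ aStd := by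
      rw [hmx, hw]
      rintro p (rfl | rfl | rfl)
      · rw [hs1]; exact hE1
      · rw [hs2]; exact hE2
      · rw [map_mul, hFull.mul]
        show P.sigma _ (P.sigma _ _) = _ ∨ P.sigma _ (P.sigma _ _) = _
        have a1 : P.sigma (e s) = P.sigma f1 := hs1
        have a2 : P.sigma (e s') = P.sigma f2 := hs2
        rw [a1, a2]
        rcases hE1 with u | u <;> rcases hE2 with v | v <;> rw [v] <;>
          (try rw [map_mul, hLD.fix1]) <;> rw [u] <;> simp [mul_assoc, hWsq]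
    have toModel : ∀ (i' : Fin 3) (p : P6),
        ((P.c)^[i'.val] (P.sigma (e p) (C.Φ m)) = C.Φ m ∨
          (P.c)^[i'.val] (P.sigma (e p) (C.Φ m)) = C.Φ m * C.Φ aStd) →
        act i' p m = m ∨ act i' p m = wadd m aStd := by
      intro i' p hh
      rw [← hact_coord, ← C.map_add] at hh
      exact hh.imp (fun u => C.bij.1 u) (fun u => C.bij.1 u)
    have mA := toModel 0 fA (hmove fA genA)
    have mB := toModel 0 fB (hmove fB genB)
    -- the odd element
    obtain ⟨u, hu⟩ : ∃ u, u = e.symm t := ⟨_, rfl⟩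
    have hut : e u = t := by rw [hu, e.apply_symm_apply]
    have hcA : ∀ p, p = s ∨ p = s' ∨ p = s * s' → u * p = p * u := by
      have c1 : u * s = s * u := by rw [hu, hs, ← map_mul, ← map_mul, ht1]
      have c2 : u * s' = s' * u := by rw [hu, hs', ← map_mul, ← map_mul, ht2]
      rintro p (rfl | rfl | rfl)
      · exact c1
      · exact c2
      · rw [← mul_assoc, c1, mul_assoc, c2, mul_assoc]
    have hueven : evenB u = false := by
      cases hb : evenB u
      · rfl
      · exfalso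
        have : Perm.sign u = 1 := (evenB_iff u).1 hb
        rw [← he, hut, htodd] at this
        exact absurd this (by decide)
    have humem := odd_cent_std u hueven (hcA fA genA) (hcA fB genB)
    have hufix : act i u aStd = aStd := by
      refine C.bij.1 ?_
      rw [hact_coord, hut, hw]
      exact htw
    have hi0 : i = 0 := act_tC i u (by simpa using humem) hufix
    subst hi0
    rw [show act 0 fA m = actEven fA m from actG_of_even (g := fA) (by decide +kernel) m] at mA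
    rw [show act 0 fB m = actEven fB m from actG_of_even (g := fB) (by decide +kernel) m] at mB
    rw [← hm]
    refine mem_inE m mA mB ?_
    -- remove the four-group part of the odd element
    have hP : ∀ p q : P6, P.sigma (e (p * q)) (C.Φ m) = P.sigma (e p) (P.sigma (e q) (C.Φ m)) :=
      fun p q => by rw [map_mul, show P.sigma (e p * e q) = P.sigma (e p) * P.sigma (e q) from hFull.mul _ _]; rfl
    have hfixA : ∀ p, p = fA ∨ p = fB → P.sigma (e p) (C.Φ aStd) = C.Φ aStd := by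
      intro p hp
      have := (hact_coord 0 p aStd).symm
      refine this.trans (congrArg C.Φ ?_)
      rcases hp with rfl | rfl <;> decide +kernel
    have hU : P.sigma (e u) (C.Φ m) = C.Φ m ∨ P.sigma (e u) (C.Φ m) = C.Φ m * C.Φ aStd := by
      rw [hut, hmx, hw]; exact hE3
    have hstep : ∀ p q : P6, (p = fA ∨ p = fB) →
        (P.sigma (e q) (C.Φ m) = C.Φ m ∨ P.sigma (e q) (C.Φ m) = C.Φ m * C.Φ aStd) →
        P.sigma (e (p * q)) (C.Φ m) = C.Φ m ∨ P.sigma (e (p * q)) (C.Φ m) = C.Φ m * C.Φ aStd := by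
      intro p q hp hq
      rw [hP]
      rcases hq with v | v <;> rw [v] <;>
        rcases hmove p (by rcases hp with rfl | rfl; exacts [genA, genB]) with w | w <;>
        simp only [map_mul, w, hfixA p hp, mul_assoc, hWsq, mul_one, true_or, or_true]
    have hT : P.sigma (e tC) (C.Φ m) = C.Φ m ∨ P.sigma (e tC) (C.Φ m) = C.Φ m * C.Φ aStd := by
      rcases humem with rfl | rfl | rfl | rfl
      · exact hU
      · have := hstep fA _ (Or.inl rfl) hU
        rwa [← mul_assoc, show fA * fA = 1 by decide +kernel, one_mul] at this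
      · have := hstep fB _ (Or.inr rfl) hU
        rwa [← mul_assoc, show fB * fB = 1 by decide +kernel, one_mul] at this
      · have := hstep fA _ (Or.inl rfl) (hstep fB _ (Or.inr rfl) hU)
        rwa [show fA * (fB * (fA * fB * tC)) = tC by decide +kernel] at this
    have := toModel 0 tC hT
    rwa [show act 0 tC m = actOdd tC m from actG_of_odd (g := tC) (by decide +kernel) m] at this

end CfsgLib.SThreeSSix
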