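import Mathlib

/-!
"Lemma T" of the S3283 argument, coordinate-free.

* `sixteen_le_card_fixed` : an involution normalising a group `Q` with a central subgroup `Z` of
  order two, `Q/Z` elementary abelian, `|Q| = 2^9`, centralises at least sixteen elements of `Q`.
* `false_of_sym` : a quadratic function `q ↦ [c,q] mod D` that is constant on two triangles of
  opposite symplectic type cannot exist.
-/

set_option autoImplicit false

namespace CfsgLib.SThreeSSix.Sym

variable {G : Type*} [Group G]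

/-- Commutator with `c`. -/
def cm (c q : G) : G := c * q * c⁻¹ * q⁻¹

theorem cm_mul (c x y : G) :
    cm c (x * y) = cm c x * (x * cm c y * x⁻¹ * (cm c y)⁻¹) * cm c y := by
  simp only [cm]; group

/-- Two elements of the same `c`-type modulo a right factor centralised by `c`. -/
theorem cm_mul_right {c x k : G} (hk : c * k = k * c) : cm c (x * k) = cm c x := by
  simp only [cm, mul_inv_rev]
  rw [show c * (x * k) * c⁻¹ * (k⁻¹ * x⁻¹) = c * x * (k * c⁻¹ * k⁻¹) * x⁻¹ by group,
    show k * c⁻¹ * k⁻¹ = c⁻¹ by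
      rw [mul_assoc, ← mul_inv_rev, ← hk, mul_inv_rev, ← mul_assoc, mul_inv_cancel, one_mul]]

/-- Conjugation by an element commuting with `c` and normalising `D` preserves the type. -/
theorem cm_conj_mem_iff {c h x : G} {D : Subgroup G} (hh : c * h = h * c)
    (hD : ∀ d, d ∈ D ↔ h * d * h⁻¹ ∈ D) : cm c (h * x * h⁻¹) ∈ D ↔ cm c x ∈ D := by
  have e : cm c (h * x * h⁻¹) = h * cm c x * h⁻¹ := by
    simp only [cm]
    rw [show c * (h * x * h⁻¹) * c⁻¹ * (h * x * h⁻¹)⁻¹
      = (c * h) * x * (c * h)⁻¹ * h * x⁻¹ * h⁻¹ by group, hh]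
    group
  rw [e, ← hD]

/-- There is no function `q ↦ [c,q] mod D` which is quadratic with the given polar form and
constant on an orthogonal and on a non-orthogonal triangle. -/
theorem false_of_sym {z c : G} {D : Subgroup G} (hzD : z ∉ D) (hz : z * z = 1)
    (q₁ q₂ q₃ q₄ : G)
    (hzc : z * cm c q₃ = cm c q₃ * z)
    (h₁ : cm c q₁ ∈ D ∨ z * cm c q₁ ∈ D) (h₂ : cm c q₂ ∈ D ∨ z * cm c q₂ ∈ D)
    (hz₁ : z * cm c q₁ = cm c q₁ * z)
    (e₂ : cm c q₂ ∈ D ↔ cm c q₁ ∈ D) (e₁₂ : cm c (q₁ * q₂) ∈ D ↔ cm c q₁ ∈ D)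
    (e₃ : cm c q₃ ∈ D ↔ cm c q₁ ∈ D) (e₄ : cm c q₄ ∈ D ↔ cm c q₁ ∈ D)
    (e₃₄ : cm c (q₃ * q₄) ∈ D ↔ cm c q₁ ∈ D)
    (horth : q₁ * cm c q₂ * q₁⁻¹ * (cm c q₂)⁻¹ = 1)
    (hpair : q₃ * cm c q₄ * q₃⁻¹ * (cm c q₄)⁻¹ = z) : False := by
  rw [cm_mul, horth, mul_one] at e₁₂
  rw [cm_mul, hpair, ← hzc, mul_assoc] at e₃₄
  have hP : cm c q₁ ∈ D := by
    by_contra hP
    have a := h₁.resolve_left hP
    have b := h₂.resolve_left (fun h => hP (e₂.1 h))
    apply hP
    apply e₁₂.1
    have e : cm c q₁ * cm c q₂ = (z * cm c q₁) * (z * cm c q₂) := by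
      rw [hz₁, mul_assoc, ← mul_assoc z z, hz, one_mul]
    rw [e]
    exact D.mul_mem a b
  exact hzD ((D.mul_mem_cancel_right (D.mul_mem (e₃.2 hP) (e₄.2 hP))).1 (e₃₄.2 hP))

open scoped Classical in
/-- An involution normalising `Q` centralises at least sixteen of its elements. -/
theorem sixteen_le_card_fixed {G : Type*} [Group G] [Finite G] {z c : G} {Q : Subgroup G}
    (hcard : Nat.card Q = 2 ^ 9) (hz : z * z = 1)
    (hzc : ∀ x ∈ Q, z * x = x * z)
    (hsq : ∀ x ∈ Q, x * x = 1 ∨ x * x = z)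
    (hc : c * c = 1) (hcQ : ∀ x ∈ Q, c * x * c⁻¹ ∈ Q) :
    16 ≤ Nat.card ↥(Q ⊓ Subgroup.centralizer ({c} : Set G)) := by
  let S : Set G := {x | x ∈ Q ∧ c * x = x * c}
  let f : Q → G := fun x => (x : G)⁻¹ * (c * x * c⁻¹)
  -- P : the elements moved only inside `⟨z⟩`
  let P : Subgroup Q :=
    { carrier := {x | f x = 1 ∨ f x = z}
      one_mem' := by left; simp [f]
      mul_mem' := by
        intro x y hx hy
        have e : f (x * y) = (y : G)⁻¹ * f x * (y : G) * f y := by
          simp only [f, Subgroup.coe_mul]; group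
        show f (x * y) = 1 ∨ f (x * y) = z
        rw [e]
        have hzy : (y : G)⁻¹ * z * (y : G) = z := by rw [mul_assoc, hzc _ y.2, inv_mul_cancel_left]
        rcases hx with hx | hx <;> rcases hy with hy | hy <;> rw [hx, hy] <;> simp [hzy, hz]
      inv_mem' := by
        intro x hx
        have e : f x⁻¹ = (x : G) * (f x)⁻¹ * (x : G)⁻¹ := by
          simp only [f, Subgroup.coe_inv]; group
        show f x⁻¹ = 1 ∨ f x⁻¹ = z
        rw [e]
        rcases hx with hx | hx <;> rw [hx]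
        · left; simp
        · right
          rw [inv_eq_of_mul_eq_one_left hz, ← hzc _ x.2, mul_inv_cancel_right] }
  have hfQ : ∀ x : Q, f x ∈ Q := fun x => Q.mul_mem (Q.inv_mem x.2) (hcQ x x.2)
  -- `f` maps `Q` into `P`, and two arguments with the same value differ by an element of `P`
  have hfP : ∀ x : Q, (⟨f x, hfQ x⟩ : Q) ∈ P := by
    intro x
    show f ⟨f x, hfQ x⟩ = 1 ∨ f ⟨f x, hfQ x⟩ = z
    have e : f ⟨f x, hfQ x⟩ = (f x)⁻¹ * (f x)⁻¹ := by
      have hci : c⁻¹ = c := inv_eq_of_mul_eq_one_left hc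
      simp only [f, hci, mul_inv_rev, inv_inv]
      rw [show c * ((x : G)⁻¹ * (c * (x : G) * c)) * c = (c * (x : G)⁻¹ * c) * (x : G) * (c * c) by
        group, hc, mul_one]
      group
    rw [e, ← mul_inv_rev]
    rcases hsq _ (hfQ x) with h | h <;> rw [h]
    · left; exact inv_one
    · right; exact inv_eq_of_mul_eq_one_left hz
  have hfib : ∀ x y : Q, f x = f y → (x * y⁻¹ : Q) ∈ P := by
    intro x y h
    left
    simp only [f] at h ⊢
    have h1 : c * (x : G) * c⁻¹ = (x : G) * ((y : G)⁻¹ * (c * (y : G) * c⁻¹)) := by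
      rw [← h, mul_inv_cancel_left]
    rw [Subgroup.coe_mul, Subgroup.coe_inv,
      show c * ((x : G) * (y : G)⁻¹) * c⁻¹ = (c * x * c⁻¹) * (c * y * c⁻¹)⁻¹ by group, h1]
    group
  have hidx : P.index ≤ Nat.card P := by
    rw [Subgroup.index]
    let g : Q ⧸ P → P := fun q => ⟨⟨f (Quotient.out q)⁻¹, hfQ _⟩, hfP _⟩
    refine Nat.card_le_card_of_injective g ?_
    intro a b hab
    have h' : f (Quotient.out a)⁻¹ = f (Quotient.out b)⁻¹ := by
      simpa [g] using congrArg (fun w : P => ((w : Q) : G)) hab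
    have hm := hfib _ _ h'
    rw [inv_inv] at hm
    rw [← Quotient.out_eq a, ← Quotient.out_eq b]
    exact Quotient.sound (QuotientGroup.leftRel_apply.mpr hm)
  have hP : 32 ≤ Nat.card P := by
    have h := Subgroup.card_mul_index P
    rw [hcard] at h
    have hle : 2 ^ 9 ≤ Nat.card P * Nat.card P := h ▸ Nat.mul_le_mul_left _ hidx
    obtain ⟨k, hk, hk'⟩ := (Nat.dvd_prime_pow Nat.prime_two).1 (h ▸ Dvd.intro _ rfl)
    rw [hk'] at hle ⊢
    interval_cases k <;> revert hle <;> norm_num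
  let φ : P →* G :=
    { toFun := fun x => f (x : Q)
      map_one' := by simp [f]
      map_mul' := by
        intro x y
        have e : f ((x : Q) * (y : Q)) =
            ((y : Q) : G)⁻¹ * f (x : Q) * ((y : Q) : G) * f (y : Q) := by
          simp only [f, Subgroup.coe_mul]; group
        rw [Subgroup.coe_mul, e]
        congr 1
        rcases x.2 with hx | hx <;> rw [hx]
        · simp
        · rw [mul_assoc, hzc _ (y : Q).2, inv_mul_cancel_left] }
  have hr : φ.range ≤ Subgroup.zpowers z := by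
    rintro w ⟨x, rfl⟩
    rcases x.2 with hx | hx <;> (show f (x : Q) ∈ _; rw [hx])
    · exact one_mem _
    · exact Subgroup.mem_zpowers z
  have hker : 16 ≤ Nat.card φ.ker := by
    have h := Subgroup.card_mul_index φ.ker
    have h2 : φ.ker.index ≤ 2 := by
      rw [Subgroup.index_ker]
      refine le_trans (Subgroup.card_le_of_le hr) ?_
      rw [Nat.card_zpowers]
      exact Nat.le_of_dvd (by norm_num) (orderOf_dvd_of_pow_eq_one (by rw [pow_two]; exact hz))
    nlinarith [Nat.mul_le_mul_left (Nat.card φ.ker) h2]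
  refine hker.trans ?_
  refine Nat.card_le_card_of_injective (fun x : φ.ker => (⟨((x : P) : Q), ((x : P) : Q).2, ?_⟩ :
      ↥(Q ⊓ Subgroup.centralizer ({c} : Set G)))) ?_
  · have hx : f ((x : P) : Q) = 1 := x.2
    simp only [f] at hx
    rw [inv_mul_eq_one] at hx
    exact Subgroup.mem_centralizer_singleton_iff.mpr (by
      nth_rw 1 [hx]
      rw [inv_mul_cancel_right])
  · intro a b hab
    have : ((a : P) : Q) = ((b : P) : Q) := Subtype.ext (congrArg Subtype.val hab :)
    exact Subtype.ext (Subtype.ext this)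

end CfsgLib.SThreeSSix.Sym
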